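/-
SE.A1: Peterfalvi, appendix I (odd order transitive linear groups).
-/
import Cfsg.Agent.SE.Sub
import Cfsg.Agent.FT.Final

set_option autoImplicit false

namespace SE
open Subgroup H9 MulAction Finset
variable {Γ E : Type*} [Group Γ] [AddCommGroup E] [DistribMulAction Γ E]

/-- norm map -/
def Nm (p : ℕ) (u : Γ) (e : E) : E := ∑ i ∈ range p, u ^ i • e

theorem Nm_add (p : ℕ) (u : Γ) (a b : E) : Nm p u (a + b) = Nm p u a + Nm p u b := by
  simp only [Nm, smul_add, sum_add_distrib]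
theorem Nm_sub (p : ℕ) (u : Γ) (a b : E) : Nm p u (a - b) = Nm p u a - Nm p u b := by
  simp only [Nm, smul_sub, sum_sub_distrib]
theorem Nm_smul (p : ℕ) {u h : Γ} (e : Commute u h) (a : E) : Nm p u (h • a) = h • Nm p u a := by
  simp only [Nm, smul_sum, ← mul_smul, (e.pow_left _).eq]
theorem Nm_fix {p : ℕ} {u : Γ} (h : u ^ p = 1) (a : E) : u • Nm p u a = Nm p u a := by
  have h1 := sum_range_succ' (fun i => u ^ i • a) p
  rw [sum_range_succ, h, pow_zero, add_left_inj] at h1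
  simp only [Nm, smul_sum, ← mul_smul, ← pow_succ']
  exact h1.symm
theorem Nm_fixed (p : ℕ) {u : Γ} {a : E} (h : u • a = a) : Nm p u a = p • a := by
  have : ∀ i : ℕ, u ^ i • a = a := fun i => (stabilizer Γ a).pow_mem h i
  simp [Nm, this]
theorem Nm_congr (p : ℕ) {u v : Γ} (e : Commute u v) {a : E} (h : u • a = v • a) : Nm p u a = Nm p v a := by
  refine sum_congr rfl fun i hi => ?_
  clear hi
  induction i with
  | zero => simp
  | succ i ih => rw [pow_succ, mul_smul, h, ← mul_smul, (e.pow_left i).eq, mul_smul, ih, ← mul_smul, ← pow_succ']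

/-- `u` acts without non-zero fixed vectors -/
def Fr (E : Type*) [AddCommGroup E] [DistribMulAction Γ E] (u : Γ) : Prop := ∀ a : E, u • a = a → a = 0

theorem Nm_zero {p : ℕ} {u : Γ} (h : u ^ p = 1) (h1 : Fr E u) (a : E) : Nm p u a = 0 := h1 _ (Nm_fix h a)

theorem not_free {p : ℕ} [hp : Fact p.Prime] [Finite Γ] (hp' : ∀ a : E, p • a = 0 → a = 0) [Nontrivial E] {A : Subgroup Γ}
    (hA : Cfsg.IsElementaryAbelian p A) (hc : Nat.card A = p ^ 2) : ∃ y ∈ A, y ≠ 1 ∧ ¬ Fr E y := by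
  by_contra h
  push Not at h
  have hnc := L.not_isCyclic_of_elem_sq hA hc
  obtain ⟨x, hx, x1⟩ : ∃ x ∈ A, x ≠ 1 := by
    by_contra h1; push Not at h1
    exact hnc ((eq_bot_iff_forall A).2 h1 ▸ inferInstance)
  obtain ⟨y, hy, y1⟩ : ∃ y ∈ A, y ∉ zpowers x := by
    by_contra h1; push Not at h1
    exact hnc (le_antisymm h1 (zpowers_le.2 hx) ▸ inferInstance)
  have cm : Commute x y := congrArg Subtype.val (hA.1.is_comm.comm (⟨x, hx⟩ : A) ⟨y, hy⟩)
  obtain ⟨a, ha⟩ := exists_ne (0 : E)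
  apply ha (hp' a _)
  have e1 : ∑ j ∈ range p, Nm p (x ^ j * y) a = 0 := sum_eq_zero fun j _ => by
    have hm := A.mul_mem (A.pow_mem hx j) hy
    exact Nm_zero (hA.2 _ hm) (h _ hm fun e => y1 (by
      rw [mul_eq_one_iff_inv_eq.1 e |>.symm]; exact inv_mem (pow_mem (mem_zpowers x) j))) a
  have e2 : ∀ i ∈ range p, i ≠ 0 → ∑ j ∈ range p, (x ^ j * y) ^ i • a = 0 := fun i hi h0 => by
    have hm := A.pow_mem hx i
    rw [← Nm_zero (hA.2 _ hm) (h _ hm fun e => ?_) (y ^ i • a)]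
    · refine sum_congr rfl fun j _ => ?_
      rw [(cm.pow_left j).mul_pow, mul_smul, ← pow_mul, ← pow_mul, mul_comm]
    · have := orderOf_dvd_of_pow_eq_one e
      rw [orderOf_eq_prime (hA.2 x hx) x1] at this
      exact absurd (Nat.le_of_dvd (Nat.pos_of_ne_zero h0) this) (not_le.2 (mem_range.1 hi))
  simp only [Nm] at e1
  rw [sum_comm, sum_eq_single 0 e2 (fun h => absurd (mem_range.2 hp.out.pos) h)] at e1
  simpa using e1

section
variable {p : ℕ} [hp : Fact p.Prime] [Finite Γ] [FaithfulSMul Γ E] {P : Subgroup Γ}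
  (hc : ∀ a b : E, a ≠ 0 → b ≠ 0 → Nat.card (P ⊓ stabilizer Γ a : Subgroup Γ) = Nat.card (P ⊓ stabilizer Γ b : Subgroup Γ))
  (hp' : ∀ a : E, p • a = 0 → a = 0)
include hc

omit [FaithfulSMul Γ E] in
theorem st_step {a b : E} (ha : a ≠ 0) (hab : a + b ≠ 0) (h : ∀ g ∈ P, g • (a + b) = a + b → g • a = a) {g : Γ} (hg : g ∈ P)
    (h1 : g • a = a) : g • b = b := by
  have e : P ⊓ stabilizer Γ (a + b) = P ⊓ stabilizer Γ a :=
    eq_of_le_of_card_ge (fun x hx => ⟨hx.1, h x hx.1 hx.2⟩) (hc _ _ ha hab).le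
  have : g • (a + b) = a + b := (e.ge ⟨hg, h1⟩).2
  rwa [smul_add, h1, add_right_inj] at this

include hp'

theorem fr_central {x : Γ} (hx : x ∈ P) (hz : ∀ g ∈ P, Commute x g) (h1 : x ≠ 1) (h2 : x ^ p = 1) : Fr E x := by
  intro a ha
  by_contra h0
  obtain ⟨e, he⟩ : ∃ e : E, x • e ≠ e := by
    by_contra h; push Not at h
    exact h1 (eq_of_smul_eq_smul (α := E) fun e => by rw [h, one_smul])
  have n1 : Nm p x (x • e - e) = 0 := by rw [Nm_sub, Nm_smul p (Commute.refl x), Nm_fix h2, sub_self]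
  generalize hb : x • e - e = b at n1
  have b0 : b ≠ 0 := hb ▸ sub_ne_zero.2 he
  have n2 : Nm p x (a + b) = p • a := by rw [Nm_add, n1, Nm_fixed p ha, add_zero]
  have := st_step hc h0 (b := b) (fun e => h0 (hp' _ (by rw [← n2, e, Nm_fixed p (smul_zero x), smul_zero]))) (fun g hg e => by
    have e1 := Nm_smul p (hz g hg) (a + b)
    rw [e, n2, smul_comm] at e1
    exact (sub_eq_zero.1 (hp' _ (by rw [smul_sub, e1, sub_self]))).symm) hx ha
  exact b0 (hp' _ (by rw [← Nm_fixed p this, n1]))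

theorem cyclic_of_const [Nontrivial E] (hp2 : p ≠ 2) (hP : IsPGroup p P) : IsCyclic P := by
  by_contra hnc
  obtain ⟨A, hAP, hn, hA, hcard⟩ := L.exists_normal_elem_two hP le_rfl le_normalizer hnc (Or.inl hp2)
  obtain ⟨y, hy, y1, y2⟩ := not_free hp' hA hcard
  have hAne : A ≠ ⊥ := fun e => y1 (by simpa [e] using hy)
  have hlt := commutator_lt_of_p (hP.to_le hAP) hP hn hAne
  have hZ : ⁅A, P⁆ ≤ centralizer (P : Set Γ) := by
    obtain ⟨k, hk, e⟩ := (Nat.dvd_prime_pow hp.out).1 (hcard ▸ card_dvd_of_le hlt.le)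
    have hk2 : k ≠ 2 := fun h => hlt.ne (eq_of_le_of_card_ge hlt.le (by rw [e, h, hcard]))
    obtain rfl | rfl : k = 0 ∨ k = 1 := by omega
    · exact (card_eq_one.1 (e.trans (pow_zero p))).le.trans bot_le
    · exact L.le_centralizer_of_card_prime hP (hlt.le.trans hAP) (normalizer_commutator hn le_normalizer)
        (by rw [e, pow_one]; exact hp.out)
  set Z := A ⊓ centralizer (P : Set Γ) with hZd
  have zf : ∀ z ∈ Z, z ≠ 1 → Fr E z := fun z hz h1 =>
    fr_central hc hp' (hAP hz.1) (fun g hg => (mem_centralizer_iff.1 hz.2 g hg).symm) h1 (hA.2 z hz.1)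
  have zc : ∀ z ∈ Z, ∀ g ∈ P, g * z = z * g := fun z hz g hg => mem_centralizer_iff.1 hz.2 g hg
  have cj : ∀ g ∈ P, ∃ z ∈ Z, g * y * g⁻¹ = y * z := fun g hg => by
    have h1 := commutator_mem_commutator (A.inv_mem hy) hg
    exact ⟨_, ⟨hlt.le h1, hZ h1⟩, by rw [commutatorElement_def]; group⟩
  -- norms kill the other fixed spaces
  have kill : ∀ z ∈ Z, ∀ w ∈ Z, z ≠ w → ∀ v : E, (y * w) • v = v → Nm p (y * z) v = 0 := fun z hz w hw h1 v hv => by
    have hm := Z.mul_mem hz (Z.inv_mem hw)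
    rw [Nm_congr p (v := z * w⁻¹) (zc _ hm _ (P.mul_mem (hAP hy) (hAP hz.1))), Nm_zero (hA.2 _ hm.1) (zf _ hm (mt mul_inv_eq_one.1 h1))]
    conv_rhs => rw [← hv, ← mul_smul, ← zc _ hm _ (P.mul_mem (hAP hy) (hAP hw.1)), zc _ hz _ (hAP hw.1) |>.symm |> fun e =>
      show y * w * (z * w⁻¹) = y * z by rw [mul_assoc, ← mul_assoc w, ← e]; group]
  have fx : ∀ g ∈ P, ∀ z ∈ Z, g * y * g⁻¹ = y * z → ∀ w ∈ Z, ∀ v : E, (y * w) • v = v → (y * (z * w)) • g • v = g • v :=
    fun g hg z hz e w hw v hv => by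
      rw [← mul_smul, ← mul_assoc, ← e, mul_assoc _ w, ← zc w hw g hg, show g * y * g⁻¹ * (g * w) = g * (y * w) by group,
        mul_smul, hv]
  obtain ⟨a, ha, a0⟩ : ∃ a : E, y • a = a ∧ a ≠ 0 := by simpa [Fr] using y2
  obtain ⟨g, hg, g1⟩ : ∃ g ∈ P, g * y ≠ y * g := by
    by_contra h; push Not at h
    exact y2 (zf y ⟨hy, mem_centralizer_iff.2 h⟩ y1)
  obtain ⟨j, hj, ej⟩ := cj g hg
  have j1 : j ≠ 1 := fun e => g1 (by rw [e, mul_one] at ej; conv_rhs => rw [← ej]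
                                     group)
  have ha' : (y * 1) • a = a := by rwa [mul_one]
  have hb := fx g hg j hj ej 1 Z.one_mem a ha'
  rw [mul_one] at hb
  have b0 : g • a ≠ 0 := fun e => a0 ((smul_eq_zero_iff_eq g).1 e)
  generalize g • a = b at hb b0
  have n1 : Nm p (y * 1) (a + b) = p • a := by rw [Nm_add, Nm_fixed p ha', kill 1 Z.one_mem j hj j1.symm b hb, add_zero]
  have n2 : Nm p (y * j) (a + b) = p • b := by rw [Nm_add, Nm_fixed p hb, kill j hj 1 Z.one_mem j1 a ha', zero_add]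
  have := st_step hc a0 (b := b) (fun e => a0 (hp' _ (by rw [← n1, e, Nm_fixed p (smul_zero _), smul_zero]))) (fun h hh e => by
    obtain ⟨k, hk, ek⟩ := cj h hh
    have f1 := fx h hh k hk ek 1 Z.one_mem a ha'
    have f2 := fx h hh k hk ek j hj b hb
    rw [← e, smul_add, Nm_add] at n1 n2
    by_cases k1 : k = 1
    · rw [k1, one_mul] at f1 f2
      rw [Nm_fixed p f1, kill 1 Z.one_mem j hj j1.symm _ f2, add_zero] at n1
      exact sub_eq_zero.1 (hp' _ (by rw [smul_sub, n1, sub_self]))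
    rw [mul_one] at f1
    by_cases k2 : k * j = 1
    · rw [k2] at f2
      have k3 : j ≠ k := fun e => by
        rw [← e, ← pow_two] at k2
        have := orderOf_dvd_of_pow_eq_one k2
        rw [orderOf_eq_prime (hA.2 j hj.1) j1] at this
        exact hp2 ((Nat.prime_dvd_prime_iff_eq hp.out Nat.prime_two).1 this)
      rw [kill j hj k hk k3 _ f1, kill j hj 1 Z.one_mem j1 _ f2, add_zero] at n2
      exact absurd (hp' _ n2.symm) b0
    · rw [kill 1 Z.one_mem k hk (Ne.symm k1) _ f1, kill 1 Z.one_mem _ (Z.mul_mem hk hj) (Ne.symm k2) _ f2, add_zero] at n1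
      exact absurd (hp' _ n1.symm) a0) (hAP hy) ha
  rw [kill j hj 1 Z.one_mem j1 a ha' |> fun e => show Nm p (y * j) (a + b) = 0 by
    rw [Nm_add, e, kill j hj 1 Z.one_mem j1 b (by rwa [mul_one]), add_zero]] at n2
  exact b0 (hp' _ n2.symm)

omit hp' in
theorem const_stab [Finite E] {q : ℕ} (hq : q.Prime) (hE : ∀ e : E, q • e = 0) (hp2 : p ≠ 2) (hP : IsPGroup p P) :
    IsCyclic P ∧ ∀ g ∈ P, g ≠ 1 → Fr E g := by
  have triv : (∀ g ∈ P, ∀ e : E, g • e = e) → IsCyclic P ∧ ∀ g ∈ P, g ≠ 1 → Fr E g := fun h => by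
    have : ∀ g ∈ P, g = 1 := fun g hg => eq_of_smul_eq_smul (α := E) fun e => by rw [h g hg, one_smul]
    exact ⟨(eq_bot_iff_forall P).2 this ▸ inferInstance, fun g hg h1 => absurd (this g hg) h1⟩
  rcases subsingleton_or_nontrivial E with h0 | h0
  · exact triv fun g _ e => Subsingleton.elim _ _
  by_cases hpq : p = q
  · subst hpq
    obtain ⟨e, he⟩ := exists_ne (0 : E)
    obtain ⟨b, hb, b0⟩ := hP.exists_fixed_point_of_prime_dvd_card_of_fixed_point E
      (addOrderOf_eq_prime (hE e) he ▸ addOrderOf_dvd_natCard e) (a := 0) (fun g => smul_zero _)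
    refine triv fun g hg e => ?_
    by_cases e0 : e = 0
    · rw [e0, smul_zero]
    have e1 : P ⊓ stabilizer Γ b = P := inf_eq_left.2 fun x hx => hb ⟨x, hx⟩
    have := eq_of_le_of_card_ge (inf_le_left : P ⊓ stabilizer Γ e ≤ P) (by rw [← hc b e b0.symm e0, e1])
    exact (this.ge hg).2
  have hp' : ∀ a : E, p • a = 0 → a = 0 := fun a ha => by
    have := Nat.dvd_gcd (addOrderOf_dvd_of_nsmul_eq_zero ha) (addOrderOf_dvd_of_nsmul_eq_zero (hE a))
    rwa [(Nat.coprime_primes hp.out hq).2 hpq, Nat.dvd_one, AddMonoid.addOrderOf_eq_one_iff] at this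
  have hcy := cyclic_of_const hc hp' hp2 hP
  refine ⟨hcy, fun g hg h1 a ha => ?_⟩
  obtain ⟨n, hn⟩ := hP ⟨g, hg⟩
  have hn' : g ^ p ^ n = 1 := congrArg Subtype.val hn
  obtain ⟨k, -, hk⟩ := (Nat.dvd_prime_pow hp.out).1 (orderOf_dvd_of_pow_eq_one hn')
  obtain rfl | ⟨k, rfl⟩ : k = 0 ∨ ∃ j, k = j + 1 := by rcases k with _ | k <;> simp
  · exact absurd (orderOf_eq_one_iff.1 hk) h1
  refine fr_central hc hp' (P.pow_mem hg (p ^ k)) (fun x hx => ?_) (fun e => ?_) ?_ a ((stabilizer Γ a).pow_mem ha _)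
  · exact congrArg Subtype.val (IsCyclic.isMulCommutative.is_comm.comm (⟨_, P.pow_mem hg (p ^ k)⟩ : P) ⟨x, hx⟩)
  · have := orderOf_dvd_of_pow_eq_one e
    rw [hk, Nat.pow_dvd_pow_iff_le_right hp.out.one_lt] at this
    omega
  · rw [← pow_mul, ← pow_succ, ← hk, pow_orderOf_eq_one]
end

theorem trans_fit [Finite Γ] [Finite E] [FaithfulSMul Γ E] {D : Subgroup Γ} (hodd : Odd (Nat.card D)) {q : ℕ} (hq : q.Prime)
    (hE : ∀ e : E, q • e = 0) (ht : ∀ a b : E, a ≠ 0 → b ≠ 0 → ∃ d ∈ D, d • a = b) :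
    IsCyclic (Fit D) ∧ (∀ g ∈ Fit D, g ≠ 1 → Fr E g) ∧ ⁅D, D⁆ ≤ Fit D := by
  have key : ∀ (p : ℕ) [Fact p.Prime], p ≠ 2 → IsCyclic (Op p D) ∧ ∀ g ∈ Op p D, g ≠ 1 → Fr E g := fun p _ hp2 => by
    refine const_stab (fun a b ha hb => ?_) hq hE hp2 (Op_p p D)
    obtain ⟨d, hd, rfl⟩ := ht a b ha hb
    rw [← card_cj d, cj_inf, mem_normalizer_iff_cj.1 (le_normalizer_Op p D hd), stabilizer_smul_eq_stabilizer_map_conj]
    rfl
  have ho := FT.odd_of_le hodd (Fit_le D)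
  have h1 : IsCyclic (Fit D) := FT.isCyclic_of_nilpotent_of_rank (Fit_nil D) ho (FT.rank_le_iff'.2 fun p _ => by
    rw [← FT.rk_Op_of_nilpotent (Fit_nil D), Op_Fit]
    by_cases hp2 : p = 2
    · rw [FT.rk_eq_zero_iff.2 fun h => FT.ne_two_of_odd hodd (h.trans (card_dvd_of_le (Op_le p D))) hp2]; exact zero_le_one
    · exact FT.rk_le_one_of_cyclic (key p hp2).1)
  refine ⟨h1, fun g hg g1 a ha => ?_, (le_inf (commutator_le_of_le le_rfl le_rfl)
    (H1.commutator_le_centralizer_of_isCyclic h1 (le_normalizer_Fit D))).trans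
    (centralizer_Fit_le_of_solvable (FT.feit_thompson D hodd))⟩
  obtain ⟨p, hp, hd⟩ := Nat.exists_prime_and_dvd (mt orderOf_eq_one_iff.1 g1)
  haveI := Fact.mk hp
  obtain ⟨m, hm⟩ := hd
  have o1 : orderOf (g ^ m) = p := by
    rw [orderOf_pow' _ (fun e => by simp [e, (orderOf_pos g).ne'] at hm), hm, Nat.gcd_mul_left_left,
      Nat.mul_div_cancel _ (Nat.pos_of_ne_zero fun e => by simp [e, (orderOf_pos g).ne'] at hm)]
  have hm' := (Fit D).pow_mem hg m
  have hp2 : p ≠ 2 := fun e => by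
    have := odd_orderOf ho hm'
    rw [o1, e] at this; exact absurd this (by decide)
  refine (key p hp2).2 (g ^ m) ?_ (fun e => hp.one_lt.ne' (by rw [← o1, e, orderOf_one])) a ((stabilizer Γ a).pow_mem ha _)
  rw [← Op_Fit]
  exact (syl_Op_of_nilpotent (Fit_nil D)).le_of_le_normalizer (FT.el_zpowers hm' o1).isP (zpowers_le.2 hm')
    (Or.inl ((zpowers_le.2 hm').trans (le_normalizer_Op p _))) (mem_zpowers _)

end SE
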