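/-
SE.Fld: automorphisms of finite fields of characteristic two; fields from irreducible commutative actions.
-/
import Cfsg.Agent.SE.Sub

set_option autoImplicit false

namespace SE
open Subgroup H9 Finset

theorem char_mem {M F ι : Type*} [MulOneClass M] [Field F] (χ : M →* F) (s : Finset ι) (c : ι → F) (ψ : ι → M →* F)
    (h : ∀ x, χ x = ∑ i ∈ s, c i * ψ i x) : ∃ i ∈ s, c i ≠ 0 ∧ ψ i = χ := by
  classical
  by_contra h1
  push Not at h1
  have h2 := linearIndependent_iff.1 (linearIndependent_monoidHom M F)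
    (Finsupp.single χ 1 - ∑ i ∈ s, Finsupp.single (ψ i) (c i)) (by
      ext x
      simp [map_sub, map_sum, Finsupp.linearCombination_single, h x])
  have h3 := DFunLike.congr_fun h2 χ
  rw [Finsupp.sub_apply, Finsupp.single_eq_same, Finsupp.finset_sum_apply, sum_eq_zero, sub_zero] at h3
  · exact one_ne_zero h3
  · intro i hi
    by_cases h4 : c i = 0
    · simp [h4]
    · exact Finsupp.single_eq_of_ne (h1 i hi h4).symm

section aut
variable {F : Type*} [Field F]

/-- an automorphism as a character -/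
def ch (σ : F ≃+* F) : F →* F := (σ : F →+* F)
@[simp] theorem ch_apply (σ : F ≃+* F) (x : F) : ch σ x = σ x := rfl
theorem ch_inj {σ τ : F ≃+* F} (h : ch σ = ch τ) : σ = τ := RingEquiv.ext fun x => DFunLike.congr_fun h x
/-- `(x, y) ↦ σ x τ y` -/
def ch2 (σ τ : F ≃+* F) : F × F →* F := (ch σ).comp (MonoidHom.fst F F) * (ch τ).comp (MonoidHom.snd F F)
@[simp] theorem ch2_apply (σ τ : F ≃+* F) (x : F × F) : ch2 σ τ x = σ x.1 * τ x.2 := rfl
theorem ch2_inj {σ τ σ' τ' : F ≃+* F} (h : ch2 σ τ = ch2 σ' τ') : σ = σ' ∧ τ = τ' :=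
  ⟨RingEquiv.ext fun x => by simpa using DFunLike.congr_fun h (x, 1),
    RingEquiv.ext fun x => by simpa using DFunLike.congr_fun h (1, x)⟩
/-- `(x, y, z) ↦ σ x τ y μ z` -/
def ch3 (σ τ μ : F ≃+* F) : F × F × F →* F := (ch σ).comp (MonoidHom.fst F _) * (ch2 τ μ).comp (MonoidHom.snd F _)
@[simp] theorem ch3_apply (σ τ μ : F ≃+* F) (x : F × F × F) : ch3 σ τ μ x = σ x.1 * (τ x.2.1 * μ x.2.2) := rfl
theorem ch3_inj {σ τ μ σ' τ' μ' : F ≃+* F} (h : ch3 σ τ μ = ch3 σ' τ' μ') : σ = σ' ∧ τ = τ' ∧ μ = μ' :=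
  ⟨RingEquiv.ext fun x => by simpa using DFunLike.congr_fun h (x, 1, 1),
    RingEquiv.ext fun x => by simpa using DFunLike.congr_fun h (1, x, 1),
    RingEquiv.ext fun x => by simpa using DFunLike.congr_fun h (1, 1, x)⟩

theorem indep_aut : LinearIndependent F (fun σ : F ≃+* F => ((σ : F →+* F) : F → F)) :=
  (linearIndependent_monoidHom F F).comp ch fun _ _ => ch_inj

noncomputable instance fintypeAut [Finite F] : Fintype (F ≃+* F) :=
  haveI : Finite (F ≃+* F) := Finite.of_injective (fun σ : F ≃+* F => (σ : F → F)) DFunLike.coe_injective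
  Fintype.ofFinite _

theorem coef_zero [Finite F] {c : (F ≃+* F) → F} (h : ∀ x, ∑ σ, c σ * σ x = 0) (σ : F ≃+* F) : c σ = 0 :=
  Fintype.linearIndependent_iff.1 (indep_aut (F := F)) c (funext fun x => by rw [Finset.sum_apply]; exact h x) σ

theorem coef2_zero [Finite F] {c : (F ≃+* F) × (F ≃+* F) → F} (h : ∀ x y, ∑ p, c p * (p.1 x * p.2 y) = 0)
    (p : (F ≃+* F) × (F ≃+* F)) : c p = 0 :=
  Fintype.linearIndependent_iff.1 ((linearIndependent_monoidHom (F × F) F).comp
    (fun p : (F ≃+* F) × (F ≃+* F) => ch2 p.1 p.2) fun _ _ e => Prod.ext (ch2_inj e).1 (ch2_inj e).2) c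
    (by ext x; simpa using h x.1 x.2) p

variable [CharP F 2]

theorem two0 : (2 : F) = 0 := CharTwo.two_eq_zero

/-- ring automorphisms are `ZMod 2`-algebra automorphisms -/
noncomputable def autEquiv [Algebra (ZMod 2) F] : (F ≃+* F) ≃* (F ≃ₐ[ZMod 2] F) where
  toFun σ := AlgEquiv.ofRingEquiv (f := σ) fun x =>
    DFunLike.congr_fun (RingHom.ext_zmod ((σ : F →+* F).comp (algebraMap _ F)) (algebraMap _ F)) x
  invFun σ := σ.toRingEquiv
  left_inv _ := rfl
  right_inv _ := rfl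
  map_mul' _ _ := rfl

theorem isCyclic_aut [Finite F] : IsCyclic (F ≃+* F) := by
  letI := ZMod.algebra F 2
  exact isCyclic_of_surjective autEquiv.symm autEquiv.symm.surjective

theorem aut_comm [Finite F] (σ τ : F ≃+* F) (x : F) : σ (τ x) = τ (σ x) :=
  haveI := isCyclic_aut (F := F)
  DFunLike.congr_fun (IsCyclic.isMulCommutative.is_comm.comm σ τ) x

theorem card_aut [Finite F] : Nat.card F = 2 ^ Nat.card (F ≃+* F) := by
  letI := ZMod.algebra F 2
  rw [Nat.card_congr autEquiv.toEquiv, IsGalois.card_aut_eq_finrank, Module.natCard_eq_pow_finrank (K := ZMod 2),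
    Nat.card_zmod]

theorem add_span [Finite F] (f : F →+ F) : ∃ c : (F ≃+* F) → F, ∀ x, f x = ∑ σ, c σ * σ x := by
  letI := ZMod.algebra F 2
  let v : (F ≃+* F) → (F →ₗ[ZMod 2] F) := fun σ => (σ : F →+* F).toAddMonoidHom.toZModLinearMap 2
  have hv : LinearIndependent F v := Fintype.linearIndependent_iff.2 fun c hc => coef_zero fun x => by
    simpa [v] using DFunLike.congr_fun hc x
  have := hv.span_eq_top_of_card_eq_finrank' (by
    rw [Module.finrank_linearMap_self, ← IsGalois.card_aut_eq_finrank, ← Nat.card_congr autEquiv.toEquiv,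
      Nat.card_eq_fintype_card])
  obtain ⟨c, hc⟩ := (Submodule.mem_span_range_iff_exists_fun F).1 (this ▸ Submodule.mem_top (x := f.toZModLinearMap 2))
  exact ⟨c, fun x => by simpa [v] using (DFunLike.congr_fun hc x).symm⟩

theorem biadd_span [Finite F] (B : F →+ F →+ F) : ∃ c : (F ≃+* F) × (F ≃+* F) → F,
    ∀ x y, B x y = ∑ p, c p * (p.1 x * p.2 y) := by
  choose c hc using fun x => add_span (B x)
  have h1 : ∀ σ x x', c (x + x') σ = c x σ + c x' σ := fun σ x x' => by
    refine sub_eq_zero.1 (coef_zero (c := fun σ => c (x + x') σ - (c x σ + c x' σ)) (fun y => ?_) σ)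
    simp only [sub_mul, add_mul, sum_sub_distrib, sum_add_distrib, ← hc, map_add, AddMonoidHom.add_apply, sub_self]
  choose d hd using fun σ => add_span (AddMonoidHom.mk' (fun x => c x σ) (h1 σ))
  refine ⟨fun p => d p.2 p.1, fun x y => ?_⟩
  rw [hc, Fintype.sum_prod_type_right]
  refine sum_congr rfl fun σ _ => ?_
  rw [show c x σ = _ from hd σ x, sum_mul]
  exact sum_congr rfl fun τ _ => mul_assoc _ _ _

/-- monomials of an equivariant biadditive map -/
theorem biadd_equiv [Finite F] (B : F →+ F →+ F) : ∃ c : (F ≃+* F) × (F ≃+* F) → F,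
    (∀ x y, B x y = ∑ p, c p * (p.1 x * p.2 y)) ∧
    ∀ a b d, (∀ x y, B (a * x) (b * y) = d * B x y) → ∀ p, c p ≠ 0 → p.1 a * p.2 b = d := by
  obtain ⟨c, hc⟩ := biadd_span B
  refine ⟨c, hc, fun a b d h p hp => ?_⟩
  have := coef2_zero (c := fun p => c p * (p.1 a * p.2 b - d)) (fun x y => by
    have := h x y
    rw [hc, hc, mul_sum, ← sub_eq_zero, ← sum_sub_distrib] at this
    rw [← this]
    exact sum_congr rfl fun p _ => by simp only [map_mul]; ring) p
  exact sub_eq_zero.1 ((mul_eq_zero.1 this).resolve_left hp)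

theorem sq_inj {x y : F} (h : x * x = y * y) : x = y := by
  have : (x - y) * (x - y) = 0 := by linear_combination h + (y * y - x * y) * two0 (F := F)
  exact sub_eq_zero.1 (mul_self_eq_zero.1 this)

theorem P1 {σ1 σ2 τ : F ≃+* F} (h : ∀ x, σ1 x * σ2 x = τ x) : σ1 = σ2 :=
  (ch2_inj (σ := σ1) (τ := σ2) (σ' := σ2) (τ' := σ1) (MonoidHom.ext fun ⟨x, y⟩ => by
    have := h (x + y)
    simp only [map_add] at this
    simp only [ch2_apply]
    linear_combination this - h x - h y - (σ2 x * σ1 y) * two0 (F := F))).1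

theorem P1' {σ1 σ2 τ1 τ2 : F ≃+* F} (h : ∀ x, σ1 x * σ2 x = τ1 x * τ2 x) : (σ1 = τ1 ∧ σ2 = τ2) ∨ (σ1 = τ2 ∧ σ2 = τ1) := by
  have key : ∀ {σ1 σ2 τ1 τ2 : F ≃+* F}, (∀ x, σ1 x * σ2 x = τ1 x * τ2 x) → σ1 ≠ σ2 →
      (σ1 = τ1 ∧ σ2 = τ2) ∨ (σ1 = τ2 ∧ σ2 = τ1) := fun {σ1 σ2 τ1 τ2} h hne => by
    obtain ⟨i, -, -, e⟩ := char_mem (ch2 σ1 σ2) univ ![-1, 1, 1] ![ch2 σ2 σ1, ch2 τ1 τ2, ch2 τ2 τ1] fun ⟨x, y⟩ => by
      have h1 := h (x + y)
      simp only [map_add] at h1
      simp [Fin.sum_univ_three]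
      linear_combination h1 - h x - h y
    fin_cases i
    · exact absurd (ch2_inj e).2 hne
    · exact Or.inl ⟨(ch2_inj e).1.symm, (ch2_inj e).2.symm⟩
    · exact Or.inr ⟨(ch2_inj e).1.symm, (ch2_inj e).2.symm⟩
  by_cases h1 : σ1 = σ2
  · by_cases h2 : τ1 = τ2
    · subst h1 h2
      exact Or.inl ⟨RingEquiv.ext fun x => sq_inj (h x), RingEquiv.ext fun x => sq_inj (h x)⟩
    · rcases key (fun x => (h x).symm) h2 with ⟨e1, e2⟩ | ⟨e1, e2⟩ <;> simp [e1, e2]
  · exact key h h1

theorem P2 {μ1 μ2 μ3 τ1 τ2 : F ≃+* F} (h : ∀ x, μ1 x * μ2 x * μ3 x = τ1 x * τ2 x) : μ1 = μ2 ∨ μ1 = μ3 ∨ μ2 = μ3 := by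
  obtain ⟨i, -, -, e⟩ := char_mem (ch3 μ1 μ2 μ3) univ (fun _ => -1)
    ![ch3 μ1 μ3 μ2, ch3 μ2 μ1 μ3, ch3 μ2 μ3 μ1, ch3 μ3 μ1 μ2, ch3 μ3 μ2 μ1] fun ⟨x, y, z⟩ => by
      have h1 := h (x + y + z)
      have h2 := h (x + y)
      have h3 := h (x + z)
      have h4 := h (y + z)
      simp only [map_add] at h1 h2 h3 h4
      simp [Fin.sum_univ_succ]
      linear_combination h1 - h2 - h3 - h4 + h x + h y + h z
  fin_cases i
  · exact Or.inr (Or.inr (ch3_inj e).2.2)
  · exact Or.inl (ch3_inj e).2.1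
  · exact Or.inl (ch3_inj e).1.symm
  · exact Or.inl (ch3_inj e).2.1
  · exact Or.inr (Or.inl (ch3_inj e).2.2)

/-- Frobenius -/
noncomputable def fr (F : Type*) [Field F] [CharP F 2] [Finite F] : F ≃+* F := frobeniusEquiv F 2
theorem fr_apply [Finite F] (x : F) : fr F x = x * x := by rw [fr, coe_frobeniusEquiv, frobenius_def, pow_two]

/-- quadratic maps are combinations of products of two automorphisms -/
theorem quad_span [Finite F] (q : F → F)
    (hq : ∀ x y z : F, q (x + y + z) + q (x + y) + q (x + z) + q (y + z) + q x + q y + q z = 0) :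
    ∃ c : (F ≃+* F) × (F ≃+* F) → F, ∀ x : F, q x = ∑ p, c p * (p.1 x * p.2 x) := by
  classical
  have q0 : q 0 = 0 := by
    have := hq 0 0 0
    simp only [add_zero] at this
    linear_combination this - 3 * q 0 * two0 (F := F)
  let B : F →+ F →+ F := AddMonoidHom.mk' (fun x => AddMonoidHom.mk' (fun y => q (x + y) + q x + q y) fun y z => by
    rw [← add_assoc x]
    linear_combination hq x y z - (q (x + y) + q (x + z) + q x + q y + q z) * two0 (F := F)) fun x z => by
      ext y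
      simp only [AddMonoidHom.mk'_apply, AddMonoidHom.add_apply]
      have := hq x z y
      linear_combination this - (q (x + y) + q (z + y) + q x + q z + q y) * two0 (F := F)
  obtain ⟨c, hc⟩ := biadd_span B
  have hB : ∀ x y, B x y = q (x + y) + q x + q y := fun _ _ => rfl
  have sym : ∀ p, c p = c p.swap := fun p => sub_eq_zero.1 (coef2_zero (c := fun p => c p - c p.swap) (fun x y => by
    simp only [sub_mul, sum_sub_distrib, ← hc]
    rw [sub_eq_zero, hB, add_comm x, add_right_comm, ← hB, hc]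
    exact Fintype.sum_equiv (Equiv.prodComm _ _) _ _ fun p => by simp [mul_comm]) p)
  let r := Fintype.equivFin (F ≃+* F)
  let c' : (F ≃+* F) × (F ≃+* F) → F := fun p => if r p.1 < r p.2 then c p else 0
  have dg : ∀ σ, c (σ, σ) = 0 := coef_zero (fun x => by
    obtain ⟨x, rfl⟩ := (fr F).surjective x
    have h1 : B x x = 0 := by rw [hB, CharTwo.add_self_eq_zero, q0, zero_add, CharTwo.add_self_eq_zero]
    rw [hc, ← sum_filter_add_sum_filter_not univ (fun p => p.1 = p.2), sum_involution (s := filter (fun p => ¬ p.1 = p.2) univ)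
      (fun p _ => p.swap) (fun p _ => by rw [← sym p, Prod.fst_swap, Prod.snd_swap, mul_comm (p.2 x), CharTwo.add_self_eq_zero])
      (fun p hp _ e => (mem_filter.1 hp).2 (congrArg Prod.snd e)) (fun p hp => by simpa [eq_comm] using hp) (fun p _ => rfl),
      add_zero] at h1
    rw [← h1, fr_apply]
    refine sum_bij (fun σ _ => (σ, σ)) (by simp) (by simp) (fun p hp => ⟨p.1, mem_univ _, Prod.ext rfl (mem_filter.1 hp).2⟩)
      fun σ _ => by simp)
  have hc' : ∀ p, c p = c' p + c' p.swap := fun p => by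
    simp only [c', Prod.fst_swap, Prod.snd_swap, ← sym p]
    rcases lt_trichotomy (r p.1) (r p.2) with h | h | h
    · simp [h, h.not_gt]
    · rw [show p = (p.1, p.1) from Prod.ext rfl (r.injective h).symm]; simp [dg]
    · simp [h, h.not_gt]
  obtain ⟨d, hd⟩ := add_span (AddMonoidHom.mk' (fun x => q x + ∑ p, c' p * (p.1 x * p.2 x)) fun x y => by
    have h1 := hc x y
    rw [hB] at h1
    simp only [hc', add_mul, sum_add_distrib] at h1
    rw [Fintype.sum_equiv (Equiv.prodComm _ _) (fun p => c' p.swap * (p.1 x * p.2 y)) (fun p => c' p * (p.1 y * p.2 x))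
      fun p => by simp [mul_comm]] at h1
    simp only [map_add, mul_add, add_mul, sum_add_distrib]
    linear_combination h1 - (q x + q y - ∑ p, c' p * (p.1 x * p.2 y) - ∑ p, c' p * (p.1 y * p.2 x)) * two0 (F := F))
  refine ⟨fun p => c' p + if p.1 = p.2 then d (p.1.trans (fr F)) else 0, fun x => ?_⟩
  have h1 := hd x
  simp only [AddMonoidHom.mk'_apply] at h1
  simp only [add_mul, sum_add_distrib, ite_mul, zero_mul]
  rw [Fintype.sum_prod_type (f := fun p : (F ≃+* F) × (F ≃+* F) => if p.1 = p.2 then d (p.1.trans (fr F)) * (p.1 x * p.2 x) else 0)]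
  simp only [sum_ite_eq, mem_univ, if_true]
  rw [Fintype.sum_equiv (Equiv.mulLeft (fr F)) (fun σ => d (σ.trans (fr F)) * (σ x * σ x)) (fun σ => d σ * σ x)
    fun σ => by rw [← fr_apply]; rfl, ← h1]
  linear_combination -(∑ p, c' p * (p.1 x * p.2 x)) * two0 (F := F)

/-- a multiplicative quadratic map is a product of two automorphisms -/
theorem quad_mul [Finite F] (q : F →* F)
    (hq : ∀ x y z : F, q (x + y + z) + q (x + y) + q (x + z) + q (y + z) + q x + q y + q z = 0) :
    ∃ σ τ : F ≃+* F, ∀ x, q x = σ x * τ x := by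
  obtain ⟨c, hc⟩ := quad_span q hq
  obtain ⟨p, -, -, e⟩ := char_mem q univ c (fun p => ch p.1 * ch p.2) hc
  exact ⟨p.1, p.2, fun x => (DFunLike.congr_fun e x).symm⟩

theorem add_mul_aut [Finite F] (q : F →* F) (hq : ∀ x y, q (x + y) = q x + q y) : ∃ σ : F ≃+* F, ∀ x, q x = σ x := by
  obtain ⟨c, hc⟩ := add_span (AddMonoidHom.mk' q hq)
  obtain ⟨p, -, -, e⟩ := char_mem q univ c ch hc
  exact ⟨p, fun x => (DFunLike.congr_fun e x).symm⟩

/-- if `x ↦ x θ(x)` is injective then `θ` has odd order -/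
theorem odd_of_inj [Finite F] {θ : F ≃+* F} (h : ∀ x, x * θ x = 1 → x = 1) : Odd (orderOf θ) := by
  have h3 : ∀ z, z ≠ 0 → (θ z / z) * θ (θ z / z) = θ (θ z) / z := fun z hz => by
    have : θ z ≠ 0 := by simpa using hz
    rw [map_div₀]; field_simp
  -- `x ↦ x θ x` is bijective, so `θ² z = z → θ z = z`
  have h4 : ∀ z, θ (θ z) = z → θ z = z := fun z hz => by
    by_cases z0 : z = 0
    · simp [z0]
    have := h _ (by rw [h3 z z0, hz, div_self z0])
    exact (div_eq_one_iff_eq z0).1 this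
  letI := ZMod.algebra F 2
  have h5 : autEquiv θ ∈ zpowers (autEquiv (θ * θ)) := by
    rw [← IntermediateField.fixingSubgroup_fixedField (zpowers (autEquiv (θ * θ)))]
    exact fun z => h4 z (z.2 ⟨_, mem_zpowers _⟩)
  obtain ⟨k, hk⟩ := mem_powers_iff_mem_zpowers.2 h5
  have h6 : θ ^ (2 * k) = θ ^ 1 := autEquiv.injective (by rw [pow_mul, pow_two, map_pow, pow_one]; exact hk)
  by_contra h1
  have := (pow_eq_pow_iff_modEq.1 h6).of_dvd (even_iff_two_dvd.1 (Nat.not_odd_iff_even.1 h1))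
  simp [Nat.ModEq] at this

end aut
end SE
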