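/-
SE.Co: coordinates on an irreducible section: `π : C/B ≃ F`, with `A` acting by scalars `ψ`.
-/
import Cfsg.Agent.SE.Fld
import Cfsg.Agent.L.PG2

set_option autoImplicit false

namespace SE
open Subgroup H9 Finset
universe u
variable {G : Type*} [Group G]

structure Co {F : Type*} [Field F] (A C B : Subgroup G) (π ψ : G → F) : Prop where
  le : B ≤ C
  nm : A ≤ normalizer (C : Set G)
  add : ∀ x ∈ C, ∀ y ∈ C, π (x * y) = π x + π y
  ker : ∀ x ∈ C, π x = 0 ↔ x ∈ B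
  surj : ∀ a, ∃ x ∈ C, π x = a
  act : ∀ k ∈ A, ∀ x ∈ C, π (k * x * k⁻¹) = ψ k * π x

namespace Co
variable {F : Type*} [Field F] {A C B : Subgroup G} {π ψ : G → F} (h : Co A C B π ψ)
include h

theorem one : π 1 = 0 := (h.ker 1 C.one_mem).2 B.one_mem
theorem of_mem {x : G} (hx : x ∈ B) : π x = 0 := (h.ker x (h.le hx)).2 hx
theorem inv {x : G} (hx : x ∈ C) : π x⁻¹ = - π x := by
  have := h.add x hx _ (C.inv_mem hx)
  rw [mul_inv_cancel, h.one] at this
  exact (neg_eq_of_add_eq_zero_right this.symm).symm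
theorem eq_iff {x y : G} (hx : x ∈ C) (hy : y ∈ C) : π x = π y ↔ x * y⁻¹ ∈ B := by
  rw [← h.ker _ (C.mul_mem hx (C.inv_mem hy)), h.add _ hx _ (C.inv_mem hy), h.inv hy, ← sub_eq_add_neg, sub_eq_zero]
theorem eq_iff' {x y : G} (hx : x ∈ C) (hy : y ∈ C) : π x = π y ↔ y⁻¹ * x ∈ B := by
  rw [← h.ker _ (C.mul_mem (C.inv_mem hy) hx), h.add _ (C.inv_mem hy) _ hx, h.inv hy, neg_add_eq_sub, sub_eq_zero]
theorem conj {x y : G} (hx : x ∈ C) (hy : y ∈ C) : π (y * x * y⁻¹) = π x := by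
  rw [h.add _ (C.mul_mem hy hx) _ (C.inv_mem hy), h.add _ hy _ hx, h.inv hy]; ring
theorem cC {k x : G} (hk : k ∈ A) (hx : x ∈ C) : k * x * k⁻¹ ∈ C := conj_mem_of_le_normalizer h.nm hk hx
theorem pmul {k l : G} (hk : k ∈ A) (hl : l ∈ A) : ψ (k * l) = ψ k * ψ l := by
  obtain ⟨x, hx, e⟩ := h.surj 1
  have := h.act _ (A.mul_mem hk hl) x hx
  rw [show k * l * x * (k * l)⁻¹ = k * (l * x * l⁻¹) * k⁻¹ by group, h.act k hk _ (h.cC hl hx), h.act l hl x hx, e] at this
  simpa using this.symm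
theorem pone : ψ 1 = 1 := by
  obtain ⟨x, hx, e⟩ := h.surj 1
  simpa [e] using (h.act 1 A.one_mem x hx).symm
theorem pne {k : G} (hk : k ∈ A) : ψ k ≠ 0 := fun e => by
  have := h.pmul hk (A.inv_mem hk)
  rw [mul_inv_cancel, h.pone, e, zero_mul] at this
  exact one_ne_zero this
theorem pinv {k : G} (hk : k ∈ A) : ψ k⁻¹ = (ψ k)⁻¹ := by
  have := h.pmul hk (A.inv_mem hk)
  rw [mul_inv_cancel, h.pone] at this
  exact eq_inv_of_mul_eq_one_right this.symm
theorem ppow {k : G} (hk : k ∈ A) (n : ℕ) : ψ (k ^ n) = ψ k ^ n := by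
  induction n with
  | zero => simpa using h.pone
  | succ n ih => rw [pow_succ, h.pmul (A.pow_mem hk n) hk, ih, pow_succ]
theorem act' {k x : G} (hk : k ∈ A) (hx : x ∈ C) : π (k⁻¹ * x * k) = (ψ k)⁻¹ * π x := by
  simpa [h.pinv hk] using h.act _ (A.inv_mem hk) x hx
/-- `π` as a homomorphism -/
def hom : C →* Multiplicative F := MonoidHom.mk' (fun x => Multiplicative.ofAdd (π x)) fun x y => h.add x x.2 y y.2
theorem card : Nat.card C = Nat.card B * Nat.card F := by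
  have e1 : h.hom.ker = B.subgroupOf C := by ext x; exact h.ker x x.2
  have e2 : h.hom.range = ⊤ := (eq_top_iff' _).2 fun a => by
    obtain ⟨x, hx, e⟩ := h.surj a.toAdd
    exact ⟨⟨x, hx⟩, congrArg Multiplicative.ofAdd e⟩
  rw [← h.hom.ker.card_mul_index, index_ker, e1, e2, Nat.card_congr (subgroupOfEquivOfLe h.le).toEquiv, card_top]; rfl
theorem map {F' : Type*} [Field F'] (e : F ≃+* F') : Co A C B (fun x => e (π x)) (fun x => e (ψ x)) :=
  ⟨h.le, h.nm, fun x hx y hy => by rw [h.add x hx y hy, map_add], fun x hx => by rw [← h.ker x hx, map_eq_zero_iff _ e.injective],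
    fun a => by obtain ⟨x, hx, e1⟩ := h.surj (e.symm a); exact ⟨x, hx, by simp [e1]⟩,
    fun k hk x hx => by rw [h.act k hk x hx, map_mul]⟩
theorem smul {c : F} (hc : c ≠ 0) : Co A C B (fun x => c * π x) ψ :=
  ⟨h.le, h.nm, fun x hx y hy => by rw [h.add x hx y hy, mul_add], fun x hx => by rw [← h.ker x hx, mul_eq_zero, or_iff_right hc],
    fun a => by obtain ⟨x, hx, e1⟩ := h.surj (c⁻¹ * a); exact ⟨x, hx, by simp [e1, hc]⟩,
    fun k hk x hx => by rw [h.act k hk x hx, mul_left_comm]⟩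
theorem mono {A' : Subgroup G} (h1 : A' ≤ A) : Co A' C B π ψ :=
  ⟨h.le, h1.trans h.nm, h.add, h.ker, h.surj, fun k hk => h.act k (h1 hk)⟩
theorem charP (h2 : ∀ x ∈ C, x * x ∈ B) : CharP F 2 := by
  obtain ⟨x, hx, e⟩ := h.surj 1
  have := h.add x hx x hx
  rw [h.of_mem (h2 x hx), e] at this
  exact CharTwo.of_one_ne_zero_of_two_eq_zero one_ne_zero (by linear_combination -this)
/-- a section of `π` -/
theorem exists_sec : ∃ τ : F → G, (∀ a, τ a ∈ C) ∧ ∀ a, π (τ a) = a := by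
  choose τ h1 h2 using h.surj; exact ⟨τ, h1, h2⟩
theorem irr (hA : ∀ a : F, a ≠ 0 → ∃ k ∈ A, ψ k = a) {N : Subgroup G} (h1 : B ≤ N) (h2 : N ≤ C)
    (h3 : A ≤ normalizer (N : Set G)) : N = B ∨ N = C := by
  by_cases h4 : N ≤ B
  · exact Or.inl (le_antisymm h4 h1)
  obtain ⟨x, hx, x1⟩ := SetLike.not_le_iff_exists.1 h4
  have x0 : π x ≠ 0 := mt (h.ker x (h2 hx)).1 x1
  refine Or.inr (le_antisymm h2 fun y hy => ?_)
  by_cases y0 : π y = 0
  · exact h1 ((h.ker y hy).1 y0)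
  obtain ⟨k, hk, e⟩ := hA (π y / π x) (div_ne_zero y0 x0)
  have := (h.eq_iff hy (h.cC hk (h2 hx))).1 (by rw [h.act k hk x (h2 hx), e, div_mul_cancel₀ _ x0])
  have := N.mul_mem (h1 this) (conj_mem_of_le_normalizer h3 hk hx)
  rwa [inv_mul_cancel_right] at this
end Co

open scoped IsMulCommutative in
theorem exists_co_bot {G : Type u} [Group G] [Finite G] {A M : Subgroup G} (hM : IsMulCommutative M) (h0 : M ≠ ⊥)
    (hn : A ≤ normalizer (M : Set G)) (hA : ∀ a ∈ A, ∀ b ∈ A, a * b = b * a)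
    (hi : ∀ N ≤ M, A ≤ normalizer (N : Set G) → N = ⊥ ∨ N = M) :
    ∃ (R : Type u) (_ : Field R) (_ : Finite R) (π ψ : G → R), Co A M ⊥ π ψ ∧ Subring.closure (ψ '' A) = ⊤ := by
  classical
  let c : A → AddMonoid.End (Additive M) := fun a => (M.normalizerMonoidHom ⟨a, hn a.2⟩).toMonoidHom.toAdditive
  have hc : ∀ (a : A) (x : M), ((c a (Additive.ofMul x)).toMul : G) = a * x * (a : G)⁻¹ := fun a x => rfl
  let R := Subring.closure (Set.range c)
  have cc : ∀ x ∈ Set.range c, ∀ y ∈ Set.range c, x * y = y * x := by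
    rintro _ ⟨a, rfl⟩ _ ⟨b, rfl⟩
    refine AddMonoidHom.ext fun x => Additive.toMul.injective (Subtype.ext ?_)
    show (a : G) * (b * x.toMul * (b : G)⁻¹) * (a : G)⁻¹ = b * (a * x.toMul * (a : G)⁻¹) * (b : G)⁻¹
    rw [show (a : G) * (b * x.toMul * (b : G)⁻¹) * (a : G)⁻¹ = (a * b) * x.toMul * ((a : G) * b)⁻¹ by group, hA a a.2 b b.2]; group
  letI : CommRing R := Subring.closureCommRingOfComm cc
  have sub : ∀ N : AddSubgroup (Additive M), (∀ a, ∀ x ∈ N, c a x ∈ N) → N = ⊥ ∨ N = ⊤ := fun N hN => by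
    have := hi ((AddSubgroup.toSubgroup' N).map M.subtype) (map_subtype_le _) (le_normalizer_of_cj_le fun g hg => by
      rintro _ ⟨_, ⟨x, hx, rfl⟩, rfl⟩
      exact ⟨(c ⟨g, hg⟩ (Additive.ofMul x)).toMul, hN _ _ hx, rfl⟩)
    refine this.imp (fun e => eq_bot_iff.2 fun x hx => ?_) fun e => eq_top_iff.2 fun x _ => ?_
    · exact Additive.toMul.injective (Subtype.ext (mem_bot.1 (e.le ⟨x.toMul, hx, rfl⟩)))
    · obtain ⟨y, hy, e1⟩ := e.ge x.toMul.2
      obtain rfl : y = x.toMul := Subtype.ext e1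
      exact hy
  have cm : ∀ (r : R) (a : A) x, r.1 (c a x) = c a (r.1 x) := fun r a x =>
    DFunLike.congr_fun (congrArg Subtype.val (mul_comm r ⟨c a, Subring.subset_closure ⟨a, rfl⟩⟩)) x
  have inj : ∀ r : R, ∀ x, r.1 x = 0 → r = 0 ∨ x = 0 := fun r x hx =>
    (sub (AddMonoidHom.ker r.1) fun a y (hy : r.1 y = 0) => show r.1 (c a y) = 0 by rw [cm, hy, map_zero]).symm.imp
      (fun e => Subtype.ext (AddMonoidHom.ext fun y => e.ge (AddSubgroup.mem_top y))) fun e => e.le hx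
  obtain ⟨m, hm⟩ : ∃ m : Additive M, m ≠ 0 := by
    haveI := (nontrivial_iff_ne_bot M).2 h0
    exact exists_ne 0
  haveI : Nontrivial R := ⟨0, 1, fun e => hm (DFunLike.congr_fun (congrArg Subtype.val e) m).symm⟩
  haveI : NoZeroDivisors R := ⟨fun {r s} e => (inj r (s.1 m) (DFunLike.congr_fun (congrArg Subtype.val e) m)).imp_right
    fun e => (inj s m e).resolve_right hm⟩
  haveI : IsDomain R := NoZeroDivisors.to_isDomain R
  haveI : Finite (AddMonoid.End (Additive M)) := Finite.of_injective (fun f : AddMonoid.End (Additive M) => (f : Additive M → Additive M))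
    DFunLike.coe_injective
  letI : Field R := (Finite.isField_of_domain R).toField
  let ev : R →+ Additive M := AddMonoidHom.mk' (fun r => r.1 m) fun _ _ => rfl
  have bij : Function.Bijective ev := ⟨(injective_iff_map_eq_zero ev).2 fun r hr => (inj r m hr).resolve_right hm, by
    rw [← AddMonoidHom.range_eq_top]
    refine (sub ev.range ?_).resolve_left fun e => hm (e.le ⟨1, rfl⟩)
    rintro a _ ⟨r, rfl⟩
    exact ⟨⟨c a, Subring.subset_closure ⟨a, rfl⟩⟩ * r, rfl⟩⟩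
  let e := AddEquiv.ofBijective ev bij
  refine ⟨R, inferInstance, inferInstance, fun x => if hx : x ∈ M then e.symm (Additive.ofMul ⟨x, hx⟩) else 0,
    fun a => if ha : a ∈ A then ⟨c ⟨a, ha⟩, Subring.subset_closure ⟨_, rfl⟩⟩ else 0,
    ⟨bot_le, hn, fun x hx y hy => ?_, fun x hx => ?_, fun a => ⟨(e a).toMul, (e a).toMul.2, by simp⟩, fun k hk x hx => ?_⟩, ?_⟩
  · rw [dif_pos hx, dif_pos hy, dif_pos (M.mul_mem hx hy), ← map_add]; rfl
  · rw [dif_pos hx, map_eq_zero_iff _ e.symm.injective, mem_bot]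
    exact ⟨fun h => congrArg (fun y : Additive M => (y.toMul : G)) h, fun h => Additive.toMul.injective (Subtype.ext h)⟩
  · rw [dif_pos hx, dif_pos hk, dif_pos (conj_mem_of_le_normalizer hn hk hx), AddEquiv.symm_apply_eq]
    obtain ⟨r, hr⟩ := e.surjective (Additive.ofMul ⟨x, hx⟩)
    rw [← hr, e.symm_apply_apply]
    show _ = c ⟨k, hk⟩ (e r)
    rw [hr]; rfl
  · refine eq_top_iff.2 fun r _ => ?_
    obtain ⟨r, hr⟩ := r
    induction hr using Subring.closure_induction with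
    | mem x hx =>
      obtain ⟨a, rfl⟩ := hx
      exact Subring.subset_closure ⟨a, a.2, dif_pos a.2⟩
    | zero => exact Subring.zero_mem _
    | one => exact Subring.one_mem _
    | add x y _ _ h1 h2 => exact Subring.add_mem _ (h1 trivial) (h2 trivial)
    | neg x _ h1 => exact Subring.neg_mem _ (h1 trivial)
    | mul x y _ _ h1 h2 => exact Subring.mul_mem _ (h1 trivial) (h2 trivial)

theorem exists_co {G : Type u} [Group G] [Finite G] {A C B : Subgroup G} (h1 : B < C) (nC : A ≤ normalizer (C : Set G))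
    (nB : A ≤ normalizer (B : Set G)) (hC : ⁅C, C⁆ ≤ B) (hA : ∀ a ∈ A, ∀ b ∈ A, a * b = b * a)
    (hi : ∀ N, B ≤ N → N ≤ C → A ≤ normalizer (N : Set G) → N = B ∨ N = C) :
    ∃ (R : Type u) (_ : Field R) (_ : Finite R) (π ψ : G → R), Co A C B π ψ ∧ Subring.closure (ψ '' A) = ⊤ := by
  classical
  have hAX : A ≤ A ⊔ C := le_sup_left
  have hCX : C ≤ A ⊔ C := le_sup_right
  obtain ⟨Γ, _, _, f, hf, hk, -⟩ := exists_quot (X := A ⊔ C) (N := B) (h1.le.trans hCX)
    (sup_le nB (le_normalizer_of_commutator_le hC h1.le))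
  obtain ⟨R, _, _, π, ψ, h, hc⟩ := exists_co_bot (A := im f A) (M := im f C)
    (L.comm_of_le_centralizer ((im_le_centralizer_iff f hCX hCX).2 (hk ▸ hC)))
    (fun e => h1.not_ge (hk ▸ (im_eq_bot_iff f hCX).1 e)) (im_le_normalizer f nC) (fun a ha b hb => by
      obtain ⟨a, ha', rfl⟩ := (mem_im f).1 ha
      obtain ⟨b, hb', rfl⟩ := (mem_im f).1 hb
      rw [← map_mul, ← map_mul]; exact congrArg f (Subtype.ext (hA _ ha' _ hb'))) (fun N hN h2 => by
      refine (hi (pre f N) (hk ▸ kr_le_pre f N) ?_ (le_normalizer_pre f hAX h2)).imp (fun e => ?_) fun e => ?_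
      · refine (pre_mono f hN).trans ?_
        rw [pre_im f hCX, hk]; exact sup_le le_rfl h1.le
      · rw [← im_pre_surj f hf N, e, ← hk, im_kr]
      · rw [← im_pre_surj f hf N, e])
  refine ⟨R, inferInstance, inferInstance, fun x => if hx : x ∈ A ⊔ C then π (f ⟨x, hx⟩) else 0,
    fun x => if hx : x ∈ A ⊔ C then ψ (f ⟨x, hx⟩) else 0,
    ⟨h1.le, nC, fun x hx y hy => ?_, fun x hx => ?_, fun a => ?_, fun k hk x hx => ?_⟩, ?_⟩
  · rw [dif_pos (hCX hx), dif_pos (hCX hy), dif_pos (hCX (C.mul_mem hx hy)),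
      ← h.add _ (mem_im_of_mem f hx) _ (mem_im_of_mem f hy), ← map_mul]; rfl
  · rw [dif_pos (hCX hx), h.ker _ (mem_im_of_mem f hx), mem_bot, ← coe_mem_kr, hk]
  · obtain ⟨x, hx, e⟩ := h.surj a
    obtain ⟨y, hy, rfl⟩ := (mem_im f).1 hx
    exact ⟨y, hy, by rw [dif_pos y.2, e]⟩
  · rw [dif_pos (hCX hx), dif_pos (hAX hk), dif_pos (hCX (conj_mem_of_le_normalizer nC hk hx)),
      ← h.act _ (mem_im_of_mem f hk) _ (mem_im_of_mem f hx), ← map_inv, ← map_mul, ← map_mul]; rfl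
  · rw [eq_top_iff, ← hc]
    refine Subring.closure_mono ?_
    rintro _ ⟨x, hx, rfl⟩
    obtain ⟨y, hy, rfl⟩ := (mem_im f).1 hx
    exact ⟨y, hy, dif_pos y.2⟩

/-- a field of characteristic two generated by `2^n - 1` roots of unity -/
theorem Co.card_eq {F : Type*} [Field F] [Finite F] [Finite G] {A C B : Subgroup G} {π ψ : G → F} (h : Co A C B π ψ)
    [CharP F 2] (hc : Subring.closure (ψ '' A) = ⊤) {n : ℕ} (hn : Nat.card A + 1 = 2 ^ n)
    (hi : ∀ k ∈ A, ψ k = 1 → k = 1) : Nat.card F = 2 ^ n ∧ ∀ a, a ≠ 0 → ∃ k ∈ A, ψ k = a := by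
  classical
  haveI := Fintype.ofFinite F
  let φ : A →* Fˣ := MonoidHom.mk' (fun k => Units.mk0 (ψ k) (h.pne k.2)) fun k l => Units.ext (h.pmul k.2 l.2)
  have inj : Function.Injective φ := (injective_iff_map_eq_one φ).2 fun k hk => Subtype.ext (hi k k.2 (congrArg Units.val hk))
  have h1 : ∀ x : F, x ^ 2 ^ n = x := fun x => by
    have : Subring.closure (ψ '' A) ≤ RingHom.eqLocus (iterateFrobenius F 2 n) (RingHom.id F) := Subring.closure_le.2 (by
      rintro _ ⟨k, hk, rfl⟩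
      show ψ k ^ 2 ^ n = ψ k
      rw [← hn, pow_succ, ← h.ppow hk, show k ^ Nat.card A = 1 from congrArg Subtype.val (pow_card_eq_one' (x := (⟨k, hk⟩ : A))),
        h.pone, one_mul])
    exact this (hc ▸ Subring.mem_top x)
  have h2 := Nat.card_le_card_of_injective φ inj
  rw [Nat.card_units] at h2
  have h3 : Nat.card F ≤ 2 ^ n := by
    have n1 : 1 < 2 ^ n := by have := Nat.card_pos (α := A); omega
    have := Polynomial.card_le_degree_of_subset_roots (p := (Polynomial.X ^ 2 ^ n - Polynomial.X : Polynomial F)) (Z := univ)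
      fun x _ => by
        rw [Polynomial.mem_roots (FiniteField.X_pow_card_sub_X_ne_zero F n1)]; simp [h1]
    rwa [FiniteField.X_pow_card_sub_X_natDegree_eq F n1, card_univ, ← Nat.card_eq_fintype_card] at this
  have h4 : Nat.card F = 2 ^ n := by have := Nat.card_pos (α := F); omega
  refine ⟨h4, fun a ha => ?_⟩
  obtain ⟨k, hk⟩ := (inj.bijective_of_nat_card_le (by rw [Nat.card_units]; omega)).2 (Units.mk0 a ha)
  exact ⟨k, k.2, congrArg Units.val hk⟩

end SE
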