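/-
SE.Kc: Peterfalvi part II, chapter I §2: `K` is cyclic, field structure on `Q₀`, `V/W` cyclic.
-/
import Cfsg.Agent.SE.A1
import Cfsg.Agent.SE.Co

set_option autoImplicit false

namespace SE
open Subgroup H9
universe u
variable {G : Type*} [Group G]

/-- the subgroup `K` -/
def Ks (H : Subgroup G) (t : G) : Subgroup G := closure (KK H t)

theorem Q0_isComm (Q : Subgroup G) : IsMulCommutative (Q0 Q) := ⟨⟨fun x y => Subtype.ext (Q0_comm x.2 y.2.1)⟩⟩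

namespace R2
variable {H Q : Subgroup G} {t : G} [Finite G] (h : R2 H Q t)
include h

theorem nQ0 : H ≤ normalizer (Q0 Q : Set G) := normalizer_Q0 h.nm
theorem cQ0 {g x : G} (hg : g ∈ H) (hx : x ∈ Q0 Q) : g * x * g⁻¹ ∈ Q0 Q := conj_mem_of_le_normalizer h.nQ0 hg hx
theorem K_tr {x y : G} (hx : x ∈ Q0 Q) (x1 : x ≠ 1) (hy : y ∈ Q0 Q) (y1 : y ≠ 1) : ∃ k ∈ KK H t, k * x * k⁻¹ = y :=
  h.emb.K_trans h.tt h.tH (h.le hx.1) ⟨x1, hx.2.1⟩ (h.le hy.1) ⟨y1, hy.2.1⟩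

theorem W_iff {w : G} : w ∈ WW H Q t ↔ w ∈ VV H t ∧ ∀ k ∈ KK H t, k * w = w * k := by
  obtain ⟨s, r, hs⟩ := h.exists_SR
  have s0 := h.mem_Q0 hs.1 hs.2.1.2
  rw [mem_WW]
  constructor
  · rintro ⟨h1, c⟩
    have hv := h.V_of_s hs h1 (c s s0).symm
    refine ⟨hv, fun k hk => ?_⟩
    have := h.emb.K_inj h.tt h.tH hs.1 hs.2.1 (KK.conjV h.tt hk hv) hk (by
      rw [show w * k * w⁻¹ * s * (w * k * w⁻¹)⁻¹ = w * k * (w⁻¹ * (s * w)) * k⁻¹ * w⁻¹ by group, c s s0,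
        show w * k * (w⁻¹ * (w * s)) * k⁻¹ * w⁻¹ = w * (k * s * k⁻¹) * w⁻¹ by group, ← c _ (h.cQ0 hk.1 s0)]; group)
    conv_lhs => rw [← this]
    group
  · rintro ⟨h1, h2⟩
    refine ⟨VV_le h1, fun u hu => ?_⟩
    by_cases u1 : u = 1
    · simp [u1]
    obtain ⟨k, hk, rfl⟩ := h.K_tr s0 hs.2.1.1 hu u1
    rw [mul_assoc, h2 _ (KK.inv h.tt hk), ← mul_assoc, mul_assoc k, ← (h.SR_V hs h1).1, ← mul_assoc, h2 k hk]; group

theorem W_le_V : WW H Q t ≤ VV H t := fun _ hw => (h.W_iff.1 hw).1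
theorem nW : DD H t ≤ normalizer (WW H Q t : Set G) :=
  normalizer_inf le_normalizer (normalizer_centralizer (DD_le.trans h.nQ0))

open scoped IsMulCommutative in
theorem K_cyc : ∃ k ∈ KK H t, ∀ x ∈ KK H t, x ∈ zpowers k := by
  haveI := Q0_isComm Q
  let f : DD H t →* MulAut (Q0 Q) := (Q0 Q).normalizerMonoidHom.comp (inclusion (DD_le.trans h.nQ0))
  have hf : ∀ (d : DD H t) (x : Q0 Q), (f d x : G) = d * x * (d : G)⁻¹ := fun _ _ => rfl
  have hk : kr f = WW H Q t := by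
    ext w
    rw [mem_kr, mem_WW]
    refine ⟨fun ⟨h1, h2⟩ => ⟨h1, fun x hx => ?_⟩, fun ⟨h1, h2⟩ => ⟨h1, MulEquiv.ext fun x => Subtype.ext ?_⟩⟩
    · have := hf ⟨w, h1⟩ ⟨x, hx⟩
      rw [h2] at this
      exact eq_mul_inv_iff_mul_eq.1 this
    · rw [hf, ← h2 x x.2]; simp
  letI : DistribMulAction (MulAut (Q0 Q)) (Additive (Q0 Q)) :=
    { smul := fun g a => Additive.ofMul (g a.toMul), one_smul := fun _ => rfl, mul_smul := fun _ _ _ => rfl,
      smul_zero := fun g => congrArg Additive.ofMul (map_one g), smul_add := fun g a b => congrArg Additive.ofMul (map_mul g _ _) }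
  haveI : FaithfulSMul (MulAut (Q0 Q)) (Additive (Q0 Q)) := ⟨fun e => MulEquiv.ext fun x => e (Additive.ofMul x)⟩
  obtain ⟨c1, c2, c3⟩ := trans_fit (E := Additive (Q0 Q)) (D := im f (DD H t)) (Odd.of_dvd_nat h.odd (card_im_dvd f _))
    Nat.prime_two (fun e => Additive.toMul.injective (Subtype.ext (by simpa [pow_two] using e.toMul.2.2.1))) fun a b ha hb => by
      obtain ⟨k, hk, e⟩ := h.K_tr a.toMul.2 (fun e => ha (Additive.toMul.injective (Subtype.ext e))) b.toMul.2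
        (fun e => hb (Additive.toMul.injective (Subtype.ext e)))
      exact ⟨f ⟨k, KK.mem h.tt hk⟩, mem_im_of_mem f (KK.mem h.tt hk), Additive.toMul.injective (Subtype.ext e)⟩
  set B := pre f (Fit (im f (DD H t))) with hB
  have BD : B ≤ DD H t := pre_le f _
  have b3 : ⁅DD H t, DD H t⁆ ≤ B := (im_le_iff f (commutator_le_of_le le_rfl le_rfl)).1 (by rwa [im_commutator f le_rfl le_rfl])
  have b4 : ∀ N ≤ DD H t, DD H t ≤ normalizer (N : Set G) → im f N ≤ centralizer (im f N) → N ≤ B := fun N h1 h2 h3 =>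
    (im_le_iff f h1).1 (le_Fit (im_mono f h1) (im_le_normalizer f h2) (by
      haveI := L.comm_of_le_centralizer h3; infer_instance))
  have tD : cj t (DD H t) = DD H t := mem_normalizer_iff_cj.1 (mem_normalizer_of_cj_le fun x hx => by
    rw [mem_cj, h.tinv] at hx; simpa only [mul_assoc, h.tc, h.tt, mul_one] using h.tD hx)
  have b5 : cj t B ≤ B := by
    have h1 : cj t B ≤ DD H t := tD ▸ cj_mono t BD
    refine b4 _ h1 ?_ ((im_le_centralizer_iff f h1 h1).2 ?_)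
    · rw [← cj_normalizer]; nth_rewrite 1 [← tD]
      exact cj_mono t (le_normalizer_of_commutator_le b3 BD)
    · rw [← cj_commutator, hk]
      have : ⁅B, B⁆ ≤ WW H Q t := hk ▸ (im_le_centralizer_iff f BD BD).1 (by
        rw [hB, im_pre f (Fit_le _)]; exact L.le_centralizer_of_comm IsCyclic.isMulCommutative)
      intro x hx
      rw [mem_cj, h.tinv] at hx
      have h2 := ((mem_VV' h.tt).1 (h.W_le_V (this hx))).2
      simp only [mul_assoc, h.tc, h.tt, mul_one] at h2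
      rw [h2, ← mul_assoc]; exact this hx
  have b6 : ∀ x ∈ B, t * x * t ∈ B := fun x hx => by simpa only [h.tinv] using b5 (conj_mem_cj hx)
  let B1 : Subgroup G :=
    { carrier := {d | d ∈ DD H t ∧ d * (t * d * t) ∈ B}
      one_mem' := ⟨one_mem _, by simp [h.tt]⟩
      mul_mem' := fun {a b} ha hb => ⟨mul_mem ha.1 hb.1, by
        have h1 := b3 (commutator_mem_commutator (mul_mem ha.1 hb.1) (mul_mem ha.1 (h.tD ha.1)))
        have h2 := conj_mem_of_le_normalizer (le_normalizer_of_commutator_le b3 BD) ha.1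
          (b3 (commutator_mem_commutator hb.1 (h.tD ha.1)))
        convert B.mul_mem (B.mul_mem h2 ha.2) hb.2 using 1
        simp only [commutatorElement_def, mul_inv_rev, h.tinv, mul_assoc, h.tc, inv_mul_cancel_left]⟩
      inv_mem' := fun {a} ha => ⟨inv_mem ha.1, by
        convert conj_mem_of_le_normalizer' (le_normalizer_of_commutator_le b3 BD) ha.1 (B.inv_mem ha.2) using 1
        simp only [mul_inv_rev, h.tinv, mul_assoc, h.tc, inv_mul_cancel, mul_one, h.tt]⟩ }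
  have B1D : B1 ≤ DD H t := fun x hx => hx.1
  have KB : ∀ k ∈ KK H t, k ∈ B1 := fun k hk => ⟨KK.mem h.tt hk, by rw [hk.2, mul_inv_cancel]; exact one_mem _⟩
  have BB : B ≤ B1 := fun x hx => ⟨BD hx, B.mul_mem hx (b6 x hx)⟩
  obtain ⟨s, r, hs⟩ := h.exists_SR
  have dec : ∀ x ∈ B1, ∃ w ∈ WW H Q t, ∃ k ∈ KK H t, x = w * k := fun x hx => by
    obtain ⟨v, hv, k, hk', rfl⟩ := h.D_dec hx.1
    refine ⟨v, ?_, k, hk', rfl⟩
    have h1 : v ∈ B1 := by simpa using B1.mul_mem hx (B1.inv_mem (KB k hk'))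
    have h2 := h1.2
    rw [((mem_VV' h.tt).1 hv).2] at h2
    obtain ⟨h3, h4⟩ := (mem_pre f).1 h2
    have h5 : v * v ∈ WW H Q t := hk ▸ (mem_kr f).2 ⟨h3, by
      by_contra h5
      have := c2 _ h4 h5 (Additive.ofMul ⟨s, h.mem_Q0 hs.1 hs.2.1.2⟩) (Additive.toMul.injective (Subtype.ext (by
        show v * v * s * (v * v)⁻¹ = s
        rw [(h.SR_V hs (mul_mem hv hv)).1]; group)))
      exact hs.2.1.1 (congrArg (fun y : Additive (Q0 Q) => (y.toMul : G)) this)⟩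
    obtain ⟨n, hn⟩ := exists_sqrt (odd_orderOf h.odd h1.1)
    rw [← hn, ← (Commute.refl v).mul_pow]; exact pow_mem h5 n
  have fw : ∀ (x y : DD H t), (x : G) * (y : G)⁻¹ ∈ WW H Q t ↔ f x = f y := fun x y => by
    rw [← hk, ← mul_inv_eq_one (a := f x), ← map_inv, ← map_mul, ← coe_mem_kr]; rfl
  have B1B : B1 ≤ B := b4 _ B1D (le_normalizer_of_commutator_le (b3.trans BB) B1D) fun a ha =>
    mem_centralizer_iff.2 fun b hb => by
      obtain ⟨a, ha', rfl⟩ := (mem_im f).1 ha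
      obtain ⟨b, hb', rfl⟩ := (mem_im f).1 hb
      obtain ⟨w1, hw1, k1, hk1, e1⟩ := dec _ ha'
      obtain ⟨w2, hw2, k2, hk2, e2⟩ := dec _ hb'
      obtain ⟨w3, hw3, k3, hk3, e3⟩ := dec _ (B1.mul_mem (KB _ hk1) (KB _ hk2))
      rw [(fw a ⟨k1, KK.mem h.tt hk1⟩).1 (by simpa [e1] using hw1), (fw b ⟨k2, KK.mem h.tt hk2⟩).1 (by simpa [e2] using hw2),
        ← map_mul, ← map_mul, ← fw]
      have e4 : k2 * k1 = k3 * w3⁻¹ := by
        rw [← inv_inj, mul_inv_rev, ← hk1.2, ← hk2.2, mul_inv_rev, inv_inv, ← hk3.2,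
          ← ((mem_VV' h.tt).1 (h.W_le_V hw3)).2, show t * k1 * t * (t * k2 * t) = t * (k1 * k2) * t by simp only [mul_assoc, h.tc], e3]
        simp only [mul_assoc, h.tc]
      show k2 * k1 * (k1 * k2)⁻¹ ∈ _
      rw [e4, e3, (h.W_iff.1 (inv_mem hw3)).2 k3 hk3]
      simpa [mul_assoc] using mul_mem (inv_mem hw3) (inv_mem hw3)
  obtain ⟨⟨g, hg⟩, hg'⟩ := c1.exists_generator
  obtain ⟨b, hb, rfl⟩ := (mem_im f).1 (Fit_le _ hg)
  obtain ⟨w, hw, k, hk', e⟩ := dec b (BB ((coe_mem_pre f).2 hg))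
  refine ⟨k, hk', fun x hx => ?_⟩
  obtain ⟨h1, h2⟩ := (mem_pre f).1 (B1B (KB x hx))
  obtain ⟨n, hn⟩ := mem_powers_iff_mem_zpowers.2 (hg' ⟨_, h2⟩)
  have h3 : f b ^ n = f ⟨x, h1⟩ := congrArg Subtype.val hn
  rw [(fw b ⟨k, KK.mem h.tt hk'⟩).1 (by simpa [e] using hw), ← map_pow, eq_comm, ← fw] at h3
  have h4 := KK.pow h.tt hk' n
  have := (dec_unique h.odd h.tt (v := 1) (KK.mem h.tt hx) (KK.mem h.tt h4) (by simp [h.tt]) hx.2
    ((mem_VV' h.tt).1 (h.W_le_V h3)).2 h4.2 (by simp)).2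
  rw [this]; exact pow_mem (mem_zpowers k) n

theorem exists_Ks : ∃ k ∈ KK H t, Ks H t = zpowers k ∧ ∀ x, x ∈ zpowers k ↔ x ∈ KK H t := by
  obtain ⟨k, hk, h1⟩ := h.K_cyc
  refine ⟨k, hk, le_antisymm ((closure_le _).2 h1) (zpowers_le.2 (subset_closure hk)), fun x => ⟨fun hx => ?_, h1 x⟩⟩
  obtain ⟨n, rfl⟩ := mem_powers_iff_mem_zpowers.2 hx
  exact KK.pow h.tt hk n

theorem mem_Ks {x : G} : x ∈ Ks H t ↔ x ∈ KK H t := by
  obtain ⟨k, -, h1, h2⟩ := h.exists_Ks; rw [h1, h2]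
theorem Ks_cyc : IsCyclic (Ks H t) := by
  obtain ⟨k, -, h1, -⟩ := h.exists_Ks; rw [h1]; infer_instance
theorem K_mul {x y : G} (hx : x ∈ KK H t) (hy : y ∈ KK H t) : x * y ∈ KK H t :=
  h.mem_Ks.1 (mul_mem (h.mem_Ks.2 hx) (h.mem_Ks.2 hy))
theorem K_comm {x y : G} (hx : x ∈ KK H t) (hy : y ∈ KK H t) : x * y = y * x :=
  congrArg Subtype.val (h.Ks_cyc.isMulCommutative.is_comm.comm (⟨x, h.mem_Ks.2 hx⟩ : Ks H t) ⟨y, h.mem_Ks.2 hy⟩)
theorem Ks_le : Ks H t ≤ DD H t := fun _ hx => KK.mem h.tt (h.mem_Ks.1 hx)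
theorem K_conj {d k : G} (hd : d ∈ DD H t) (hk : k ∈ KK H t) : d * k * d⁻¹ ∈ KK H t := by
  obtain ⟨v, hv, j, hj, rfl⟩ := h.D_dec hd
  rw [mul_assoc v j, h.K_comm hj hk, show v * (k * j) * (v * j)⁻¹ = v * k * v⁻¹ by group]
  exact KK.conjV h.tt hk hv
theorem nK : DD H t ≤ normalizer (Ks H t : Set G) := le_normalizer_of_cj_le fun g hg x hx => by
  rw [mem_cj, h.mem_Ks] at hx
  simpa [mul_assoc] using h.mem_Ks.2 (h.K_conj hg hx)
theorem card_Ks : Nat.card (Ks H t) + 1 = Nat.card (Q0 Q) := by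
  classical
  rw [Nat.card_congr (Equiv.subtypeEquivRight (p := fun x => x ∈ Ks H t) fun x => h.mem_Ks)]
  rw [show Nat.card {x // x ∈ KK H t} = Nat.card (KK H t) from rfl, h.emb.card_K h.tt h.tH, ← Finite.card_option]
  refine Nat.card_congr (Equiv.ofBijective (fun x => Option.elim x 1 fun s => ⟨s.1, h.mem_Q0 s.2.1 s.2.2.2⟩) ⟨?_, fun x => ?_⟩)
  · rintro (_ | x) (_ | y) e
    · rfl
    · exact absurd (congrArg Subtype.val e).symm y.2.2.1
    · exact absurd (congrArg Subtype.val e) x.2.2.1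
    · exact congrArg _ (Subtype.ext (congrArg (fun z : Q0 Q => (z : G)) e))
  · by_cases h1 : x = 1
    · exact ⟨none, h1.symm⟩
    · exact ⟨some ⟨x, h.le x.2.1, fun e => h1 (Subtype.ext e), x.2.2.1⟩, rfl⟩

end R2
end SE
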