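/-
SE.Hig1: Suzuki 2-groups (Higman), basic facts.
-/
import Cfsg.Agent.SE.Co
import Cfsg.Agent.H9.Stab
import Cfsg.Agent.FT.B4b

set_option autoImplicit false

namespace SE
open Subgroup H9 Finset L
open scoped commutatorElement
universe u
variable {G : Type u} [Group G]

theorem exists_maxinv [Finite G] {K N C : Subgroup G} (h : N < C) (hN : K ≤ normalizer (N : Set G)) :
    ∃ B, N ≤ B ∧ B < C ∧ K ≤ normalizer (B : Set G) ∧ ∀ M, B ≤ M → M ≤ C → K ≤ normalizer (M : Set G) → M = B ∨ M = C := by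
  obtain ⟨B, hB, h1⟩ := exists_maximal_of_wellFoundedGT (fun B : Subgroup G => N ≤ B ∧ B < C ∧ K ≤ normalizer (B : Set G))
    ⟨N, le_rfl, h, hN⟩
  refine ⟨B, hB.1, hB.2.1, hB.2.2, fun M h2 h3 h4 => ?_⟩
  by_cases h5 : M = C
  · exact Or.inr h5
  · exact Or.inl (le_antisymm (h1 ⟨hB.1.trans h2, lt_of_le_of_ne h3 h5, h4⟩ h2) h2)

theorem exists_mininv [Finite G] {K N C : Subgroup G} (h : N < C) (hC : K ≤ normalizer (C : Set G)) :
    ∃ B, N < B ∧ B ≤ C ∧ K ≤ normalizer (B : Set G) ∧ ∀ M, N ≤ M → M ≤ B → K ≤ normalizer (M : Set G) → M = N ∨ M = B := by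
  obtain ⟨B, hB, h1⟩ := exists_minimal_of_wellFoundedLT (fun B : Subgroup G => N < B ∧ B ≤ C ∧ K ≤ normalizer (B : Set G))
    ⟨C, h, le_rfl, hC⟩
  refine ⟨B, hB.1, hB.2.1, hB.2.2, fun M h2 h3 h4 => ?_⟩
  by_cases h5 : M = N
  · exact Or.inl h5
  · exact Or.inr (le_antisymm h3 (h1 ⟨lt_of_le_of_ne h2 (Ne.symm h5), h3.trans hB.2.1, h4⟩ h3))

instance : Fact (Nat.Prime 2) := ⟨Nat.prime_two⟩

theorem sq_mem_Phi [Finite G] {A : Subgroup G} (hA : IsPGroup 2 A) {x : G} (hx : x ∈ A) : x * x ∈ Phi A :=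
  pow_two x ▸ pow_mem_Phi hA hx

theorem mem_Phi_comm [Finite G] {A : Subgroup G} (hA : IsPGroup 2 A) (hc : ∀ a ∈ A, ∀ b ∈ A, a * b = b * a) {x : G} :
    x ∈ Phi A ↔ ∃ a ∈ A, a * a = x := by
  refine ⟨fun hx => ?_, fun ⟨a, ha, e⟩ => e ▸ sq_mem_Phi hA ha⟩
  let N : Subgroup G :=
    { carrier := {x | ∃ a ∈ A, a * a = x}
      one_mem' := ⟨1, A.one_mem, one_mul 1⟩
      mul_mem' := by
        rintro _ _ ⟨a, ha, rfl⟩ ⟨b, hb, rfl⟩
        exact ⟨a * b, A.mul_mem ha hb, by rw [mul_assoc, ← mul_assoc b, ← hc a ha b hb]; group⟩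
      inv_mem' := by
        rintro _ ⟨a, ha, rfl⟩
        exact ⟨a⁻¹, A.inv_mem ha, by group⟩ }
  refine Phi_le_of (p := 2) (N := N) (commutator_le.2 fun a ha b hb => ?_) (fun x hx => ⟨x, hx, (pow_two x).symm⟩) hx
  rw [commutatorElement_eq_one_iff_mul_comm.2 (hc a ha b hb)]; exact N.one_mem

/-- a map which is additive on `P` kills `Φ(P)` -/
theorem add_Phi [Finite G] {F : Type*} [Field F] [CharP F 2] {P : Subgroup G} {f : G → F}
    (h : ∀ x ∈ P, ∀ y ∈ P, f (x * y) = f x + f y) {x : G} (hx : x ∈ Phi P) : f x = 0 := by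
  have h1 : f 1 = 0 := by simpa using h 1 P.one_mem 1 P.one_mem
  have h2 : ∀ x ∈ P, f x⁻¹ = f x := fun x hx => by
    have := h x hx _ (P.inv_mem hx)
    rw [mul_inv_cancel, h1] at this
    linear_combination this + f x⁻¹ * two0 (F := F)
  let N : Subgroup G :=
    { carrier := {x | x ∈ P ∧ f x = 0}
      one_mem' := ⟨P.one_mem, h1⟩
      mul_mem' := fun {a b} ha hb => ⟨P.mul_mem ha.1 hb.1, by rw [h a ha.1 b hb.1, ha.2, hb.2, add_zero]⟩
      inv_mem' := fun {a} ha => ⟨P.inv_mem ha.1, by rw [h2 a ha.1, ha.2]⟩ }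
  refine (Phi_le_of (p := 2) (N := N) (commutator_le.2 fun a ha b hb => ⟨?_, ?_⟩) (fun x hx => ⟨P.pow_mem hx 2, ?_⟩) hx).2
  · exact commutator_le_of_le le_rfl le_rfl (commutator_mem_commutator ha hb)
  · rw [commutatorElement_def, h _ (P.mul_mem (P.mul_mem ha hb) (P.inv_mem ha)) _ (P.inv_mem hb), h _ (P.mul_mem ha hb) _ (P.inv_mem ha),
      h _ ha _ hb, h2 a ha, h2 b hb]
    linear_combination (f a + f b) * two0 (F := F)
  · rw [pow_two, h x hx x hx, CharTwo.add_self_eq_zero]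

structure CoK {F : Type*} [Field F] (K C B : Subgroup G) (π ψ : G → F) : Prop extends Co K C B π ψ where
  psurj : ∀ a, a ≠ 0 → ∃ k ∈ K, ψ k = a
  pinj : ∀ k ∈ K, ψ k = 1 → k = 1

theorem CoK.irr' {F : Type*} [Field F] {K C B : Subgroup G} {π ψ : G → F} (h : CoK K C B π ψ) {N : Subgroup G} (h1 : B ≤ N)
    (h2 : N ≤ C) (h3 : K ≤ normalizer (N : Set G)) : N = B ∨ N = C := h.irr h.psurj h1 h2 h3

theorem CoK.peq {F : Type*} [Field F] {K C B : Subgroup G} {π ψ : G → F} (h : CoK K C B π ψ) {k l : G} (hk : k ∈ K) (hl : l ∈ K)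
    (e : ψ k = ψ l) : k = l :=
  mul_inv_eq_one.1 (h.pinj _ (K.mul_mem hk (K.inv_mem hl)) (by
    rw [h.pmul hk (K.inv_mem hl), h.pinv hl, e, mul_inv_cancel₀ (h.pne hl)]))

theorem CoK.comm {F : Type*} [Field F] {K C B : Subgroup G} {π ψ : G → F} (h : CoK K C B π ψ) {k l : G} (hk : k ∈ K)
    (hl : l ∈ K) : k * l = l * k :=
  h.peq (K.mul_mem hk hl) (K.mul_mem hl hk) (by rw [h.pmul hk hl, h.pmul hl hk, mul_comm])

theorem CoK.cardK {F : Type*} [Field F] [Finite F] {K C B : Subgroup G} {π ψ : G → F} (h : CoK K C B π ψ) :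
    Nat.card K + 1 = Nat.card F := by
  have : Nat.card K = Nat.card Fˣ := Nat.card_congr (Equiv.ofBijective (fun k => Units.mk0 (ψ k) (h.pne k.2))
    ⟨fun k l e => Subtype.ext (h.peq k.2 l.2 (congrArg Units.val e)), fun a => by
      obtain ⟨k, hk, e⟩ := h.psurj a a.ne_zero
      exact ⟨⟨k, hk⟩, Units.ext e⟩⟩)
  rw [this, Nat.card_units]; have := Nat.card_pos (α := F); omega

theorem CoK.map {F F' : Type*} [Field F] [Field F'] {K C B : Subgroup G} {π ψ : G → F} (h : CoK K C B π ψ) (e : F ≃+* F') :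
    CoK K C B (fun x => e (π x)) (fun x => e (ψ x)) :=
  ⟨h.toCo.map e, fun a ha => by
    obtain ⟨k, hk, e1⟩ := h.psurj (e.symm a) (by simpa using ha)
    exact ⟨k, hk, by simp [e1]⟩, fun k hk e1 => h.pinj k hk (by simpa using e1)⟩

theorem CoK.smul {F : Type*} [Field F] {K C B : Subgroup G} {π ψ : G → F} (h : CoK K C B π ψ) {c : F} (hc : c ≠ 0) :
    CoK K C B (fun x => c * π x) ψ := ⟨h.toCo.smul hc, h.psurj, h.pinj⟩

/-- transition between two twists -/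
theorem CoK.exists_rho {F : Type*} [Field F] {K C B C' B' : Subgroup G} {π ψ π' ψ' : G → F} (h : CoK K C B π ψ)
    (h' : CoK K C' B' π' ψ') : ∃ ρ : F →* F, ρ 0 = 0 ∧ Function.Injective ρ ∧ ∀ k ∈ K, ρ (ψ k) = ψ' k := by
  classical
  choose κ h1 h2 using h.psurj
  have h3 : ∀ k ∈ K, (if ha : ψ k = 0 then 0 else ψ' (κ _ ha)) = ψ' k := fun k hk => by
    rw [dif_neg (h.pne hk), h.peq (h1 _ _) hk (h2 _ _)]
  refine ⟨⟨⟨fun a => if ha : a = 0 then 0 else ψ' (κ a ha), ?_⟩, fun a b => ?_⟩, dif_pos rfl, fun a b e => ?_, h3⟩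
  · rw [← h.pone, h3 1 K.one_mem, h'.pone, h.pone]
  · by_cases ha : a = 0
    · simp [ha]
    by_cases hb : b = 0
    · simp [hb]
    obtain ⟨k, hk, rfl⟩ := h.psurj a ha
    obtain ⟨l, hl, rfl⟩ := h.psurj b hb
    dsimp only
    rw [← h.pmul hk hl, h3 k hk, h3 l hl, h3 _ (K.mul_mem hk hl), h'.pmul hk hl]
  · simp only [MonoidHom.coe_mk, OneHom.coe_mk] at e
    by_cases ha : a = 0 <;> by_cases hb : b = 0
    · rw [ha, hb]
    · rw [dif_pos ha, dif_neg hb] at e; exact absurd e.symm (h'.pne (h1 _ _))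
    · rw [dif_pos hb, dif_neg ha] at e; exact absurd e (h'.pne (h1 _ _))
    · rw [dif_neg ha, dif_neg hb] at e
      rw [← h2 a ha, h'.peq (h1 _ _) (h1 _ _) e, h2]

theorem exists_coK [Finite G] {F : Type*} [Field F] [Finite F] [CharP F 2] {K C B : Subgroup G} (h1 : B < C)
    (nC : K ≤ normalizer (C : Set G)) (nB : K ≤ normalizer (B : Set G)) (hC : ⁅C, C⁆ ≤ B) (hs : ∀ x ∈ C, x * x ∈ B)
    (hA : ∀ a ∈ K, ∀ b ∈ K, a * b = b * a) (hi : ∀ N, B ≤ N → N ≤ C → K ≤ normalizer (N : Set G) → N = B ∨ N = C)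
    (hc : Nat.card K + 1 = Nat.card F) (hf : ∀ k ∈ K, (∀ x ∈ C, k * x * k⁻¹ * x⁻¹ ∈ B) → k = 1) :
    ∃ π ψ : G → F, CoK K C B π ψ := by
  obtain ⟨R, _, _, π, ψ, h, h2⟩ := exists_co h1 nC nB hC hA hi
  haveI := h.charP hs
  have h3 : ∀ k ∈ K, ψ k = 1 → k = 1 := fun k hk e => hf k hk fun x hx =>
    (h.eq_iff (h.cC hk hx) hx).1 (by rw [h.act k hk x hx, e, one_mul])
  obtain ⟨h4, h5⟩ := h.card_eq h2 (hc.trans card_aut) h3
  haveI := Fintype.ofFinite R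
  haveI := Fintype.ofFinite F
  exact ⟨_, _, CoK.map ⟨h, h5, h3⟩ (FiniteField.ringEquivOfCardEq (by
    rw [← Nat.card_eq_fintype_card, ← Nat.card_eq_fintype_card, h4, ← card_aut]))⟩

/-- `P` is a `2`-group on whose involutions `K` acts regularly -/
structure SG {F : Type*} [Field F] (P Z K : Subgroup G) (π ψ : G → F) : Prop where
  isP : IsPGroup 2 P
  nm : K ≤ normalizer (P : Set G)
  Zle : Z ≤ P
  Zc : ∀ z ∈ Z, ∀ x ∈ P, z * x = x * z
  inv : ∀ x ∈ P, x * x = 1 → x ∈ Z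
  co : CoK K Z ⊥ π ψ
  four : ∃ a : F, a ≠ 0 ∧ a ≠ 1

namespace SG
variable {F : Type*} [Field F] [Finite F] [CharP F 2] [Finite G] {P Z K : Subgroup G} {π ψ : G → F} (h : SG P Z K π ψ)
include h

omit [Finite F] [Finite G] in
theorem Zsq {z : G} (hz : z ∈ Z) : z * z = 1 :=
  mem_bot.1 ((h.co.ker _ (Z.mul_mem hz hz)).1 (by rw [h.co.add z hz z hz, CharTwo.add_self_eq_zero]))
omit [Finite F] [Finite G] [CharP F 2] in
theorem Zeq {x y : G} (hx : x ∈ Z) (hy : y ∈ Z) (e : π x = π y) : x = y :=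
  mul_inv_eq_one.1 (mem_bot.1 ((h.co.eq_iff hx hy).1 e))
omit [Finite F] [Finite G] [CharP F 2] in
theorem Z0 {x : G} (hx : x ∈ Z) : π x = 0 ↔ x = 1 := by rw [h.co.ker x hx, mem_bot]
omit [Finite F] [Finite G] [CharP F 2] in
theorem nZ : P ≤ normalizer (Z : Set G) := le_normalizer_of_commutator_le (commutator_le.2 fun z hz x hx => by
  rw [commutatorElement_eq_one_iff_mul_comm.2 (h.Zc z hz x hx)]; exact Z.one_mem) le_rfl
omit [Finite F] [Finite G] [CharP F 2] in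
theorem cardZ : Nat.card Z = Nat.card F := by rw [h.co.card, card_bot, one_mul]
omit [Finite G] in
theorem oddK : (Nat.card K).Coprime 2 := by
  have h1 := h.co.cardK
  rw [card_aut (F := F)] at h1
  have := Nat.card_pos (α := F ≃+* F)
  rw [Nat.coprime_two_right, ← Nat.not_even_iff_odd, ← Nat.even_add_one, h1]
  exact (Nat.even_pow' this.ne').2 even_two

theorem Z_le {A : Subgroup G} (hA : A ≤ P) (h0 : A ≠ ⊥) (hn : K ≤ normalizer (A : Set G)) : Z ≤ A := by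
  obtain ⟨n, e⟩ := IsPGroup.iff_card.1 (h.isP.to_le hA)
  obtain ⟨z, hz, h3⟩ := exists_inv_of_even (X := A) (by
    rw [e]; refine dvd_pow_self 2 fun h1 => h0 ?_
    rw [h1, pow_zero] at e; exact card_eq_one.1 e)
  exact inf_eq_left.1 ((h.co.irr' bot_le inf_le_left (normalizer_inf h.co.nm hn)).resolve_left fun e =>
    h3.1 (mem_bot.1 (e.le ⟨h.inv z (hA hz) h3.2, hz⟩)))

theorem sub {A : Subgroup G} (hA : A ≤ P) (h0 : A ≠ ⊥) (hn : K ≤ normalizer (A : Set G)) : SG A Z K π ψ :=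
  ⟨h.isP.to_le hA, hn, h.Z_le hA h0 hn, fun z hz x hx => h.Zc z hz x (hA hx), fun x hx => h.inv x (hA hx), h.co, h.four⟩

theorem fpf {k x : G} (hk : k ∈ K) (hx : x ∈ P) (e : k * x = x * k) : k = 1 ∨ x = 1 := by
  by_cases h0 : P ⊓ centralizer {k} = ⊥
  · exact Or.inr (mem_bot.1 (h0.le ⟨hx, mem_centralizer_singleton_iff.2 e.symm⟩))
  obtain ⟨n, e⟩ := IsPGroup.iff_card.1 (h.isP.to_le (inf_le_left : P ⊓ centralizer {k} ≤ P))
  obtain ⟨z, hz, h3⟩ := exists_inv_of_even (X := P ⊓ centralizer {k}) (by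
    rw [e]; refine dvd_pow_self 2 fun h1 => h0 ?_
    rw [h1, pow_zero] at e; exact card_eq_one.1 e)
  have h4 := h.inv z hz.1 h3.2
  have h5 := h.co.act k hk z h4
  rw [← mem_centralizer_singleton_iff.1 hz.2, mul_inv_cancel_right] at h5
  exact Or.inl (h.co.pinj k hk ((mul_eq_right₀ (mt (h.Z0 h4).1 h3.1)).1 h5.symm))

theorem fpf' {B : Subgroup G} (hB : B ≤ P) (nB : K ≤ normalizer (B : Set G)) {k x : G} (hk : k ∈ K) (hx : x ∈ P)
    (nx : x ∈ normalizer (B : Set G)) (e : k * x * k⁻¹ * x⁻¹ ∈ B) : k = 1 ∨ x ∈ B := by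
  obtain ⟨d, hd, h1⟩ := cop_fixed (A := zpowers k) ((zpowers_le.2 hk).trans nB)
    (copA_of_p' (h.isP.to_le hB) (cop_of_le h.oddK (zpowers_le.2 hk))) (x := x) fun a ha => by
      obtain ⟨n, rfl⟩ := mem_powers_iff_mem_zpowers.2 ha
      induction n with
      | zero => simp
      | succ n ih =>
        have := B.mul_mem (conj_mem_of_le_normalizer nB hk (ih (pow_mem (mem_zpowers k) n))) e
        simpa [pow_succ', mul_assoc] using this
  refine (h.fpf hk (P.mul_mem (hB hd) hx) (mem_centralizer_iff.1 h1 k (mem_zpowers k))).imp_right fun e => ?_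
  rw [eq_inv_of_mul_eq_one_right e]; exact B.inv_mem hd

theorem coK {C B : Subgroup G} (hC : C ≤ P) (h1 : B < C) (nC : K ≤ normalizer (C : Set G)) (nB : K ≤ normalizer (B : Set G))
    (h2 : Phi C ≤ B) (hi : ∀ N, B ≤ N → N ≤ C → K ≤ normalizer (N : Set G) → N = B ∨ N = C) :
    ∃ π' ψ' : G → F, CoK K C B π' ψ' := by
  have hp := h.isP.to_le hC
  refine exists_coK h1 nC nB ((commutator_le_Phi hp).trans h2) (fun x hx => h2 (sq_mem_Phi hp hx))
    (fun a ha b hb => h.co.comm ha hb) hi h.co.cardK fun k hk h3 => ?_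
  obtain ⟨x, hx, x1⟩ := SetLike.exists_of_lt h1
  exact (h.fpf' (h1.le.trans hC) nB hk (hC hx) (le_normalizer_of_commutator_le ((commutator_le_Phi hp).trans h2) h1.le hx)
    (h3 x hx)).resolve_right x1

theorem Phi_lt {A : Subgroup G} (hA : A ≤ P) (h0 : A ≠ ⊥) : Phi A < A :=
  lt_of_le_of_ne (Phi_le A) fun e => h0 (eq_bot_iff.2 (le_of_Phi_sup bot_le (by rw [e]; exact le_sup_left)))

theorem card_pow (A : Subgroup G) (hA : A ≤ P) (hn : K ≤ normalizer (A : Set G)) : ∃ m, Nat.card A = Nat.card F ^ m := by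
  induction A using WellFoundedLT.induction with
  | ind A ih =>
    by_cases h0 : A = ⊥
    · exact ⟨0, by simp [h0]⟩
    obtain ⟨B, h1, h2, h3, h4⟩ := exists_maxinv (h.Phi_lt hA h0) (normalizer_Phi hn)
    obtain ⟨π', ψ', h5⟩ := h.coK hA h2 hn h3 h1 h4
    obtain ⟨m, hm⟩ := ih B h2 (h2.le.trans hA) h3
    exact ⟨m + 1, by rw [h5.card, hm, pow_succ]⟩

/-- squaring transports coordinates -/
theorem co_sq {A : Subgroup G} (hA : A ≤ P) (hn : K ≤ normalizer (A : Set G)) (hc : ∀ a ∈ A, ∀ b ∈ A, a * b = b * a)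
    (h0 : Phi A ≠ ⊥) {π' : G → F} (h1 : CoK K (Phi A) (Phi (Phi A)) π' ψ) : CoK K A (Phi A) (fun a => π' (a * a)) ψ := by
  have hp := h.isP.to_le hA
  have hp' := hp.to_le (Phi_le A)
  have hc' : ∀ a ∈ Phi A, ∀ b ∈ Phi A, a * b = b * a := fun a ha b hb => hc a (Phi_le A ha) b (Phi_le A hb)
  refine ⟨⟨Phi_le A, hn, fun x hx y hy => ?_, fun x hx => ?_, fun a => ?_, fun k hk x hx => ?_⟩, h1.psurj, h1.pinj⟩
  · rw [← h1.add _ (sq_mem_Phi hp hx) _ (sq_mem_Phi hp hy), mul_assoc, ← mul_assoc y, ← hc x hx y hy]; congr 1; group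
  · rw [h1.ker _ (sq_mem_Phi hp hx), mem_Phi_comm hp' hc']
    refine ⟨fun ⟨b, hb, e⟩ => ?_, fun hx => ⟨x, hx, rfl⟩⟩
    have h2 := Phi_le A hb
    have := h.Z_le ((Phi_le A).trans hA) h0 (normalizer_Phi hn) (h.inv _ (hA (A.mul_mem hx (A.inv_mem h2))) (by
      rw [mul_assoc, ← mul_assoc b⁻¹, ← hc x hx _ (A.inv_mem h2), ← mul_assoc, ← mul_assoc, ← e]; group))
    simpa using (Phi A).mul_mem this hb
  · obtain ⟨x, hx, e⟩ := h1.surj a
    obtain ⟨y, hy, rfl⟩ := (mem_Phi_comm hp hc).1 hx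
    exact ⟨y, hy, e⟩
  · rw [← h1.act k hk _ (sq_mem_Phi hp hx)]; congr 1; group

theorem co_ab (A : Subgroup G) (hA : A ≤ P) (hn : K ≤ normalizer (A : Set G)) (hc : ∀ a ∈ A, ∀ b ∈ A, a * b = b * a)
    (h0 : A ≠ ⊥) : ∃ π' : G → F, CoK K A (Phi A) π' ψ := by
  induction A using WellFoundedLT.induction with
  | ind A ih =>
    by_cases h1 : Phi A = ⊥
    · have : A = Z := le_antisymm (fun x hx => h.inv x (hA hx) (mem_bot.1 (h1.le (sq_mem_Phi (h.isP.to_le hA) hx))))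
        (h.Z_le hA h0 hn)
      exact ⟨π, by rw [h1, this]; exact h.co⟩
    obtain ⟨π', h2⟩ := ih _ (h.Phi_lt hA h0) ((Phi_le A).trans hA) (normalizer_Phi hn)
      (fun a ha b hb => hc a (Phi_le A ha) b (Phi_le A hb)) h1
    exact ⟨_, h.co_sq hA hn hc h1 h2⟩

theorem le_Phi_ab {A B : Subgroup G} (hA : A ≤ P) (hn : K ≤ normalizer (A : Set G)) (hc : ∀ a ∈ A, ∀ b ∈ A, a * b = b * a)
    (hB : B < A) (nB : K ≤ normalizer (B : Set G)) : B ≤ Phi A := by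
  obtain ⟨π', h1⟩ := h.co_ab A hA hn hc hB.ne_bot
  rcases h1.irr' le_sup_left (sup_le (Phi_le A) hB.le) (normalizer_sup (normalizer_Phi hn) nB) with e | e
  · exact le_sup_right.trans e.le
  · exact absurd (le_of_Phi_sup hB.le e.ge) hB.not_ge

/-- Higman's lemma 3 -/
theorem lem3 {A : Subgroup G} (hA : A ≤ P) (hn : K ≤ normalizer (A : Set G)) (hc : ∀ a ∈ A, ∀ b ∈ A, a * b = b * a)
    (h0 : A ≠ ⊥) {u : G} (hu : u ∈ P) (nu : u ∈ normalizer (A : Set G)) (h1 : u * u ∈ Phi A)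
    (h2 : ∀ a ∈ A, ⁅u, a⁆ ∈ Phi (Phi A)) : u ∈ A := by
  have hp := h.isP.to_le hA
  have cA : ∀ b ∈ A, u * b * u⁻¹ ∈ A := fun b hb => conj_mem_of_le_normalizer le_rfl nu hb
  let I : Subgroup G :=
    { carrier := {x | ∃ b ∈ A, u * b * u⁻¹ * b = x}
      one_mem' := ⟨1, A.one_mem, by simp⟩
      mul_mem' := by
        rintro _ _ ⟨a, ha, rfl⟩ ⟨b, hb, rfl⟩
        exact ⟨a * b, A.mul_mem ha hb, by rw [mul_assoc _ a, ← mul_assoc a, hc a ha _ (cA b hb)]; group⟩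
      inv_mem' := by
        rintro _ ⟨a, ha, rfl⟩
        exact ⟨a⁻¹, A.inv_mem ha, by rw [← hc a ha _ (cA a ha)]; group⟩ }
  have e : ∀ b, u * b * u⁻¹ * b = ⁅u, b⁆ * (b * b) := fun b => by rw [commutatorElement_def]; group
  have h3 : Phi A ≤ I := le_of_Phi_sup (by
    rintro _ ⟨b, hb, rfl⟩
    rw [e]; exact mul_mem (Phi_le _ (h2 b hb)) (sq_mem_Phi hp hb)) fun x hx => by
      obtain ⟨b, hb, rfl⟩ := (mem_Phi_comm hp hc).1 hx
      rw [show b * b = ⁅u, b⁆⁻¹ * (u * b * u⁻¹ * b) by rw [e]; group]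
      exact mul_mem (mem_sup_left (inv_mem (h2 b hb))) (mem_sup_right ⟨b, hb, rfl⟩)
  obtain ⟨b, hb, e1⟩ := h3 (inv_mem h1)
  have := h.Z_le hA h0 hn (h.inv (u * b) (P.mul_mem hu (hA hb)) (by
    rw [show u * b * (u * b) = u * b * u⁻¹ * (u * u) * b by group, hc _ (cA b hb) _ (Phi_le A h1), mul_assoc, e1, mul_inv_cancel]))
  simpa using A.mul_mem this (A.inv_mem hb)

end SG
end SE
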