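/-
SE.Hig2: Suzuki 2-groups with `Φ(P) ≤ Z` (Gauss sum argument); lemmas on equivariant biadditive maps.
-/
import Cfsg.Agent.SE.Hig1

set_option autoImplicit false

namespace SE
open Subgroup H9 Finset L
open scoped commutatorElement
universe u
variable {G : Type u} [Group G] {F : Type*} [Field F]

theorem Co.mk_fun {A C B : Subgroup G} {π ψ : G → F} (h : Co A C B π ψ) {α : Type*} {f : G → α}
    (hf : ∀ x ∈ C, ∀ b ∈ B, f (x * b) = f x) : ∃ φ : F → α, ∀ x ∈ C, φ (π x) = f x := by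
  obtain ⟨τ, h1, h2⟩ := h.exists_sec
  exact ⟨fun a => f (τ a), fun x hx => by
    rw [← hf x hx _ ((h.eq_iff' (h1 (π x)) hx).1 (h2 _)), mul_inv_cancel_left]⟩

theorem Co.mk_biadd {A C B A' C' B' : Subgroup G} {π ψ π' ψ' : G → F} (h : Co A C B π ψ) (h' : Co A' C' B' π' ψ') {b : G → G → F}
    (h1 : ∀ x ∈ C, ∀ x' ∈ C, ∀ y ∈ C', b (x * x') y = b x y + b x' y)
    (h2 : ∀ x ∈ C, ∀ y ∈ C', ∀ y' ∈ C', b x (y * y') = b x y + b x y')
    (h3 : ∀ x ∈ B, ∀ y ∈ C', b x y = 0) (h4 : ∀ x ∈ C, ∀ y ∈ B', b x y = 0) :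
    ∃ β : F →+ F →+ F, ∀ x ∈ C, ∀ y ∈ C', β (π x) (π' y) = b x y := by
  obtain ⟨τ, t1, t2⟩ := h.exists_sec
  obtain ⟨τ', t1', t2'⟩ := h'.exists_sec
  have key : ∀ x ∈ C, ∀ y ∈ C', b (τ (π x)) (τ' (π' y)) = b x y := fun x hx y hy => by
    have e1 := (h.eq_iff' (t1 (π x)) hx).1 (t2 _)
    have e2 := (h'.eq_iff' (t1' (π' y)) hy).1 (t2' _)
    rw [← mul_inv_cancel_left x (τ _), h1 x hx _ (h.le e1) _ (t1' _), h3 _ e1 _ (t1' _), add_zero,
      ← mul_inv_cancel_left y (τ' _), h2 x hx y hy _ (h'.le e2), h4 x hx _ e2, add_zero]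
  refine ⟨AddMonoidHom.mk' (fun a => AddMonoidHom.mk' (fun c => b (τ a) (τ' c)) fun c d => ?_) fun a a' => ?_, key⟩
  · rw [← h2 _ (t1 a) _ (t1' c) _ (t1' d), ← key _ (t1 a) _ (C'.mul_mem (t1' c) (t1' d)), h'.add _ (t1' c) _ (t1' d), t2, t2', t2']
  · ext c
    simp only [AddMonoidHom.mk'_apply, AddMonoidHom.add_apply]
    rw [← h1 _ (t1 a) _ (t1 a') _ (t1' c), ← key _ (C.mul_mem (t1 a) (t1 a')) _ (t1' c), h.add _ (t1 a) _ (t1 a'), t2, t2, t2']

section fld
variable [Finite F] [CharP F 2]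

theorem fr_ne (h4 : ∃ a : F, a ≠ 0 ∧ a ≠ 1) : ¬ ∀ x : F, x * x = x := fun h => by
  obtain ⟨a, h0, h1⟩ := h4
  exact h1 (mul_left_cancel₀ h0 (by rw [h, mul_one]))

theorem alt_zero (β : F →+ F →+ F) (h1 : ∀ a x y, β (a * x) (a * y) = a * β x y) (h2 : ∀ x, β x x = 0) (x y : F) : β x y = 0 := by
  obtain ⟨c, hc, h3⟩ := biadd_equiv β
  have h4 : ∀ p, p ≠ ((fr F).symm, (fr F).symm) → c p = 0 := fun p hp => by
    by_contra h5
    have h6 := fun a => h3 a a a (h1 a) p h5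
    have h7 : p.1 = p.2 := P1 (τ := RingEquiv.refl F) h6
    have h8 : p.1 = (fr F).symm := RingEquiv.ext fun a => by
      rw [RingEquiv.eq_symm_apply, fr_apply]; nth_rewrite 2 [h7]; exact h6 a
    exact hp (Prod.ext h8 (h7 ▸ h8))
  have h5 := h2 1
  rw [hc, sum_eq_single _ (fun p _ hp => by rw [h4 p hp, zero_mul]) (by simp)] at h5
  rw [hc, sum_eq_single _ (fun p _ hp => by rw [h4 p hp, zero_mul]) (by simp)]
  simp only [map_one, mul_one] at h5
  rw [h5, zero_mul]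

omit [CharP F 2] in
theorem idem_false [CharP F 2] (ν : F →+ F →+ F) (h1 : ∀ x y, ν x (ν x y) = ν x y) (h2 : ∀ x, x ≠ 0 → ∃ y, ν x y ≠ 0)
    (h3 : ∀ d, d ≠ 0 → ∃ a, a ≠ 0 ∧ ∀ x y, ν (a * x) (d * y) = d * ν x y) (h4 : ∃ a : F, a ≠ 0 ∧ a ≠ 1) : False := by
  classical
  haveI := Fintype.ofFinite F
  have cm : ∀ x z y, ν x (ν z y) = ν z (ν x y) := fun x z y => by
    have := h1 (x + z) y
    simp only [map_add, AddMonoidHom.add_apply, h1] at this
    linear_combination this - ν z (ν x y) * two0 (F := F)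
  obtain ⟨y, hy, hm⟩ := exists_max_image (univ.filter fun y : F => y ≠ 0) (fun y => #(univ.filter fun x => ν x y = 0))
    ⟨1, by simp⟩
  have y0 : y ≠ 0 := by simpa using hy
  have e1 : ∀ x, ν x y = 0 ∨ ν x y = y := fun x => by
    by_contra h5
    push Not at h5
    refine (hm (y + ν x y) (by
      simpa using fun e => h5.2 (by linear_combination e - y * two0 (F := F)))).not_gt (card_lt_card ⟨fun z hz => ?_, fun h6 => ?_⟩)
    · simp only [mem_filter, mem_univ, true_and] at hz ⊢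
      rw [map_add, cm, hz, map_zero, add_zero]
    · have := h6 (show x ∈ _ by simp only [mem_filter, mem_univ, true_and]; rw [map_add, h1, CharTwo.add_self_eq_zero])
      exact h5.1 (by simpa using this)
  have e2 : ∀ x z, ν x z = 0 ∨ ν x z = z := fun x z => by
    by_cases z0 : z = 0
    · simp [z0]
    obtain ⟨a, a0, ha⟩ := h3 (z / y) (div_ne_zero z0 y0)
    have := ha (a⁻¹ * x) y
    rw [mul_inv_cancel_left₀ a0, div_mul_cancel₀ _ y0] at this
    rcases e1 (a⁻¹ * x) with e | e <;> simp [this, e, y0]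
  have e3 : ∀ x, x ≠ 0 → ν x 1 = 1 := fun x hx => by
    obtain ⟨z, hz⟩ := h2 x hx
    refine (e2 x 1).resolve_left fun e => ?_
    have h5 := (e2 x z).resolve_left hz
    rcases e2 x (z + 1) with e' | e' <;> rw [map_add, e, add_zero] at e'
    · exact hz e'
    · rw [h5] at e'; simp at e'
  obtain ⟨a, a0, a1⟩ := h4
  have := e3 (a + 1) fun e => a1 (by linear_combination e - two0 (F := F))
  rw [map_add, AddMonoidHom.add_apply, e3 a a0, e3 1 one_ne_zero] at this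
  simp at this

theorem T_zero (T : F →+ F →+ F) {σ τ : F ≃+* F} (hne : σ ≠ τ) (h1 : ∀ a x y, T (σ a * τ a * x) (a * y) = σ a * τ a * T x y)
    {c' : F} (hc' : c' ≠ 0) (h2 : T c' 1 = 0) (h4 : ∃ a : F, a ≠ 0 ∧ a ≠ 1) (x y : F) : T x y = 0 := by
  obtain ⟨c, hc, h3⟩ := biadd_equiv T
  have nf := fr_ne h4
  have key : ∀ {σ τ μ : F ≃+* F}, (∀ a, μ (σ a) * μ (σ a) * μ (τ a) = σ a * τ a) →
      (∀ a, μ (τ a) = σ a) ∧ ∀ a, μ (μ a) * μ (μ a) = a := fun {σ τ μ} h => by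
    rcases P1' (σ1 := (σ.trans μ).trans (fr F)) (σ2 := τ.trans μ) (τ1 := σ) (τ2 := τ) (fun a => by simpa [fr_apply] using h a)
      with ⟨e1, e2⟩ | ⟨e1, e2⟩
    · refine absurd (fun a => ?_) nf
      have h5 : ∀ b, μ b = b := fun b => by simpa using DFunLike.congr_fun e2 (τ.symm b)
      simpa [fr_apply, h5] using DFunLike.congr_fun e1 (σ.symm a)
    · have h5 : ∀ b, μ (τ b) = σ b := fun b => DFunLike.congr_fun e2 b
      refine ⟨h5, fun a => ?_⟩
      have := DFunLike.congr_fun e1 (τ.symm a)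
      simpa [fr_apply, ← h5] using this
  have mon : ∀ p, c p ≠ 0 → (p.2 = σ.trans p.1 ∧ (∀ a, p.1 (τ a) = σ a) ∧ ∀ a, p.1 (p.1 a) * p.1 (p.1 a) = a) ∨
      (p.2 = τ.trans p.1 ∧ (∀ a, p.1 (σ a) = τ a) ∧ ∀ a, p.1 (p.1 a) * p.1 (p.1 a) = a) := fun p hp => by
    have h5 : ∀ a, p.1 (σ a) * p.1 (τ a) * p.2 a = σ a * τ a := fun a => by rw [← map_mul]; exact h3 _ _ _ (h1 a) p hp
    rcases P2 (μ1 := σ.trans p.1) (μ2 := τ.trans p.1) h5 with e | e | e
    · exact absurd (RingEquiv.ext fun a => p.1.injective (DFunLike.congr_fun e a)) hne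
    · exact Or.inl ⟨e.symm, key fun a => by rw [← h5 a, ← e, RingEquiv.trans_apply]; ring⟩
    · exact Or.inr ⟨e.symm, key fun a => by rw [mul_comm (τ a), ← h5 a, ← e, RingEquiv.trans_apply]; ring⟩
  have two : ∀ {σ τ μ μ' : F ≃+* F}, (∀ a, μ (τ a) = σ a) → (∀ a, μ (μ a) * μ (μ a) = a) → (∀ a, μ' (σ a) = τ a) →
      (∀ a, μ' (μ' a) * μ' (μ' a) = a) → False := fun {σ τ μ μ'} a1 a2 a3 a4 => by
    have e1 : ∀ a, μ' (μ a) = a := fun a => by obtain ⟨a, rfl⟩ := τ.surjective a; rw [a1, a3]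
    have e2 : ∀ a : F, a * a * (a * a) = a := fun a => by
      have h5 := a4 (μ (μ a))
      rw [e1, e1] at h5
      rw [h5, a2]
    refine nf fun a => ?_
    have e3 : μ (μ a) = a := by
      by_cases a0 : a = 0
      · simp [a0]
      by_cases a1 : a = 1
      · simp [a1]
      have q1 : a * a + a + 1 = 0 := mul_left_cancel₀ (mul_ne_zero a0 (sub_ne_zero.2 a1)) (by linear_combination e2 a)
      have q2 := congrArg μ q1
      simp only [map_add, map_mul, map_one, map_zero] at q2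
      have q3 : (μ a - a) * (μ a - (a + 1)) = 0 := by linear_combination q2 + q1 - (μ a * a + μ a + 1) * two0 (F := F)
      rcases mul_eq_zero.1 q3 with e | e <;> rw [sub_eq_zero] at e
      · rw [e, e]
      · rw [e, map_add, e, map_one, add_assoc, CharTwo.add_self_eq_zero, add_zero]
    have := a2 a
    rwa [e3] at this
  have uniq : ∀ p p', c p ≠ 0 → c p' ≠ 0 → p = p' := fun p p' hp hp' => by
    rcases mon p hp with ⟨a1, a2, a3⟩ | ⟨a1, a2, a3⟩ <;> rcases mon p' hp' with ⟨b1, b2, b3⟩ | ⟨b1, b2, b3⟩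
    · have : p.1 = p'.1 := RingEquiv.ext fun a => by obtain ⟨a, rfl⟩ := τ.surjective a; rw [a2, b2]
      exact Prod.ext this (by rw [a1, b1, this])
    · exact (two a2 a3 b2 b3).elim
    · exact (two b2 b3 a2 a3).elim
    · have : p.1 = p'.1 := RingEquiv.ext fun a => by obtain ⟨a, rfl⟩ := σ.surjective a; rw [a2, b2]
      exact Prod.ext this (by rw [a1, b1, this])
  rw [hc]
  refine sum_eq_zero fun p _ => mul_eq_zero_of_left ?_ _
  by_contra hp
  rw [hc, sum_eq_single p (fun p' _ h => by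
    rw [not_not.1 (fun h5 => h (uniq p' p h5 hp)), zero_mul]) (by simp)] at h2
  simp [hp, hc'] at h2
end fld

namespace SG
variable [Finite F] [CharP F 2] [Finite G] {P Z K : Subgroup G} {π ψ : G → F} (h : SG P Z K π ψ) (hΦ : Phi P ≤ Z)
include h hΦ

omit [Finite F] [CharP F 2] in
theorem cZ {x y : G} (hx : x ∈ P) (hy : y ∈ P) : ⁅x, y⁆ ∈ Z := hΦ (commutator_le_Phi h.isP (commutator_mem_commutator hx hy))
omit [Finite F] [CharP F 2] in
theorem sZ {x : G} (hx : x ∈ P) : x * x ∈ Z := hΦ (sq_mem_Phi h.isP hx)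
omit [Finite F] [CharP F 2] in
theorem c_left {x x' y : G} (hx : x ∈ P) (hx' : x' ∈ P) (hy : y ∈ P) : π ⁅x * x', y⁆ = π ⁅x, y⁆ + π ⁅x', y⁆ := by
  rw [commutatorElement_mul_left', ← h.Zc _ (h.cZ hΦ hx' hy) x hx, mul_inv_cancel_right,
    h.co.add _ (h.cZ hΦ hx' hy) _ (h.cZ hΦ hx hy), add_comm]
omit [Finite F] [CharP F 2] in
theorem c_right {x y y' : G} (hx : x ∈ P) (hy : y ∈ P) (hy' : y' ∈ P) : π ⁅x, y * y'⁆ = π ⁅x, y⁆ + π ⁅x, y'⁆ := by
  rw [commutatorElement_mul_right', ← h.Zc _ (h.cZ hΦ hx hy') y hy, mul_inv_cancel_right,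
    h.co.add _ (h.cZ hΦ hx hy) _ (h.cZ hΦ hx hy')]
omit [Finite F] [CharP F 2] in
theorem sq_mul {x y : G} (hx : x ∈ P) (hy : y ∈ P) : π (x * y * (x * y)) = π (x * x) + π (y * y) + π ⁅y, x⁆ := by
  rw [show x * y * (x * y) = x * ⁅y, x⁆ * x * (y * y) by rw [commutatorElement_def]; group,
    ← h.Zc _ (h.cZ hΦ hy hx) x hx, mul_assoc _ x x, h.co.add _ (Z.mul_mem (h.cZ hΦ hy hx) (h.sZ hΦ hx)) _ (h.sZ hΦ hy),
    h.co.add _ (h.cZ hΦ hy hx) _ (h.sZ hΦ hx)]
  ring

theorem gauss (hne : P ≠ Z) {I : AddSubgroup F} (hI : I ≠ ⊤) : Nat.card P = Nat.card F ^ 2 ∨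
    (Nat.card P = Nat.card F ^ 3 ∧ ∀ w ∈ P, (∀ u ∈ P, π ⁅w, u⁆ ∈ I) → w ∈ Z) := by
  classical
  haveI := Fintype.ofFinite F
  haveI := Fintype.ofFinite G
  letI := ZMod.algebra F 2
  obtain ⟨l, l0, hl⟩ := (AddSubgroup.toZModSubmodule 2 I).exists_le_ker_of_lt_top (lt_top_iff_ne_top.2 fun e => hI (by
    rw [eq_top_iff]; intro x _; exact e.ge Submodule.mem_top))
  let ε : Multiplicative F →* ℤ := ⟨⟨fun a => if l a.toAdd = 0 then 1 else -1, by simp⟩, fun a b => by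
    simp only [toAdd_mul, map_add]
    generalize l a.toAdd = x; generalize l b.toAdd = y
    revert x y; decide⟩
  let e : F → ℤ := fun a => ε (Multiplicative.ofAdd a)
  have em : ∀ a b, e (a + b) = e a * e b := fun a b => ε.map_mul _ _
  have e0 : e 0 = 1 := ε.map_one
  have es : ∑ a, e a = 0 := (Equiv.sum_comp Multiplicative.ofAdd ε).trans <|
    sum_hom_units_eq_zero ε fun h1 => l0 (LinearMap.ext fun a => by
    by_contra h2
    have := DFunLike.congr_fun h1 (Multiplicative.ofAdd a)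
    simp [ε, show ¬ l a = 0 from h2] at this)
  let R : Subgroup P :=
    { carrier := {w | ∀ u : P, e (π ⁅(w : G), u⁆) = 1}
      one_mem' := fun u => by simp [h.co.one, e0]
      mul_mem' := fun {a b} ha hb u => by rw [Subgroup.coe_mul, h.c_left hΦ a.2 b.2 u.2, em, ha, hb, one_mul]
      inv_mem' := fun {a} ha u => by
        have := h.c_left hΦ a.2 (a⁻¹).2 u.2
        rw [Subgroup.coe_inv, mul_inv_cancel, commutatorElement_one_left, h.co.one] at this
        rw [← e0, this, em, ha, one_mul]; rfl }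
  let N : F → ℕ := fun a => #(univ.filter fun u : P => π (u * u) = a)
  have N0 : N 0 = Nat.card F := by
    rw [← h.cardZ, ← Nat.card_congr (subgroupOfEquivOfLe h.Zle).toEquiv, Nat.card_eq_fintype_card, Fintype.card_subtype]
    refine congrArg Finset.card (filter_congr fun u _ => ?_)
    rw [h.Z0 (h.sZ hΦ u.2)]
    exact ⟨h.inv u u.2, h.Zsq⟩
  have N1 : ∀ a, a ≠ 0 → N a = N 1 := fun a ha => by
    obtain ⟨k, hk, rfl⟩ := h.co.psurj a ha
    refine (card_bij (fun u _ => ⟨k * u * k⁻¹, conj_mem_of_le_normalizer h.nm hk u.2⟩) (fun u hu => ?_) (fun u _ v _ e => ?_)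
      fun u hu => ⟨⟨k⁻¹ * u * k, conj_mem_of_le_normalizer' h.nm hk u.2⟩, ?_, Subtype.ext (by simp [mul_assoc])⟩).symm
    · simp only [mem_filter, mem_univ, true_and] at hu ⊢
      rw [show k * u * k⁻¹ * (k * u * k⁻¹) = k * (u * u) * k⁻¹ by group, h.co.act k hk _ (h.sZ hΦ u.2), hu, mul_one]
    · exact Subtype.ext (mul_left_cancel (mul_right_cancel (congrArg Subtype.val e)))
    · simp only [mem_filter, mem_univ, true_and] at hu ⊢
      rw [show k⁻¹ * u * k * (k⁻¹ * u * k) = k⁻¹ * (u * u) * k by group, h.co.act' hk (h.sZ hΦ u.2), hu, inv_mul_cancel₀ ha]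
  have fib : ∀ f : F → ℤ, ∑ u : P, f (π (u * u)) = Nat.card F * f 0 + N 1 * (∑ a, f a - f 0) := fun f => by
    rw [← sum_fiberwise (s := univ) (g := fun u : P => π (u * u)), ← add_sum_erase _ _ (mem_univ 0), ← add_sum_erase _ f (mem_univ 0),
      add_sub_cancel_left, mul_sum, ← N0]
    congr 1
    · rw [sum_congr rfl fun u hu => by rw [(mem_filter.1 hu).2], sum_const, nsmul_eq_mul]
    · refine sum_congr rfl fun a ha => ?_
      rw [sum_congr rfl fun u hu => by rw [(mem_filter.1 hu).2], sum_const, nsmul_eq_mul, ← N1 a (mem_erase.1 ha).1]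
  have s1 := fib fun _ => 1
  have s2 := fib e
  simp only [sum_const, card_univ, nsmul_eq_mul, mul_one, ← Nat.card_eq_fintype_card] at s1
  rw [es, e0] at s2
  have s3 : (∑ u : P, e (π (u * u))) * (∑ u : P, e (π (u * u))) = Nat.card P * ∑ w : R, e (π ((w : P) * (w : P))) := by
    rw [sum_mul_sum, sum_congr rfl fun u _ => (Equiv.sum_comp (Equiv.mulLeft u) _).symm, sum_comm, mul_sum,
      ← sum_subtype (univ.filter fun w => w ∈ R) (by simp) fun w : P => (Nat.card P : ℤ) * e (π (w * w)), sum_filter]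
    refine sum_congr rfl fun w _ => ?_
    have : ∀ u : P, e (π (u * u)) * e (π (Equiv.mulLeft u w * Equiv.mulLeft u w)) = e (π ⁅(w : G), u⁆) * e (π (w * w)) := fun u => by
      rw [Equiv.coe_mulLeft, Subgroup.coe_mul, h.sq_mul hΦ u.2 w.2, ← em, ← em]; congr 1
      linear_combination π (u * u) * two0 (F := F)
    rw [sum_congr rfl fun u _ => this u, ← sum_mul]
    let φ : P →* ℤ := ⟨⟨fun u => e (π ⁅(w : G), u⁆), by simp [h.co.one, e0]⟩, fun a b => by
      simp only [Subgroup.coe_mul]; rw [h.c_right hΦ w.2 a.2 b.2, em]⟩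
    split_ifs with hw
    · rw [sum_congr rfl fun u _ => hw u]; simp
    · rw [show ∑ u : P, e (π ⁅(w : G), u⁆) = 0 from sum_hom_units_eq_zero φ fun e => hw fun u => DFunLike.congr_fun e u, zero_mul]
  let φ : R →* ℤ := ⟨⟨fun w => e (π ((w : P) * (w : P))), by simp [h.co.one, e0]⟩, fun a b => by
      simp only [Subgroup.coe_mul]; rw [h.sq_mul hΦ a.1.2 b.1.2, em, em, b.2, mul_one]⟩
  have s4 := sum_hom_units φ
  obtain ⟨m, hm⟩ := h.card_pow P le_rfl h.nm
  obtain ⟨r, hr⟩ := IsPGroup.iff_card.1 (h.isP.to_subgroup R)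
  have q2 : 1 < Nat.card F := Finite.one_lt_card
  have hlt : Nat.card F ^ 1 < Nat.card F ^ m := by
    rw [pow_one, ← hm, ← h.cardZ]
    exact lt_of_le_of_ne (card_le_of_le h.Zle) fun e => hne (eq_of_le_of_card_ge h.Zle e.ge).symm
  obtain ⟨j, rfl⟩ : ∃ j, m = j + 2 := ⟨m - 2, by have := (Nat.pow_lt_pow_iff_right q2).1 hlt; omega⟩
  rcases j with _ | j
  · exact Or.inl hm
  right
  have hq := card_aut (F := F)
  have n0 := Nat.card_pos (α := F ≃+* F)
  generalize Nat.card (F ≃+* F) = n at hq n0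
  set q : ℤ := (Nat.card F : ℤ) with hq'
  have q1 : q - 1 ≠ 0 := by omega
  have g1 := geom_sum_mul q (j + 2)
  have g2 := geom_sum_succ (x := q) (n := j + 1)
  have g3 := geom_sum_succ (x := q) (n := j)
  have g4 : 0 ≤ ∑ i ∈ range j, q ^ i := by positivity
  have g5 : j ≠ 0 → ∑ i ∈ range j, q ^ i ≠ 0 := fun hj => (sum_pos (fun _ _ => by positivity) (by simpa using hj)).ne'
  generalize ∑ i ∈ range (j + 1), q ^ i = g at *
  generalize ∑ i ∈ range j, q ^ i = g' at *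
  have hP : (Nat.card P : ℤ) = q ^ (j + 3) := by rw [hm]; push_cast; rfl
  have c1 : (N 1 : ℤ) = q * (q * g + 1) := mul_right_cancel₀ q1 (by
    rw [g2] at g1; rw [hP] at s1; linear_combination -s1 - q * g1)
  rw [s2, c1, hP, show ∑ w : R, e (π ((w : P) * (w : P))) = _ from s4] at s3
  have gp : 0 < g := by rw [g3]; positivity
  have q0 : 0 < q := by omega
  split_ifs at s3 with h1
  swap
  · have : (q ^ 2 * g) ^ 2 = 0 := by push_cast at s3; linear_combination s3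
    exact absurd this (by positivity)
  rw [← Nat.card_eq_fintype_card, hr] at s3
  have g6 : g = 1 := by
    refine Int.eq_one_of_dvd_one gp.le (IsCoprime.dvd_of_dvd_mul_left (y := 2 ^ (n * (j + 3) + r)) (IsCoprime.pow_right ?_) ?_)
    · rw [Int.isCoprime_two_right, g3, hq', hq]; push_cast
      exact ((Int.even_pow' n0.ne').2 even_two).mul_right _ |>.add_one
    · refine ⟨q ^ 4 * g, ?_⟩
      rw [pow_add, pow_mul, show (2 : ℤ) ^ n = q by rw [hq', hq]; push_cast; rfl]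
      push_cast at s3; linear_combination -s3
  obtain rfl : j = 0 := by
    by_contra hj
    exact g5 hj (mul_left_cancel₀ q0.ne' (by linear_combination g6 - g3))
  refine ⟨hm, fun w hw h2 => ?_⟩
  have h3 : Nat.card R = Nat.card F := by
    have : ((2 ^ r : ℕ) : ℤ) = q := mul_left_cancel₀ (pow_ne_zero 3 q0.ne') (by rw [g6] at s3; linear_combination -s3)
    rw [hr]; exact Int.natCast_inj.1 (this.trans hq')
  have h4 : Z.subgroupOf P = R := eq_of_le_of_card_ge (fun z hz u => by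
    rw [commutatorElement_eq_one_iff_mul_comm.2 (h.Zc z hz u u.2), h.co.one, e0]) (by
      rw [h3, Nat.card_congr (subgroupOfEquivOfLe h.Zle).toEquiv, h.cardZ])
  exact h4.ge (show (⟨w, hw⟩ : P) ∈ R from fun u => if_pos (hl (h2 u u.2)))

end SG
end SE
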