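/-
SE.Hig3: Higman's theorem: a non-abelian Suzuki 2-group has `Φ(P) ≤ Z`.
-/
import Cfsg.Agent.SE.Hig2

set_option autoImplicit false

namespace SE
open Subgroup H9 L
open scoped commutatorElement
universe u
variable {G : Type u} [Group G] {F : Type*} [Field F]

theorem Co.mk_add {A C B : Subgroup G} {π ψ : G → F} (h : Co A C B π ψ) {f : G → F}
    (h1 : ∀ x ∈ C, ∀ y ∈ C, f (x * y) = f x + f y) (h2 : ∀ x ∈ B, f x = 0) : ∃ φ : F →+ F, ∀ x ∈ C, φ (π x) = f x := by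
  obtain ⟨φ, hφ⟩ := h.mk_fun (f := f) fun x hx b hb => by rw [h1 x hx b (h.le hb), h2 b hb, add_zero]
  refine ⟨AddMonoidHom.mk' φ fun a b => ?_, hφ⟩
  obtain ⟨x, hx, rfl⟩ := h.surj a
  obtain ⟨y, hy, rfl⟩ := h.surj b
  rw [← h.add x hx y hy, hφ _ hx, hφ _ hy, hφ _ (C.mul_mem hx hy), h1 x hx y hy]

theorem Phi_le_of_sq [Finite G] {P N : Subgroup G} (h : ∀ x ∈ P, x * x ∈ N) : Phi P ≤ N :=
  Phi_le_of (p := 2) (commutator_le.2 fun a ha b hb => by
    rw [show ⁅a, b⁆ = a * a * (a⁻¹ * b * (a⁻¹ * b)) * (b * b)⁻¹ by rw [commutatorElement_def]; group]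
    exact N.mul_mem (N.mul_mem (h a ha) (h _ (P.mul_mem (P.inv_mem ha) hb))) (N.inv_mem (h b hb))) fun x hx => pow_two x ▸ h x hx

theorem conj_cm (k x y : G) : ⁅k * x * k⁻¹, k * y * k⁻¹⁆ = k * ⁅x, y⁆ * k⁻¹ := by simp only [commutatorElement_def]; group

theorem Co.conj' {A C B : Subgroup G} {π ψ : G → F} (h : Co A C B π ψ) {u c : G} (hc : c ∈ C) (h1 : ⁅u, c⁆ ∈ B) :
    π (u * c * u⁻¹) = π c := by
  rw [show u * c * u⁻¹ = ⁅u, c⁆ * c by rw [commutatorElement_def]; group, h.add _ (h.le h1) _ hc, h.of_mem h1, zero_add]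

namespace SG
variable [Finite F] [CharP F 2] [Finite G] {P Z K : Subgroup G} {π ψ : G → F} (h : SG P Z K π ψ)
include h

omit [Finite F] [CharP F 2] h in
theorem sq_comm {A : Subgroup G} (hc : ∀ a ∈ A, ∀ b ∈ A, a * b = b * a) {u : G} (nu : u ∈ normalizer (A : Set G)) {a b : G}
    (ha : a ∈ A) (hb : b ∈ A) : ⁅u, a * b⁆ = ⁅u, a⁆ * ⁅u, b⁆ := by
  rw [commutatorElement_mul_right', hc a ha ⁅u, b⁆ (show ⁅u, b⁆ ∈ A from A.mul_mem (conj_mem_of_le_normalizer le_rfl nu hb) (A.inv_mem hb)),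
    mul_inv_cancel_right]

theorem case1a {A : Subgroup G} (hn : K ≤ normalizer (A : Set G)) (hc : ∀ a ∈ A, ∀ b ∈ A, a * b = b * a)
    {π1 ψ1 : G → F} (h1 : CoK K P A π1 ψ1) (h2 : Phi P = Phi A) (h3 : Phi (Phi A) ≠ ⊥) : False := by
  have hA := h1.le
  have pA := h.isP.to_le hA
  have cP : ∀ x ∈ P, ∀ y ∈ P, ⁅x, y⁆ ∈ Phi A := fun x hx y hy => h2 ▸ commutator_le_Phi h.isP (commutator_mem_commutator hx hy)
  have nA : P ≤ normalizer (A : Set G) := le_normalizer_of_commutator_le ((commutator_le_Phi h.isP).trans (h2.le.trans (Phi_le A))) hA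
  have h4 : Phi A ≠ ⊥ := fun e => h3 (eq_bot_iff.2 ((Phi_le _).trans e.le))
  have hc' : ∀ a ∈ Phi A, ∀ b ∈ Phi A, a * b = b * a := fun a ha b hb => hc a (Phi_le A ha) b (Phi_le A hb)
  obtain ⟨π2, c2⟩ := h.co_ab (Phi A) ((Phi_le A).trans hA) (normalizer_Phi hn) hc' h4
  have c1 := h.co_sq hA hn hc h4 c2
  have k1 : ∀ u ∈ P, ∀ a ∈ Phi A, ⁅u, a⁆ ∈ Phi (Phi A) := fun u hu a ha => by
    obtain ⟨b, hb, rfl⟩ := (mem_Phi_comm pA hc).1 ha
    rw [sq_comm hc (nA hu) hb hb]; exact sq_mem_Phi (pA.to_le (Phi_le A)) (cP u hu b (hA hb))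
  obtain ⟨ν, hν⟩ := h1.mk_biadd c1.toCo (b := fun u a => π2 ⁅u, a⁆) (fun x hx x' hx' y hy => by
      have := cP x' hx' y (hA hy)
      rw [commutatorElement_mul_left', c2.add _ (conj_mem_of_le_normalizer (normalizer_Phi nA) hx this) _ (cP x hx y (hA hy)),
        c2.conj' this (k1 x hx _ this), add_comm])
    (fun x hx y hy y' hy' => by rw [sq_comm hc (nA hx) hy hy', c2.add _ (cP x hx y (hA hy)) _ (cP x hx y' (hA hy'))])
    (fun x hx y hy => by rw [commutatorElement_eq_one_iff_mul_comm.2 (hc x hx y hy), c2.one])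
    (fun x hx y hy => c2.of_mem (k1 x hx y hy))
  refine idem_false ν (fun x y => ?_) (fun x hx => ?_) (fun d hd => ?_) h.four
  · obtain ⟨u, hu, rfl⟩ := h1.surj x
    obtain ⟨a, ha, rfl⟩ := c1.surj y
    rw [hν u hu a ha]
    obtain ⟨b, hb, e⟩ := (mem_Phi_comm pA hc).1 (cP u hu a (hA ha))
    rw [← e, hν u hu b hb, c2.eq_iff (cP u hu b (hA hb)) (sq_mem_Phi pA hb)]
    have e1 : u * (b * b) * u⁻¹ * (b * b) = 1 := by
      rw [e, ← commutatorElement_mul_left', commutatorElement_eq_one_iff_mul_comm]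
      exact hc _ (Phi_le A (h2 ▸ sq_mem_Phi h.isP hu)) a ha
    have e2 : ⁅u, b⁆ * (b * b) ∈ Z := h.inv _ (hA (Phi_le A (mul_mem (cP u hu b (hA hb)) (sq_mem_Phi pA hb)))) (by
      rw [show ⁅u, b⁆ * (b * b) = u * b * u⁻¹ * b by rw [commutatorElement_def]; group, mul_assoc _ b, ← mul_assoc b,
        hc b hb _ (conj_mem_of_le_normalizer nA hu hb), ← e1]; group)
    rw [show ⁅u, b⁆ * (b * b)⁻¹ = ⁅u, b⁆ * (b * b) * (b * b * (b * b))⁻¹ by group]
    exact mul_mem (h.Z_le ((Phi_le _).trans ((Phi_le A).trans hA)) h3 (normalizer_Phi (normalizer_Phi hn)) e2)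
      (inv_mem (sq_mem_Phi (pA.to_le (Phi_le A)) (sq_mem_Phi pA hb)))
  · obtain ⟨u, hu, rfl⟩ := h1.surj x
    by_contra h5
    push Not at h5
    refine hx (h1.of_mem (h.lem3 hA hn hc (fun e => h4 (eq_bot_iff.2 ((Phi_le _).trans e.le))) hu (nA hu)
      (h2 ▸ sq_mem_Phi h.isP hu) fun a ha => ?_))
    rw [← c2.ker _ (cP u hu a (hA ha)), ← hν u hu a ha, h5]
  · obtain ⟨k, hk, rfl⟩ := c1.psurj d hd
    refine ⟨ψ1 k, h1.pne hk, fun x y => ?_⟩
    obtain ⟨u, hu, rfl⟩ := h1.surj x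
    obtain ⟨a, ha, rfl⟩ := c1.surj y
    rw [← h1.act k hk u hu, ← c1.act k hk a ha, hν _ (h1.cC hk hu) _ (c1.cC hk ha), hν u hu a ha, conj_cm,
      c2.act k hk _ (cP u hu a (hA ha))]

/-- the commutator form on `P / Φ(P)` -/
theorem beta {C : Subgroup G} (hC : ⁅P, P⁆ = C) (hc : ∀ a ∈ C, ∀ b ∈ C, a * b = b * a) {πc : G → F} (c1 : CoK K C (Phi C) πc ψ)
    {π1 ψ1 : G → F} (h1 : CoK K P (Phi P) π1 ψ1) : (∀ u ∈ P, ∀ a ∈ C, ⁅u, a⁆ ∈ Phi C) ∧
    ∃ β : F →+ F →+ F, (∀ x ∈ P, ∀ y ∈ P, β (π1 x) (π1 y) = πc ⁅x, y⁆) ∧ ¬ ∀ x y, β x y = 0 := by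
  have CP : C ≤ P := hC ▸ commutator_le_of_le le_rfl le_rfl
  have nC : P ≤ normalizer (C : Set G) := hC ▸ normalizer_commutator le_normalizer le_normalizer
  have cP : ∀ x ∈ P, ∀ y ∈ P, ⁅x, y⁆ ∈ C := fun x hx y hy => hC ▸ commutator_mem_commutator hx hy
  have h0 : ¬ C ≤ Phi C := fun e => by
    obtain ⟨x, hx, e1⟩ := c1.surj 1
    exact one_ne_zero (e1 ▸ c1.of_mem (e hx))
  have k1 : ∀ u ∈ P, ∀ a ∈ C, ⁅u, a⁆ ∈ Phi C := fun u hu a ha =>
    h.le_Phi_ab CP c1.nm hc (commutator_lt_of_p (h.isP.to_le CP) h.isP nC fun e => h0 (e.le.trans bot_le))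
      (normalizer_commutator c1.nm h.nm) (commutator_comm C P ▸ commutator_mem_commutator hu ha)
  have a1 : ∀ x ∈ P, ∀ x' ∈ P, ∀ y ∈ P, πc ⁅x * x', y⁆ = πc ⁅x, y⁆ + πc ⁅x', y⁆ := fun x hx x' hx' y hy => by
    have := cP x' hx' y hy
    rw [commutatorElement_mul_left', c1.add _ (conj_mem_of_le_normalizer nC hx this) _ (cP x hx y hy),
      c1.conj' this (k1 x hx _ this), add_comm]
  have a2 : ∀ x ∈ P, ∀ y ∈ P, ∀ y' ∈ P, πc ⁅x, y * y'⁆ = πc ⁅x, y⁆ + πc ⁅x, y'⁆ := fun x hx y hy y' hy' => by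
    have := cP x hx y' hy'
    rw [commutatorElement_mul_right', c1.add _ (cP x hx y hy) _ (conj_mem_of_le_normalizer nC hy this),
      c1.conj' this (k1 y hy _ this)]
  obtain ⟨β, hβ⟩ := h1.mk_biadd h1.toCo a1 a2 (fun x hx y hy => add_Phi (f := fun x => πc ⁅x, y⁆) (fun a ha b hb => a1 a ha b hb y hy) hx)
    fun x hx y hy => add_Phi (f := fun y => πc ⁅x, y⁆) (a2 x hx) hy
  exact ⟨k1, β, hβ, fun e => h0 (hC.ge.trans (commutator_le.2 fun x hx y hy =>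
    (c1.ker _ (cP x hx y hy)).1 (by rw [← hβ x hx y hy, e])))⟩

theorem case1b (hc : ∀ a ∈ Phi P, ∀ b ∈ Phi P, a * b = b * a) {π1 ψ1 : G → F} (h1 : CoK K P (Phi P) π1 ψ1)
    (h2 : ⁅P, P⁆ ≠ ⊥) (h3 : Phi (Phi P) ≠ ⊥) : False := by
  set A := Phi P with hAd
  have hA := h1.le
  have pA := h.isP.to_le hA
  have hn : K ≤ normalizer (A : Set G) := normalizer_Phi h.nm
  have nA : P ≤ normalizer (A : Set G) := normalizer_Phi le_normalizer
  have sP : ∀ x ∈ P, x * x ∈ A := fun x hx => sq_mem_Phi h.isP hx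
  have hc' : ∀ a ∈ Phi A, ∀ b ∈ Phi A, a * b = b * a := fun a ha b hb => hc a (Phi_le A ha) b (Phi_le A hb)
  obtain ⟨π2, c2⟩ := h.co_ab (Phi A) ((Phi_le A).trans hA) (normalizer_Phi hn) hc' h3
  have c1 := h.co_sq hA hn hc h3 c2
  set πA : G → F := fun a => π2 (a * a) with hπA
  have CA : ⁅P, P⁆ ≤ A := commutator_le_Phi h.isP
  have cP : ∀ x ∈ P, ∀ y ∈ P, ⁅x, y⁆ ∈ A := fun x hx y hy => CA (commutator_mem_commutator hx hy)
  have kA : ∀ u ∈ P, ∀ a ∈ A, ⁅u, a⁆ ∈ Phi A := fun u hu a ha =>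
    h.le_Phi_ab hA hn hc (commutator_lt_of_p pA h.isP nA fun e => h2 (eq_bot_iff.2 (CA.trans e.le)))
      (normalizer_commutator hn h.nm) (commutator_comm A P ▸ commutator_mem_commutator hu ha)
  have sq : ∀ x ∈ P, ∀ y ∈ P, πA (x * y * (x * y)) = πA (x * x) + πA (y * y) + πA ⁅y, x⁆ := fun x hx y hy => by
    have e1 := conj_mem_of_le_normalizer nA hx (cP y hy x hx)
    rw [show x * y * (x * y) = x * ⁅y, x⁆ * x⁻¹ * (x * x) * (y * y) by rw [commutatorElement_def]; group,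
      c1.add _ (A.mul_mem e1 (sP x hx)) _ (sP y hy), c1.add _ e1 _ (sP x hx), c1.conj' (cP y hy x hx) (kA x hx _ (cP y hy x hx))]
    ring
  have act : ∀ k ∈ K, ∀ x ∈ P, πA (k * x * k⁻¹ * (k * x * k⁻¹)) = ψ k * πA (x * x) := fun k hk x hx => by
    rw [← c1.act k hk _ (sP x hx)]; congr 1; group
  by_cases h4 : ⁅P, P⁆ = A
  · obtain ⟨-, β, hβ, β0⟩ := h.beta h4 hc c1 h1
    obtain ⟨χ, hχ⟩ := h1.mk_fun (f := fun x => πA (x * x)) fun x hx b hb => by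
      rw [sq x hx b (hA hb), c1.of_mem (sq_mem_Phi pA hb), ← commutatorElement_inv, c1.inv (cP x hx b (hA hb)),
        c1.of_mem (kA x hx b hb), neg_zero, add_zero, add_zero]
    have pol : ∀ x y, χ (x + y) = χ x + χ y + β y x := fun x y => by
      obtain ⟨u, hu, rfl⟩ := h1.surj x
      obtain ⟨v, hv, rfl⟩ := h1.surj y
      rw [← h1.add u hu v hv, hχ _ (P.mul_mem hu hv), hχ _ hu, hχ _ hv, hβ v hv u hu, sq u hu v hv]
    obtain ⟨ρ, ρ0, -, hρ⟩ := h1.exists_rho h.co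
    obtain ⟨u1, hu1, e1⟩ := h1.surj 1
    have e2 : ∀ x, χ x = ρ x * χ 1 := fun x => by
      by_cases x0 : x = 0
      · rw [x0, ρ0, zero_mul]; have := hχ 1 P.one_mem; rwa [h1.one, mul_one, c1.one] at this
      obtain ⟨k, hk, rfl⟩ := h1.psurj x x0
      rw [hρ k hk, ← e1, hχ _ hu1, ← act k hk u1 hu1, ← hχ _ (h1.cC hk hu1), h1.act k hk u1 hu1, e1, mul_one]
    have χ1 : χ 1 ≠ 0 := fun e => β0 fun x y => by simpa [e2 (y + x), e2 x, e2 y, e] using (pol y x).symm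
    obtain ⟨σ, τ, hστ⟩ := quad_mul ρ fun x y z => mul_right_cancel₀ χ1 (by
      simp only [add_mul, ← e2, pol, map_add, AddMonoidHom.add_apply, zero_mul]
      linear_combination (2 * (χ x + χ y + χ z) + β y x + β z x + β z y) * two0 (F := F))
    have hne : σ ≠ τ := fun e => β0 fun x y => by
      have := pol y x
      rw [e2 (y + x), e2 x, e2 y, hστ, hστ, hστ, ← e, map_add] at this
      linear_combination -this + σ x * σ y * χ 1 * two0 (F := F)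
    have k1 : ∀ u ∈ P, ∀ a ∈ Phi A, ⁅u, a⁆ ∈ Phi (Phi A) := fun u hu a ha => by
      obtain ⟨b, hb, rfl⟩ := (mem_Phi_comm pA hc).1 ha
      rw [sq_comm hc (nA hu) hb hb]; exact sq_mem_Phi (pA.to_le (Phi_le A)) (kA u hu b hb)
    obtain ⟨T, hT⟩ := c1.mk_biadd h1.toCo (b := fun a u => π2 ⁅u, a⁆)
      (fun y hy y' hy' x hx => by rw [sq_comm hc (nA hx) hy hy', c2.add _ (kA x hx y hy) _ (kA x hx y' hy')])
      (fun y hy x hx x' hx' => by
        have := kA x' hx' y hy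
        rw [commutatorElement_mul_left', c2.add _ (conj_mem_of_le_normalizer (normalizer_Phi nA) hx this) _ (kA x hx y hy),
          c2.conj' this (k1 x hx _ this), add_comm])
      (fun y hy x hx => c2.of_mem (k1 x hx y hy))
      (fun y hy x hx => by rw [commutatorElement_eq_one_iff_mul_comm.2 (hc x hx y hy), c2.one])
    have T0 := T_zero T hne (fun a x y => by
      rw [← hστ]
      by_cases a0 : a = 0
      · simp [a0, ρ0]
      obtain ⟨k, hk, rfl⟩ := h1.psurj a a0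
      obtain ⟨u, hu, rfl⟩ := h1.surj y
      obtain ⟨b, hb, rfl⟩ := c1.surj x
      rw [hρ k hk, ← h1.act k hk u hu, ← c1.act k hk b hb, hT _ (c1.cC hk hb) _ (h1.cC hk hu), hT b hb u hu, conj_cm,
        c2.act k hk _ (kA u hu b hb)]) χ1 (by
      rw [← e1, hχ _ hu1, hT _ (sP u1 hu1) _ hu1, commutatorElement_eq_one_iff_mul_comm.2 (mul_assoc _ _ _).symm, c2.one]) h.four
    refine β0 fun x y => ?_
    obtain ⟨u, hu, rfl⟩ := h1.surj x
    obtain ⟨v, hv, rfl⟩ := h1.surj y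
    have t1 := T0 (πA (u * u)) (π1 v)
    have t2 := T0 (πA ⁅v, u⁆) (π1 u)
    rw [hT _ (sP u hu) _ hv, commutatorElement_mul_right', show ⁅v, u⁆ * (u * ⁅v, u⁆ * u⁻¹) = ⁅v, u⁆ * ⁅u, ⁅v, u⁆⁆ * ⁅v, u⁆ by
      rw [commutatorElement_def u]; group, hc _ (cP v hv u hu) _ (Phi_le A (kA u hu _ (cP v hv u hu))), mul_assoc,
      c2.add _ (kA u hu _ (cP v hv u hu)) _ (sq_mem_Phi pA (cP v hv u hu)), ← hT _ (cP v hv u hu) _ hu, t2, zero_add] at t1
    rw [hβ u hu v hv, ← commutatorElement_inv, c1.inv (cP v hv u hu), neg_eq_zero]; exact t1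
  · have nC : K ≤ normalizer ((⁅P, P⁆ : Subgroup G) : Set G) := normalizer_commutator h.nm h.nm
    have h5 := h.le_Phi_ab hA hn hc (lt_of_le_of_ne CA h4) nC
    have add : ∀ x ∈ P, ∀ y ∈ P, πA (x * y * (x * y)) = πA (x * x) + πA (y * y) := fun x hx y hy => by
      rw [sq x hx y hy, c1.of_mem (h5 (commutator_mem_commutator hy hx)), add_zero]
    obtain ⟨φ, hφ⟩ := h1.mk_add (f := fun x => πA (x * x)) add fun x hx => c1.of_mem (sq_mem_Phi pA hx)
    obtain ⟨u, hu, u0⟩ : ∃ u ∈ P, πA (u * u) ≠ 0 := by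
      by_contra h6; push Not at h6
      exact (h.Phi_lt hA fun e => h2 (eq_bot_iff.2 (CA.trans e.le))).not_ge (Phi_le_of_sq fun x hx => (c1.ker _ (sP x hx)).1 (h6 x hx))
    have sur : ∀ a, ∃ x ∈ P, πA (x * x) = a := fun a => by
      by_cases a0 : a = 0
      · exact ⟨1, P.one_mem, by rw [a0, mul_one, c1.one]⟩
      obtain ⟨k, hk, e⟩ := c1.psurj _ (div_ne_zero a0 u0)
      exact ⟨_, h1.cC hk hu, by rw [act k hk u hu, e, div_mul_cancel₀ _ u0]⟩
    have inj : Function.Injective φ := Finite.injective_iff_surjective.2 fun a => by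
      obtain ⟨x, hx, e⟩ := sur a; exact ⟨_, (hφ x hx).trans e⟩
    have h6 : CoK K P A (fun x => πA (x * x)) ψ := ⟨⟨hA, h.nm, add, fun x hx => by
      rw [← h1.ker x hx, ← hφ x hx, map_eq_zero_iff φ inj], sur, act⟩, c1.psurj, c1.pinj⟩
    have hcC : ∀ a ∈ ⁅P, P⁆, ∀ b ∈ ⁅P, P⁆, a * b = b * a := fun a ha b hb => hc a (CA ha) b (CA hb)
    obtain ⟨πc, cc⟩ := h.co_ab _ (CA.trans hA) nC hcC h2
    obtain ⟨-, β, hβ, β0⟩ := h.beta rfl hcC cc h6
    refine β0 (alt_zero β (fun a x y => ?_) fun x => ?_)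
    · by_cases a0 : a = 0
      · simp [a0]
      obtain ⟨k, hk, rfl⟩ := h6.psurj a a0
      obtain ⟨u, hu, rfl⟩ := sur x
      obtain ⟨v, hv, rfl⟩ := sur y
      rw [← act k hk u hu, ← act k hk v hv, hβ _ (h1.cC hk hu) _ (h1.cC hk hv), hβ u hu v hv, conj_cm,
        cc.act k hk _ (commutator_mem_commutator hu hv)]
    · obtain ⟨u, hu, rfl⟩ := sur x
      rw [hβ u hu u hu, commutatorElement_self, cc.one]

theorem semi (hΦ : Phi P ≤ Z) (h3 : Nat.card P = Nat.card F ^ 3) {A : Subgroup G} {π1 ψ1 : G → F} (h1 : CoK K P A π1 ψ1)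
    (hc : ∀ a ∈ A, ∀ b ∈ A, a * b = b * a) {b y : G} (hb : b ∈ A) (b0 : b ∉ Z) (hy : y ∈ P) (e : b * y = y * b) : y ∈ A := by
  have hb' := h1.le hb
  obtain ⟨φ, hφ⟩ := h1.mk_add (f := fun u => π ⁅b, u⁆) (fun x hx y hy => h.c_right hΦ hb' hx hy) fun x hx => by
    rw [commutatorElement_eq_one_iff_mul_comm.2 (hc b hb x hx), h.co.one]
  have q2 : 1 < Nat.card F := Finite.one_lt_card
  have sur : φ.range = ⊤ := by
    by_contra h4
    rcases h.gauss hΦ (fun e => b0 (e ▸ hb')) h4 with h5 | h5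
    · exact absurd (Nat.pow_right_injective q2 (h3.symm.trans h5)) (by decide)
    · exact b0 (h5.2 b hb' fun u hu => ⟨_, hφ u hu⟩)
  rw [← h1.ker y hy, ← map_eq_zero_iff φ (Finite.injective_iff_surjective.2 (AddMonoidHom.range_eq_top.1 sur)), hφ y hy,
    commutatorElement_eq_one_iff_mul_comm.2 e, h.co.one]

theorem card_le_of_lt {A B : Subgroup G} (hB : B ≤ P) (nA : K ≤ normalizer (A : Set G)) (nB : K ≤ normalizer (B : Set G))
    (h1 : A < B) : Nat.card A * Nat.card F ≤ Nat.card B := by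
  obtain ⟨a, ha⟩ := h.card_pow A (h1.le.trans hB) nA
  obtain ⟨b, hb⟩ := h.card_pow B hB nB
  have q2 : 1 < Nat.card F := Finite.one_lt_card
  have : Nat.card A < Nat.card B := lt_of_le_of_ne (card_le_of_le h1.le) fun e => h1.ne (eq_of_le_of_card_ge h1.le e.ge)
  rw [ha, hb, Nat.pow_lt_pow_iff_right q2] at this
  rw [ha, hb, ← pow_succ]; exact Nat.pow_le_pow_right q2.le this

theorem case2 (hZ : ¬ Phi P ≤ Z) (hM : ∀ M, Phi P ≤ M → M < P → K ≤ normalizer (M : Set G) →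
    (∀ N, M ≤ N → N ≤ P → K ≤ normalizer (N : Set G) → N = M ∨ N = P) → Phi M ≤ Z ∧ ¬ ∀ a ∈ M, ∀ b ∈ M, a * b = b * a) :
    False := by
  have nΦ : K ≤ normalizer (Phi P : Set G) := normalizer_Phi h.nm
  have h0 : Phi P ≠ ⊥ := fun e => hZ (e.le.trans bot_le)
  have ZΦ := h.Z_le (Phi_le P) h0 nΦ
  have q2 : 1 < Nat.card F := Finite.one_lt_card
  let A : Subgroup G :=
    { carrier := {x | x ∈ Phi P ∧ ∀ g ∈ P, ⁅x, g⁆ ∈ Z}
      one_mem' := ⟨one_mem _, fun g _ => by simp⟩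
      mul_mem' := fun {a b} ha hb => ⟨mul_mem ha.1 hb.1, fun g hg => by
        rw [commutatorElement_mul_left']
        exact mul_mem (conj_mem_of_le_normalizer h.nZ (Phi_le P ha.1) (hb.2 g hg)) (ha.2 g hg)⟩
      inv_mem' := fun {a} ha => ⟨inv_mem ha.1, fun g hg => by
        rw [show ⁅a⁻¹, g⁆ = a⁻¹ * ⁅a, g⁆⁻¹ * a by simp only [commutatorElement_def]; group]
        exact conj_mem_of_le_normalizer' h.nZ (Phi_le P ha.1) (inv_mem (ha.2 g hg))⟩ }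
  have AΦ : A ≤ Phi P := fun x hx => hx.1
  have AP := AΦ.trans (Phi_le P)
  have nA : K ≤ normalizer (A : Set G) := le_normalizer_of_cj_le fun k hk => by
    rintro _ ⟨x, hx, rfl⟩
    refine ⟨conj_mem_of_le_normalizer nΦ hk hx.1, fun g hg => ?_⟩
    have := conj_mem_of_le_normalizer h.co.nm hk (hx.2 _ (conj_mem_of_le_normalizer' h.nm hk hg))
    rw [← conj_cm] at this
    simpa [mul_assoc] using this
  have ZA : Z < A := by
    obtain ⟨x, h1, h2, -, h3⟩ := exists_central_mod_pow h.isP (lt_of_le_of_ne ZΦ fun e => hZ e.ge) (Phi_le P) h.nZ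
      (normalizer_Phi le_normalizer)
    exact lt_of_le_of_ne (fun z hz => ⟨ZΦ hz, fun g hg => by
      rw [commutatorElement_eq_one_iff_mul_comm.2 (h.Zc z hz g hg)]; exact one_mem _⟩) fun e => h2 (e.ge ⟨h1, h3⟩)
  have cA : ∀ a ∈ A, ∀ b ∈ Phi P, a * b = b * a := fun a ha b hb => by
    rw [← commutatorElement_eq_one_iff_mul_comm, ← h.Z0 (ha.2 b (Phi_le P hb))]
    refine add_Phi (f := fun u => π ⁅a, u⁆) (fun x hx y hy => ?_) hb
    rw [commutatorElement_mul_right', ← h.Zc _ (ha.2 y hy) x hx, mul_inv_cancel_right, h.co.add _ (ha.2 x hx) _ (ha.2 y hy)]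
  have c1 := h.card_le_of_lt AP h.co.nm nA ZA
  rw [h.cardZ] at c1
  have key : ∀ M, Phi P ≤ M → M < P → K ≤ normalizer (M : Set G) →
      (∀ N, M ≤ N → N ≤ P → K ≤ normalizer (N : Set G) → N = M ∨ N = P) →
      SG M Z K π ψ ∧ Phi M ≤ Z ∧ Nat.card M = Nat.card F ^ 3 ∧ A = Phi P ∧ ∃ π1 ψ1 : G → F, CoK K M A π1 ψ1 := fun M m1 m2 m3 m4 => by
    obtain ⟨m5, m6⟩ := hM M m1 m2 m3 m4
    have hS := h.sub m2.le (fun e => h0 (eq_bot_iff.2 (m1.trans e.le))) m3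
    have AM := AΦ.trans m1
    rcases hS.gauss m5 (fun e => hZ (m1.trans e.le)) (I := ⊥) bot_ne_top with h1 | h1
    · have : A = M := eq_of_le_of_card_ge AM (by rw [h1, pow_two]; exact c1)
      exact absurd (fun a ha b hb => cA a (this.ge ha) b (AΦ (this.ge hb))) m6
    have h2 : Phi P < M := lt_of_le_of_ne m1 fun e => ZA.not_ge fun a ha => h1.2 a (AM ha) fun u hu => by
      rw [commutatorElement_eq_one_iff_mul_comm.2 (cA a ha u (e.ge hu)), h.co.one]; exact AddSubgroup.zero_mem _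
    have c2 := h.card_le_of_lt m2.le nΦ m3 h2
    rw [h1.1, pow_succ] at c2
    have c3 := Nat.le_of_mul_le_mul_right c2 (by omega)
    have h3 : A = Phi P := eq_of_le_of_card_ge AΦ (c3.trans (by rw [pow_two]; exact c1))
    refine ⟨hS, m5, h1.1, h3, hS.coK le_rfl (h3 ▸ h2) m3 nA (m5.trans ZA.le) fun N n1 n2 n3 => ?_⟩
    by_contra h4
    push Not at h4
    have c4 := h.card_le_of_lt (n2.trans m2.le) nA n3 (lt_of_le_of_ne n1 h4.1.symm)
    have c5 := h.card_le_of_lt m2.le n3 m3 (lt_of_le_of_ne n2 h4.2)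
    rw [h1.1] at c5
    nlinarith [Nat.mul_le_mul_right (Nat.card F) c1, Nat.mul_le_mul_right (Nat.card F) c4,
      Nat.mul_lt_mul_of_pos_left q2 (show 0 < Nat.card F * Nat.card F * Nat.card F by positivity)]
  obtain ⟨M1, m1, m2, m3, m4⟩ := exists_maxinv (h.Phi_lt le_rfl (fun e => h0 (eq_bot_iff.2 ((Phi_le P).trans e.le)))) nΦ
  obtain ⟨s1, p1, d1, hA, π1, ψ1, o1⟩ := key M1 m1 m2 m3 m4
  obtain ⟨U, u1, u2, u3, u4⟩ : ∃ U, Phi P ≤ U ∧ U < P ∧ K ≤ normalizer (U : Set G) ∧ P ≤ M1 ⊔ U := by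
    have hX1 : K ≤ K ⊔ P := le_sup_left
    have hX2 : P ≤ K ⊔ P := le_sup_right
    obtain ⟨Γ, _, _, f, hf, hk, -⟩ := exists_quot (X := K ⊔ P) (N := Phi P) ((Phi_le P).trans hX2)
      (sup_le nΦ (normalizer_Phi le_normalizer))
    obtain ⟨U, hU, hU'⟩ := FT.maschke (p := 2) (V := im f P) (W := im f M1) (A := im f K)
      ⟨comm_of_le_centralizer ((im_le_centralizer_iff f hX2 hX2).2 (hk ▸ commutator_le_Phi h.isP)), fun x hx => by
        obtain ⟨y, hy, rfl⟩ := (mem_im f).1 hx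
        rw [← map_pow, ← coe_mem_kr, hk]; exact pow_mem_Phi h.isP hy⟩ (im_mono f m2.le) (im_le_normalizer f h.nm)
      (im_le_normalizer f m3) (cop_im f h.oddK)
    have e1 : pre f U ≤ P := (pre_mono f (le_sup_right.trans hU.sup.le)).trans (by
      rw [pre_im f hX2, hk]; exact sup_le le_rfl (Phi_le P))
    refine ⟨pre f U, hk ▸ kr_le_pre f U, lt_of_le_of_ne e1 fun e => ?_, le_normalizer_pre f hX1 hU', ?_⟩
    · have : im f M1 = ⊥ := by rw [← hU.inf, ← im_pre_surj f hf U, e, inf_eq_left.2 (im_mono f m2.le)]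
      rw [im_eq_bot_iff f (m2.le.trans hX2), hk, ← hA] at this
      obtain ⟨x, hx, e1⟩ := o1.surj 1
      exact one_ne_zero (e1 ▸ o1.of_mem (this hx))
    · refine ((im_le_im_iff f hX2 (sup_le (m2.le.trans hX2) (pre_le f U))).1 ?_).trans (sup_le le_rfl (hk ▸ m1.trans le_sup_left))
      rw [im_sup f (m2.le.trans hX2) (pre_le f U), im_pre_surj f hf, hU.sup]
  obtain ⟨M2, n1, n2, n3, n4⟩ := exists_maxinv u2 u3
  obtain ⟨s2, p2, d2, -, π2, ψ2, o2⟩ := key M2 (u1.trans n1) n2 n3 n4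
  have cP : ∀ x ∈ P, ∀ y ∈ P, ⁅x, y⁆ ∈ A := fun x hx y hy => hA ▸ commutator_le_Phi h.isP (commutator_mem_commutator hx hy)
  have cA' : ∀ a ∈ A, ∀ b ∈ A, a * b = b * a := fun a ha b hb => cA a ha b (AΦ hb)
  obtain ⟨x, hx, y0, hy0, b0⟩ : ∃ x ∈ M1, ∃ y ∈ M2, ⁅x, y⁆ ∉ Z := by
    by_contra h1; push Not at h1
    refine hZ (Phi_le_of_sq fun g hg => ?_)
    obtain ⟨x, hx, y, hy, rfl⟩ := (mem_sup_of_le_normalizer (H := M1) (N := M2) (m2.le.trans
      (le_normalizer_of_commutator_le ((commutator_le_Phi h.isP).trans (u1.trans n1)) n2.le))).1 (sup_le_sup_left n1 _ (u4 hg))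
    rw [show x * y * (x * y) = x * x * ⁅x⁻¹, y⁆ * (y * y) by rw [commutatorElement_def]; group]
    exact mul_mem (mul_mem (s1.sZ p1 hx) (h1 _ (inv_mem hx) y hy)) (s2.sZ p2 hy)
  have xP := m2.le hx
  have i1 : ∀ y ∈ M2, y * ⁅x, y⁆ * y⁻¹ = ⁅x, y⁆⁻¹ := fun y hy => by
    rw [eq_inv_iff_mul_eq_one, ← mul_eq_one_comm, ← commutatorElement_mul_right', commutatorElement_eq_one_iff_mul_comm]
    exact (h.Zc _ (s2.sZ p2 hy) x xP).symm
  have i2 : ∀ y ∈ P, x * ⁅x, y⁆ * x⁻¹ = ⁅x, y⁆⁻¹ := fun y hy => by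
    rw [eq_inv_iff_mul_eq_one, ← commutatorElement_mul_left', commutatorElement_eq_one_iff_mul_comm]
    exact h.Zc _ (s1.sZ p1 hx) y hy
  obtain ⟨π3, ψ3, o3⟩ := h.coK AP ZA nA h.co.nm (Phi_le_of_sq fun a ha => s1.sZ p1 (o1.le ha)) fun N n1 n2 n3 => by
    by_contra h4
    push Not at h4
    have c4 := h.card_le_of_lt (n2.trans AP) h.co.nm n3 (lt_of_le_of_ne n1 h4.1.symm)
    have c5 := h.card_le_of_lt AP n3 nA (lt_of_le_of_ne n2 h4.2)
    have c6 := o1.card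
    rw [d1] at c6; rw [h.cardZ] at c4
    nlinarith [Nat.mul_le_mul_right (Nat.card F) c5, Nat.mul_le_mul_right (Nat.card F * Nat.card F) c4,
      Nat.mul_lt_mul_of_pos_left q2 (show 0 < Nat.card F * Nat.card F * Nat.card F by positivity)]
  obtain ⟨φ, hφ⟩ := o2.mk_add (f := fun y => π3 ⁅x, y⁆) (fun y hy y' hy' => by
    have := cP x xP y' (n2.le hy')
    rw [commutatorElement_mul_right', o3.add _ (cP x xP y (n2.le hy)) _ (conj_mem_of_le_normalizer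
      (hA ▸ normalizer_Phi le_normalizer) (n2.le hy) this), o3.conj' this (by
        rw [← commutatorElement_inv]; exact inv_mem (this.2 y (n2.le hy)))]) fun a ha => o3.of_mem (by
        rw [← commutatorElement_inv]; exact inv_mem (ha.2 x xP))
  have inj : Function.Injective φ := (injective_iff_map_eq_zero φ).2 fun a ha => by
    obtain ⟨y, hy, rfl⟩ := o2.surj a
    rw [hφ y hy, o3.ker _ (cP x xP y (n2.le hy))] at ha
    refine o2.of_mem (s2.semi p2 d2 o2 cA' (cP x xP y0 (n2.le hy0)) b0 hy ?_)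
    have e1 := i1 _ (M2.mul_mem hy0 hy)
    rw [commutatorElement_mul_right', ← h.Zc _ ha y0 (n2.le hy0), mul_inv_cancel_right, ← mul_assoc, mul_assoc _ ⁅x, y⁆,
      h.Zc _ ha _ (n2.le (inv_mem (M2.mul_mem hy0 hy))), ← mul_assoc, mul_inv_rev ⁅x, y0⁆, inv_eq_self (h.Zsq ha),
      h.Zc _ ha _ (inv_mem (AP (cP x xP y0 (n2.le hy0)))), mul_left_inj, ← i1 y0 hy0] at e1
    rw [show y * ⁅x, y0⁆ = y0⁻¹ * (y0 * y * ⁅x, y0⁆ * (y0 * y)⁻¹) * y0 * y by group, e1]; group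
  have i3 : ∀ a ∈ A, x * a * x⁻¹ = a⁻¹ := fun a ha => by
    obtain ⟨c, hc⟩ := Finite.injective_iff_surjective.1 inj (π3 a)
    obtain ⟨y, hy, rfl⟩ := o2.surj c
    rw [hφ y hy, eq_comm, o3.eq_iff ha (cP x xP y (n2.le hy))] at hc
    have e : a = a * ⁅x, y⁆⁻¹ * ⁅x, y⁆ := by group
    generalize a * ⁅x, y⁆⁻¹ = z at hc e
    rw [e, ← mul_assoc, ← h.Zc z hc x xP, mul_assoc z, mul_assoc z, i2 y (n2.le hy), mul_inv_rev, inv_eq_self (h.Zsq hc),
      h.Zc z hc _ (inv_mem (AP (cP x xP y (n2.le hy))))]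
  obtain ⟨c, c0, c1⟩ := h.four
  obtain ⟨k, hk, rfl⟩ := h.co.psurj c c0
  have hm := M1.mul_mem (o1.cC hk hx) (M1.inv_mem hx)
  refine (h.fpf' AP nA hk xP ((hA ▸ normalizer_Phi le_normalizer : P ≤ normalizer (A : Set G)) xP)
    (s1.semi p1 d1 o1 cA' (cP x xP y0 (n2.le hy0)) b0 hm ?_)).elim (fun e => c1 (by rw [e, h.co.pone])) fun e => b0 (e.2 y0 (n2.le hy0))
  have hb := cP x xP y0 (n2.le hy0)
  generalize ⁅x, y0⁆ = b at hb
  have e1 := i3 _ (conj_mem_of_le_normalizer' nA hk (inv_mem hb))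
  have e2 := i3 _ (inv_mem hb)
  have e3 : x⁻¹ * b * x = b⁻¹ := by
    rw [inv_inv] at e2
    calc x⁻¹ * b * x = x⁻¹ * (x * b⁻¹ * x⁻¹) * x := by rw [e2]
      _ = b⁻¹ := by group
  rw [show k * x * k⁻¹ * x⁻¹ * b = k * (x * (k⁻¹ * (x⁻¹ * b * x) * k) * x⁻¹) * k⁻¹ * (k * x * k⁻¹ * x⁻¹) by group, e3, e1]
  group

theorem higman (hn : ¬ ∀ a ∈ P, ∀ b ∈ P, a * b = b * a) : Phi P ≤ Z := by
  induction P using WellFoundedLT.induction with
  | ind P ih =>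
    by_contra hZ
    refine h.case2 hZ fun M m1 m2 m3 m4 => ?_
    have h0 : Phi P ≠ ⊥ := fun e => hZ (e.le.trans bot_le)
    have M0 : M ≠ ⊥ := fun e => h0 (eq_bot_iff.2 (m1.trans e.le))
    have hc : ¬ ∀ a ∈ M, ∀ b ∈ M, a * b = b * a := fun hc => by
      obtain ⟨π1, ψ1, h1⟩ := h.coK le_rfl m2 h.nm m3 m1 m4
      have el : Phi (Phi P) ≠ ⊥ := fun e => hZ fun x hx =>
        h.inv x (Phi_le P hx) (mem_bot.1 (e.le (sq_mem_Phi (h.isP.to_le (Phi_le P)) hx)))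
      by_cases e : Phi P = M
      · subst e
        exact h.case1b hc h1 (fun e => hn fun a ha b hb => commutatorElement_eq_one_iff_mul_comm.1
          (mem_bot.1 (e.le (commutator_mem_commutator ha hb)))) el
      · have e1 : Phi P = Phi M := le_antisymm (h.le_Phi_ab m2.le m3 hc (lt_of_le_of_ne m1 e) (normalizer_Phi h.nm))
          (Phi_le_of_sq fun x hx => sq_mem_Phi h.isP (m2.le hx))
        exact h.case1a m3 hc h1 e1 (e1 ▸ el)
    exact ⟨ih M m2 (h.sub m2.le M0 m3) hc, hc⟩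

end SG
end SE
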