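/-
SE.Sg: existence of the Suzuki 2-group set-up, its centre, and coordinates for the groups of type A.
-/
import Cfsg.Agent.SE.Hig3

set_option autoImplicit false

namespace SE
open Subgroup H9 L
open scoped commutatorElement
universe u
variable {G : Type u} [Group G] {F : Type*} [Field F]

theorem two_lt_card {α : Type*} [Finite α] {a b c : α} (h1 : a ≠ b) (h2 : a ≠ c) (h3 : b ≠ c) : 2 < Nat.card α := by
  haveI := Fintype.ofFinite α
  rw [Nat.card_eq_fintype_card]; exact Fintype.two_lt_card_iff.2 ⟨a, b, c, h1, h2, h3⟩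

theorem exists_SG [Finite G] {P K : Subgroup G} (hP : IsPGroup 2 P) (nm : K ≤ normalizer (P : Set G))
    (hK : ∀ a ∈ K, ∀ b ∈ K, a * b = b * a) (tr : ∀ x ∈ P, ∀ y ∈ P, Inv x → Inv y → ∃ k ∈ K, k * x * k⁻¹ = y)
    (fr : ∀ k ∈ K, ∀ x ∈ P, Inv x → k * x = x * k → k = 1) (two : Two P) :
    ∃ (n : ℕ) (π ψ : G → GaloisField 2 n), 2 ≤ n ∧ Nat.card (GaloisField 2 n) = 2 ^ n ∧ SG P (Q0 P) K π ψ := by
  obtain ⟨x, hx, y, hy, x1, y1, xy⟩ := two
  obtain ⟨z, hz, z1⟩ : ∃ z ∈ Q0 P, Inv z := by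
    haveI : Nontrivial P := ⟨⟨⟨x, hx⟩, ⟨y, hy⟩, fun e => xy (congrArg Subtype.val e)⟩⟩
    obtain ⟨⟨c, hc⟩, c1⟩ := (nontrivial_iff_exists_ne (1 : center P)).1 hP.center_nontrivial
    obtain ⟨s, hs, s1⟩ := exists_inv_of_even (X := (center P).map P.subtype) (by
      rw [card_map_of_injective P.subtype_injective]
      obtain ⟨m, hm⟩ := IsPGroup.iff_card.1 (hP.to_subgroup (center P))
      haveI := hP.center_nontrivial
      have := Finite.one_lt_card (α := center P)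
      rw [hm] at this ⊢
      exact dvd_pow_self 2 (by rintro rfl; simp at this))
    obtain ⟨w, hw, rfl⟩ := hs
    exact ⟨w, ⟨w.2, s1.2, fun u hu => congrArg Subtype.val ((mem_center_iff.1 hw ⟨u, hu⟩).symm)⟩, s1⟩
  have nZ : K ≤ normalizer (Q0 P : Set G) := normalizer_Q0 nm
  have inv : ∀ a ∈ P, a * a = 1 → a ∈ Q0 P := fun a ha a2 => by
    by_cases a1 : a = 1
    · exact a1 ▸ one_mem _
    obtain ⟨k, hk, rfl⟩ := tr z hz.1 a ha z1 ⟨a1, a2⟩
    exact conj_mem_of_le_normalizer nZ hk hz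
  have hc : Nat.card K + 1 = Nat.card (Q0 P) := by
    rw [← Finite.card_option]
    refine Nat.card_congr (Equiv.ofBijective (fun o => match o with
      | none => 1
      | some k => ⟨k * z * (k : G)⁻¹, conj_mem_of_le_normalizer nZ k.2 hz⟩) ⟨?_, fun ⟨a, ha⟩ => ?_⟩)
    · rintro (_ | k) (_ | l) e
      · rfl
      · exact absurd (congrArg Subtype.val e).symm (z1.conj l).1
      · exact absurd (congrArg Subtype.val e) (z1.conj k).1
      · have e1 : (k : G) * z * (k : G)⁻¹ = l * z * (l : G)⁻¹ := congrArg Subtype.val e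
        have := fr _ (K.mul_mem (K.inv_mem l.2) k.2) z hz.1 z1 (by
          rw [show (l : G)⁻¹ * k * z = (l : G)⁻¹ * (k * z * (k : G)⁻¹) * k by group, e1]; group)
        rw [Subtype.ext (eq_of_inv_mul_eq_one this).symm]
    · by_cases a1 : a = 1
      · exact ⟨none, Subtype.ext a1.symm⟩
      obtain ⟨k, hk, e⟩ := tr z hz.1 a ha.1 z1 ⟨a1, ha.2.1⟩
      exact ⟨some ⟨k, hk⟩, Subtype.ext e⟩
  obtain ⟨n, hn⟩ := IsPGroup.iff_card.1 (hP.to_le (Q0_le P))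
  have n2 : 2 ≤ n := by
    by_contra h2
    have h3 : Nat.card (Q0 P) ≤ 2 := hn ▸ (Nat.pow_le_pow_right two_pos (by omega : n ≤ 1))
    have h4 : 2 < Nat.card (Q0 P) := two_lt_card (a := 1) (b := ⟨x, inv x hx x1.2⟩) (c := ⟨y, inv y hy y1.2⟩)
      (fun e => x1.1 (congrArg Subtype.val e).symm) (fun e => y1.1 (congrArg Subtype.val e).symm) fun e => xy (congrArg Subtype.val e)
    omega
  have hF := GaloisField.card 2 n (by omega)
  obtain ⟨π, ψ, co⟩ := exists_coK (F := GaloisField 2 n) (K := K) (C := Q0 P) (B := ⊥) (bot_lt_iff_ne_bot.2 fun e => z1.1 (mem_bot.1 (e ▸ hz)))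
    nZ (normalizer_eq_top (⊥ : Subgroup G) ▸ le_top) (commutator_le.2 fun a ha b hb => mem_bot.2 (commutatorElement_eq_one_iff_mul_comm.2 (Q0_comm ha hb.1)))
    (fun a ha => mem_bot.2 (Q0_sq ha)) hK (fun N _ h2 h3 => by
      by_cases h4 : N = ⊥
      · exact Or.inl h4
      obtain ⟨⟨a, ha⟩, a1⟩ := ne_bot_iff_exists_ne_one.1 h4
      refine Or.inr (le_antisymm h2 fun b hb => ?_)
      by_cases b1 : b = 1
      · exact b1 ▸ one_mem _
      obtain ⟨k, hk, rfl⟩ := tr a (h2 ha).1 b hb.1 ⟨fun e => a1 (Subtype.ext e), (h2 ha).2.1⟩ ⟨b1, hb.2.1⟩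
      exact conj_mem_of_le_normalizer h3 hk ha) (by rw [hc, hn, hF])
    fun k hk e => fr k hk z hz.1 z1 (by have := mem_bot.1 (e z hz); rw [← mul_inv_eq_one, ← this]; group)
  refine ⟨n, π, ψ, n2, hF, hP, nm, Q0_le P, fun a ha b hb => Q0_comm ha hb, inv, co, ?_⟩
  have x0 : π x ≠ 0 := fun e => x1.1 (mem_bot.1 ((co.ker x (inv x hx x1.2)).1 e))
  have y0 : π y ≠ 0 := fun e => y1.1 (mem_bot.1 ((co.ker y (inv y hy y1.2)).1 e))
  by_cases e : π x = 1
  · refine ⟨π y, y0, fun e' => xy (mul_inv_eq_one.1 (mem_bot.1 ((co.eq_iff (inv x hx x1.2) (inv y hy y1.2)).1 (e.trans e'.symm))))⟩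
  · exact ⟨π x, x0, e⟩

theorem exists_split [CharP F 2] {E : Type*} (op : E → E → E) (e : E) (h1 : ∀ a b c, op (op a b) c = op a (op b c))
    (h2 : ∀ a, op e a = a) (h3 : ∀ a, op a a = e) (ι : F → E) (h4 : ∀ a b, ι (a + b) = op (ι a) (ι b)) (h5 : Function.Injective ι) :
    ∃ y : E → F, (∀ u v, y (op u v) = y u + y v) ∧ ∀ c, y (ι c) = c := by
  letI : Add E := ⟨op⟩
  letI : Zero E := ⟨e⟩
  letI : Neg E := ⟨id⟩
  letI : AddGroup E := AddGroup.ofLeftAxioms h1 h2 h3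
  have h6 : ∀ a : E, a + a = 0 := h3
  have h7 : ∀ a b : E, a + b = b + a := fun a b => by
    rw [← neg_eq_of_add_eq_zero_right (h6 (a + b)), neg_add_rev, neg_eq_of_add_eq_zero_right (h6 a), neg_eq_of_add_eq_zero_right (h6 b)]
  letI : AddCommGroup E := { add_comm := h7 }
  letI : Module (ZMod 2) E := AddCommGroup.zmodModule fun a => by rw [two_nsmul, h6]
  letI : Algebra (ZMod 2) F := ZMod.algebra F 2
  obtain ⟨y, hy⟩ := ((AddMonoidHom.mk' ι h4).toZModLinearMap 2).exists_leftInverse_of_injective (LinearMap.ker_eq_bot.2 h5)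
  exact ⟨y, y.map_add, fun c => LinearMap.congr_fun hy c⟩

/-- coordinates `(α, y)` on a Suzuki 2-group of type A -/
structure TA (P Z K : Subgroup G) (θ : F ≃+* F) (α y κ : G → F) : Prop where
  sg : SG P Z K y fun k => κ k * θ (κ k)
  co : CoK K P Z α κ
  ymul : ∀ u ∈ P, ∀ v ∈ P, y (u * v) = y u + y v + θ (α u) * α v
  yact : ∀ k ∈ K, ∀ u ∈ P, y (k * u * k⁻¹) = κ k * θ (κ k) * y u

namespace TA
variable [Finite F] [CharP F 2] [Finite G] {P Z K : Subgroup G} {θ : F ≃+* F} {α y κ : G → F} (h : TA P Z K θ α y κ)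
include h

theorem y1 : y 1 = 0 := h.sg.co.one
theorem ext {u v : G} (hu : u ∈ P) (hv : v ∈ P) (e1 : α u = α v) (e2 : y u = y v) : u = v := by
  have hz := (h.co.eq_iff hu hv).1 e1
  have := h.ymul _ (h.co.le hz) v hv
  rw [inv_mul_cancel_right, h.co.of_mem hz, map_zero, zero_mul, add_zero, e2, right_eq_add, h.sg.Z0 hz] at this
  exact mul_inv_eq_one.1 this
theorem surj (a b : F) : ∃ u ∈ P, α u = a ∧ y u = b := by
  obtain ⟨u, hu, rfl⟩ := h.co.surj a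
  obtain ⟨z, hz, e⟩ := h.sg.co.surj (b - y u)
  refine ⟨z * u, P.mul_mem (h.co.le hz) hu, by rw [h.co.add _ (h.co.le hz) _ hu, h.co.of_mem hz, zero_add], ?_⟩
  rw [h.ymul _ (h.co.le hz) _ hu, h.co.of_mem hz, e]; simp
theorem yinv {u : G} (hu : u ∈ P) : y u⁻¹ = y u + θ (α u) * α u := by
  have := h.ymul u hu _ (P.inv_mem hu)
  rw [mul_inv_cancel, h.y1, h.co.inv hu] at this
  linear_combination -this - (y u) * two0 (F := F)
theorem ainv {u : G} (hu : u ∈ P) : α u⁻¹ = α u := by rw [h.co.inv hu]; linear_combination - α u * two0 (F := F)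
theorem inj (x : F) (e : x * θ x = 1) : x = 1 := by
  obtain ⟨k, hk, rfl⟩ := h.co.psurj x (by rintro rfl; simp at e)
  rw [h.sg.co.pinj k hk e, h.co.pone]
theorem odd : Odd (orderOf θ) := odd_of_inj h.inj
theorem ne_refl (hn : ¬ ∀ a ∈ P, ∀ b ∈ P, a * b = b * a) : θ ≠ RingEquiv.refl F := fun e => hn fun a ha b hb =>
  h.ext (P.mul_mem ha hb) (P.mul_mem hb ha) (by rw [h.co.add a ha b hb, h.co.add b hb a ha, add_comm])
    (by rw [h.ymul a ha b hb, h.ymul b hb a ha, e]; simp; ring)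
end TA

namespace SG
variable [Finite F] [CharP F 2] [Finite G] {P Z K : Subgroup G} {π ψ : G → F} (h : SG P Z K π ψ)
include h

theorem q2 : 2 < Nat.card F := by
  obtain ⟨a, a0, a1⟩ := h.four
  exact two_lt_card zero_ne_one a0.symm a1.symm

theorem irr_sq (hc : Nat.card P = Nat.card F ^ 2) {N : Subgroup G} (h1 : Z ≤ N) (h2 : N ≤ P) (h3 : K ≤ normalizer (N : Set G)) :
    N = Z ∨ N = P := by
  obtain ⟨m, hm⟩ := h.card_pow N h2 h3
  have q := h.q2
  have e1 := card_le_of_le h1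
  have e2 := card_le_of_le h2
  rw [h.cardZ, hm] at e1
  rw [hc, hm, Nat.pow_le_pow_iff_right (by omega)] at e2
  obtain rfl | rfl | rfl : m = 0 ∨ m = 1 ∨ m = 2 := by omega
  · simp at e1; omega
  · exact Or.inl (eq_of_le_of_card_ge h1 (by rw [hm, h.cardZ, pow_one])).symm
  · exact Or.inr (eq_of_le_of_card_ge h2 (by rw [hm, hc]))

theorem ne_Z (hn : ¬ ∀ a ∈ P, ∀ b ∈ P, a * b = b * a) : P ≠ Z := fun e => hn fun a ha b hb => h.Zc a (e ▸ ha) b hb

theorem card23 (hn : ¬ ∀ a ∈ P, ∀ b ∈ P, a * b = b * a) : Nat.card P = Nat.card F ^ 2 ∨ Nat.card P = Nat.card F ^ 3 :=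
  (h.gauss (h.higman hn) (h.ne_Z hn) (I := ⊥) bot_ne_top).imp id And.left

theorem cent_Z (hn : ¬ ∀ a ∈ P, ∀ b ∈ P, a * b = b * a) {w : G} (hw : w ∈ P) (hc : ∀ u ∈ P, w * u = u * w) : w ∈ Z := by
  rcases h.gauss (h.higman hn) (h.ne_Z hn) (I := ⊥) bot_ne_top with e | e
  · rcases h.irr_sq e (N := P ⊓ centralizer (P : Set G)) (le_inf h.Zle fun z hz u hu => (h.Zc z hz u hu).symm) inf_le_left
      (normalizer_inf h.nm (normalizer_centralizer h.nm)) with e1 | e1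
    · exact e1 ▸ ⟨hw, fun u hu => (hc u hu).symm⟩
    · exact absurd (fun a ha b hb => (e1.ge hb).2 a ha) hn
  · exact e.2 w hw fun u hu => by rw [commutatorElement_eq_one_iff_mul_comm.2 (hc u hu), h.co.one]; exact zero_mem _

theorem typeA (hΦ : Phi P ≤ Z) (hc : Nat.card P = Nat.card F ^ 2) : ∃ (θ : F ≃+* F) (α y κ : G → F), TA P Z K θ α y κ := by
  have q := h.q2
  have hlt : Z < P := lt_of_le_of_ne h.Zle fun e => by
    have := h.cardZ; rw [e, hc] at this; nlinarith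
  obtain ⟨π1, ψ1, h1⟩ := h.coK le_rfl hlt h.nm h.co.nm hΦ fun N a b c => h.irr_sq hc a b c
  obtain ⟨χ, hχ⟩ := h1.mk_fun (f := fun x => π (x * x)) fun x hx b hb => by
    rw [h.sq_mul hΦ hx (h.Zle hb), h.Zsq hb, commutatorElement_eq_one_iff_mul_comm.2 (h.Zc b hb x hx), h.co.one, add_zero, add_zero]
  obtain ⟨β, hβ⟩ := h1.mk_biadd h1.toCo (b := fun x y => π ⁅x, y⁆) (fun x hx x' hx' y hy => h.c_left hΦ hx hx' hy)
    (fun x hx y hy y' hy' => h.c_right hΦ hx hy hy') (fun x hx y hy => by rw [commutatorElement_eq_one_iff_mul_comm.2 (h.Zc x hx y hy), h.co.one])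
    fun x hx y hy => by rw [commutatorElement_eq_one_iff_mul_comm.2 (h.Zc y hy x hx).symm, h.co.one]
  have pol : ∀ x y, χ (x + y) = χ x + χ y + β y x := fun x y => by
    obtain ⟨u, hu, rfl⟩ := h1.surj x
    obtain ⟨v, hv, rfl⟩ := h1.surj y
    rw [← h1.add u hu v hv, hχ _ (P.mul_mem hu hv), hχ _ hu, hχ _ hv, hβ v hv u hu, h.sq_mul hΦ hu hv]
  obtain ⟨ρ, ρ0, -, hρ⟩ := h1.exists_rho h.co
  obtain ⟨u1, hu1, e1⟩ := h1.surj 1
  have e2 : ∀ x, χ x = ρ x * χ 1 := fun x => by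
    by_cases x0 : x = 0
    · rw [x0, ρ0, zero_mul]; have := hχ 1 P.one_mem; rwa [h1.one, mul_one, h.co.one] at this
    obtain ⟨k, hk, rfl⟩ := h1.psurj x x0
    rw [hρ k hk, ← e1, hχ _ hu1, ← h.co.act k hk _ (h.sZ hΦ hu1), ← mul_one (ψ1 k), ← e1, ← h1.act k hk u1 hu1, hχ _ (h1.cC hk hu1)]
    congr 1; group
  have χ1 : χ 1 ≠ 0 := fun e => by
    rw [← e1, hχ _ hu1, h.Z0 (h.sZ hΦ hu1)] at e
    exact one_ne_zero (e1 ▸ h1.of_mem (h.inv u1 hu1 e))
  obtain ⟨σ, τ, hστ⟩ := quad_mul ρ fun x y z => mul_right_cancel₀ χ1 (by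
    simp only [add_mul, ← e2, pol, map_add, AddMonoidHom.add_apply, zero_mul]
    linear_combination (2 * (χ x + χ y + χ z) + β y x + β z x + β z y) * two0 (F := F))
  set θ := σ.symm.trans τ with hθ
  have c1 := h1.map σ
  set α : G → F := fun x => σ (π1 x) with hα
  set κ : G → F := fun x => σ (ψ1 x) with hκ
  have cZ := h.co.smul (inv_ne_zero χ1)
  set π' : G → F := fun x => (χ 1)⁻¹ * π x with hπ'
  have sq : ∀ u ∈ P, π' (u * u) = θ (α u) * α u := fun u hu => by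
    simp only [hπ', hα, hθ, ← hχ u hu, e2 (π1 u), hστ, RingEquiv.trans_apply, RingEquiv.symm_apply_apply]; field_simp
  have hψ : ∀ k ∈ K, ψ k = κ k * θ (κ k) := fun k hk => by simp [hκ, hθ, ← hρ k hk, hστ]
  obtain ⟨ζ, ζ1, ζ2⟩ := cZ.exists_sec
  have ζa : ∀ a b, ζ (a + b) = ζ a * ζ b := fun a b => mul_inv_eq_one.1 (mem_bot.1 ((cZ.eq_iff (ζ1 _) (Z.mul_mem (ζ1 a) (ζ1 b))).1
    (by rw [cZ.add _ (ζ1 a) _ (ζ1 b), ζ2, ζ2, ζ2])))
  have ζπ : ∀ z ∈ Z, ζ (π' z) = z := fun z hz => mul_inv_eq_one.1 (mem_bot.1 ((cZ.eq_iff (ζ1 _) hz).1 (ζ2 _)))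
  have ζ0 : ζ 0 = 1 := by rw [← cZ.one, ζπ 1 Z.one_mem]
  have αz : ∀ u ∈ P, ∀ c, α (u * ζ c) = α u := fun u hu c => by rw [c1.add u hu _ (h.Zle (ζ1 c)), c1.of_mem (ζ1 c), add_zero]
  obtain ⟨y0, hy0, hy1⟩ := exists_split (F := F) (E := P) (fun u v => u * v * ⟨ζ (θ (α u) * α v), h.Zle (ζ1 _)⟩) 1
    (fun a b c => Subtype.ext (by
      simp only [Subgroup.coe_mul]
      rw [αz _ (P.mul_mem a.2 b.2), αz _ (P.mul_mem b.2 c.2), c1.add _ a.2 _ b.2, c1.add _ b.2 _ c.2, mul_assoc (a * b : G), h.Zc _ (ζ1 _) _ c.2]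
      simp only [mul_assoc, ← ζa]; congr 4; rw [map_add]; ring))
    (fun a => Subtype.ext (by simp [c1.one, ζ0]))
    (fun a => Subtype.ext (by simp only [Subgroup.coe_mul, ← sq a a.2, ζπ _ (h.sZ hΦ a.2), h.Zsq (h.sZ hΦ a.2), coe_one]))
    (fun c => ⟨ζ c, h.Zle (ζ1 c)⟩) (fun a b => Subtype.ext (by simp [c1.of_mem (ζ1 a), ζ0, ζa]))
    fun a b e => by rw [← ζ2 a, ← ζ2 b, show ζ a = ζ b from congrArg Subtype.val e]
  have hy2 : ∀ u v : P, y0 (u * v) = y0 u + y0 v + θ (α u) * α v := fun u v => by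
    rw [← hy0, ← congrArg (_ + ·) (hy1 (θ (α u) * α v)), ← hy0]; congr 1
    exact Subtype.ext (by simp [c1.of_mem (ζ1 _), ζ0, mul_assoc, h.Zsq (ζ1 _)])
  classical
  haveI := Fintype.ofFinite K
  let y1 : G → F := fun u => if hu : u ∈ P then y0 ⟨u, hu⟩ else 0
  have m1 : ∀ u ∈ P, ∀ v ∈ P, y1 (u * v) = y1 u + y1 v + θ (α u) * α v := fun u hu v hv => by
    simp only [y1, dif_pos hu, dif_pos hv, dif_pos (P.mul_mem hu hv)]; exact hy2 ⟨u, hu⟩ ⟨v, hv⟩
  have m2 : ∀ z ∈ Z, y1 z = π' z := fun z hz => by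
    simp only [y1, dif_pos (h.Zle hz)]; rw [← hy1 (π' z)]; congr 1; exact Subtype.ext (ζπ z hz).symm
  have cK : (Fintype.card K : F) = 1 := by
    obtain ⟨m, hm⟩ := Nat.coprime_two_right.1 h.oddK
    rw [← Nat.card_eq_fintype_card, hm]; push_cast; linear_combination (m : F) * two0 (F := F)
  let y : G → F := fun u => ∑ k : K, (ψ k)⁻¹ * y1 (k * u * (k : G)⁻¹)
  have m3 : ∀ z ∈ Z, y z = π' z := fun z hz => by
    rw [show y z = ∑ _k : K, π' z from Finset.sum_congr rfl fun k _ => by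
      rw [m2 _ (cZ.cC k.2 hz), cZ.act _ k.2 z hz, inv_mul_cancel_left₀ (cZ.pne k.2)]]
    simp [cK]
  have cZ' : CoK K Z ⊥ y fun k => κ k * θ (κ k) :=
    { le := bot_le, nm := cZ.nm, add := fun a ha b hb => by rw [m3 a ha, m3 b hb, m3 _ (Z.mul_mem ha hb), cZ.add a ha b hb]
      ker := fun a ha => by rw [m3 a ha, cZ.ker a ha]
      surj := fun a => ⟨ζ a, ζ1 a, by rw [m3 _ (ζ1 a), ζ2]⟩
      act := fun k hk a ha => by rw [m3 a ha, m3 _ (cZ.cC hk ha), cZ.act k hk a ha, hψ k hk]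
      psurj := fun a a0 => by obtain ⟨k, hk, e⟩ := cZ.psurj a a0; exact ⟨k, hk, by rw [← hψ k hk, e]⟩
      pinj := fun k hk e => cZ.pinj k hk (by rw [hψ k hk, e]) }
  refine ⟨θ, α, y, κ, ⟨h.isP, h.nm, h.Zle, h.Zc, h.inv, cZ', h.four⟩, c1, fun u hu v hv => ?_, fun l hl u hu => ?_⟩
  · rw [show y (u * v) = ∑ k : K, ((ψ k)⁻¹ * y1 (k * u * (k : G)⁻¹) + (ψ k)⁻¹ * y1 (k * v * (k : G)⁻¹) + θ (α u) * α v) from
      Finset.sum_congr rfl fun k _ => by
        rw [show (k : G) * (u * v) * (k : G)⁻¹ = k * u * (k : G)⁻¹ * (k * v * (k : G)⁻¹) by group, m1 _ (c1.cC k.2 hu) _ (c1.cC k.2 hv),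
          c1.act _ k.2 u hu, c1.act _ k.2 v hv, hψ _ k.2, map_mul]
        have := c1.pne k.2
        have := (map_ne_zero θ).2 this
        field_simp]
    simp [Finset.sum_add_distrib, cK, y]
  · rw [← hψ l hl]
    simp only [y, Finset.mul_sum]
    refine Fintype.sum_equiv (Equiv.mulRight ⟨l, hl⟩) _ _ fun k => ?_
    have := cZ.pne hl
    simp only [Equiv.coe_mulRight, Subgroup.coe_mul, cZ.pmul k.2 hl, coe_inv, mul_inv_rev, mul_assoc]
    field_simp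
end SG
end SE
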