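/-
SE.Sg2: bridges for Suzuki 2-groups; the field automorphisms induced by `V`; fusion in `V`.
-/
import Cfsg.Agent.SE.Sg
import Cfsg.Agent.SE.Kc
import Cfsg.Prelude.Def_LieRecognition

set_option autoImplicit false

namespace SE
open Subgroup H9 L
open scoped commutatorElement
universe u
variable {G : Type u} [Group G] {F : Type*} [Field F]

theorem CoK.cyc [Finite G] {K C B : Subgroup G} {π ψ : G → F} (h : CoK K C B π ψ) : IsCyclic K :=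
  isCyclic_of_injective_ringHom ({ toFun := fun k => ψ k, map_one' := h.pone, map_mul' := fun a b => h.pmul a.2 b.2 } : K →* F)
    fun a b e => Subtype.ext (h.peq a.2 b.2 e)

theorem CoK.semilin [Finite F] [CharP F 2] {K C B : Subgroup G} {π ψ : G → F} (h : CoK K C B π ψ) {v : G}
    (nC : v ∈ normalizer (C : Set G)) (nB : v ∈ normalizer (B : Set G)) (nK : v ∈ normalizer (K : Set G)) :
    ∃ (σ : F ≃+* F) (c : F), c ≠ 0 ∧ (∀ k ∈ K, ψ (v * k * v⁻¹) = σ (ψ k)) ∧ ∀ x ∈ C, π (v * x * v⁻¹) = c * σ (π x) := by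
  have cC : ∀ x ∈ C, v * x * v⁻¹ ∈ C := fun x hx => conj_mem_of_le_normalizer le_rfl nC hx
  obtain ⟨φ, hφ⟩ := h.mk_add (f := fun x => π (v * x * v⁻¹)) (fun x hx y hy => by
    rw [← h.add _ (cC x hx) _ (cC y hy)]; congr 1; group) fun x hx => h.of_mem (conj_mem_of_le_normalizer le_rfl nB hx)
  have e1 : ∀ k ∈ K, ∀ a, φ (ψ k * a) = ψ (v * k * v⁻¹) * φ a := fun k hk a => by
    obtain ⟨x, hx, rfl⟩ := h.surj a
    rw [← h.act k hk x hx, hφ _ (h.cC hk hx), hφ x hx, ← h.act _ (conj_mem_of_le_normalizer le_rfl nK hk) _ (cC x hx)]; congr 1; group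
  have c0 : φ 1 ≠ 0 := fun e => by
    obtain ⟨x, hx, e2⟩ := h.surj 1
    rw [← e2, hφ x hx, h.ker _ (cC x hx)] at e
    have := conj_mem_of_le_normalizer' le_rfl nB e
    rw [show v⁻¹ * (v * x * v⁻¹) * v = x by group, ← h.ker x hx, e2] at this
    exact one_ne_zero this
  have e2 : ∀ k ∈ K, φ (ψ k) = ψ (v * k * v⁻¹) * φ 1 := fun k hk => by rw [← e1 k hk, mul_one]
  have e4 : ∀ a b, φ (a * b) / φ 1 = φ a / φ 1 * (φ b / φ 1) := fun a b => by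
    by_cases a0 : a = 0
    · simp [a0]
    obtain ⟨k, hk, rfl⟩ := h.psurj a a0
    rw [e1 k hk, e2 k hk]; field_simp
  obtain ⟨σ, hσ⟩ := add_mul_aut ({ toFun := fun a => φ a / φ 1, map_one' := div_self c0, map_mul' := e4 } : F →* F) fun x y => by simp [add_div]
  have e3 : ∀ a, φ a = φ 1 * σ a := fun a => by rw [← hσ]; simp; field_simp
  exact ⟨σ, φ 1, c0, fun k hk => mul_right_cancel₀ c0 (by rw [← e2 k hk, e3, mul_comm]), fun x hx => by rw [← hφ x hx, e3]⟩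

theorem suz_equiv {P P' : Type*} [Group P] [Group P'] (e : P ≃* P') (h : Cfsg.IsSuzukiTwoGroup P) : Cfsg.IsSuzukiTwoGroup P' := by
  obtain ⟨h1, h2, ⟨x, y, h3⟩, ⟨a, b, ab, a1, a2, b1, b2⟩, K, hK, h5⟩ := h
  refine ⟨Finite.of_equiv _ e.toEquiv, h2.of_equiv e, ⟨e x, e y, fun h => h3 (e.injective (by simpa using h))⟩,
    ⟨e a, e b, by simpa, by simpa, by rw [← map_mul, a2, map_one], by simpa, by rw [← map_mul, b2, map_one]⟩,
    K.map (MulAut.congr e).toMonoidHom, isCyclic_of_surjective _ (K.equivMapOfInjective _ (MulAut.congr e).injective).surjective,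
    fun x y x1 x2 y1 y2 => ?_⟩
  obtain ⟨k, hk, hu⟩ := h5 (e.symm x) (e.symm y) (by simpa) (by rw [← map_mul, x2, map_one]) (by simpa) (by rw [← map_mul, y2, map_one])
  refine ⟨⟨_, mem_map_of_mem _ k.2⟩, by simp [hk], ?_⟩
  rintro ⟨_, l, hl, rfl⟩ h
  rw [← hu ⟨l, hl⟩ (e.injective (by simpa using h))]

theorem SG.isSuz [Finite F] [CharP F 2] [Finite G] {P Z K : Subgroup G} {π ψ : G → F} (h : SG P Z K π ψ)
    (hn : ¬ ∀ a ∈ P, ∀ b ∈ P, a * b = b * a) : Cfsg.IsSuzukiTwoGroup P := by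
  haveI := h.co.cyc
  let ρ : K →* MulAut P := P.normalizerMonoidHom.comp (inclusion h.nm)
  have hρ : ∀ (k : K) (x : P), ((ρ k x : P) : G) = k * x * (k : G)⁻¹ := fun _ _ => rfl
  refine ⟨inferInstance, h.isP, by by_contra! e; exact hn fun a ha b hb => congrArg Subtype.val (e ⟨a, ha⟩ ⟨b, hb⟩), ?_,
    ρ.range, isCyclic_of_surjective _ ρ.rangeRestrict_surjective, fun x y x1 x2 y1 y2 => ?_⟩
  · obtain ⟨c, c0, c1⟩ := h.four
    obtain ⟨a, ha, e1⟩ := h.co.surj 1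
    obtain ⟨b, hb, e2⟩ := h.co.surj c
    refine ⟨⟨a, h.Zle ha⟩, ⟨b, h.Zle hb⟩, fun e => c1 (by rw [← e2, ← e1, show a = b from congrArg Subtype.val e]), fun e => ?_,
      Subtype.ext (h.Zsq ha), fun e => c0 ?_, Subtype.ext (h.Zsq hb)⟩
    · exact one_ne_zero (by rw [← e1, show a = 1 from congrArg Subtype.val e, h.co.one])
    · rw [← e2, show b = 1 from congrArg Subtype.val e, h.co.one]
  · have hx := h.inv x x.2 (congrArg Subtype.val x2)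
    have hy := h.inv y y.2 (congrArg Subtype.val y2)
    have x0 : π x ≠ 0 := fun e => x1 (Subtype.ext ((h.Z0 hx).1 e))
    have y0 : π y ≠ 0 := fun e => y1 (Subtype.ext ((h.Z0 hy).1 e))
    obtain ⟨k, hk, e⟩ := h.co.psurj (π y / π x) (div_ne_zero y0 x0)
    refine ⟨⟨ρ ⟨k, hk⟩, _, rfl⟩, Subtype.ext (h.Zeq (h.co.cC hk hx) hy ((h.co.act k hk _ hx).trans (by rw [e]; field_simp))), ?_⟩
    rintro ⟨_, l, rfl⟩ e1
    have e2 := congrArg (fun z : P => π z) e1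
    simp only [hρ, h.co.act _ l.2 _ hx] at e2
    rw [show l = ⟨k, hk⟩ from Subtype.ext (h.co.peq l.2 hk (by rw [e, ← e2]; field_simp))]

theorem exists_of_suz {P : Type u} [Group P] (h : Cfsg.IsSuzukiTwoGroup P) : ∃ (Γ : Type u) (_ : Group Γ) (_ : Finite Γ)
    (i : P →* Γ) (K : Subgroup Γ) (n : ℕ) (π ψ : Γ → GaloisField 2 n), Function.Injective i ∧ 2 ≤ n ∧
    Nat.card (GaloisField 2 n) = 2 ^ n ∧ SG i.range (Q0 i.range) K π ψ ∧ ¬ ∀ a ∈ i.range, ∀ b ∈ i.range, a * b = b * a := by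
  obtain ⟨h1, h2, ⟨x, y, h3⟩, ⟨a, b, ab, a1, a2, b1, b2⟩, K, hK, h5⟩ := h
  obtain ⟨Γ, _, _, i, j, hi, hj, e, -, -, hN⟩ := H1.exists_ambient K.subtype
  have iv : ∀ x, Inv (i x) → x ≠ 1 ∧ x * x = 1 := fun x hx => ⟨fun e => hx.1 (by rw [e, map_one]), hi (by rw [map_mul, hx.2, map_one])⟩
  have iv' : ∀ x, x ≠ 1 → x * x = 1 → Inv (i x) := fun x h1 h2 => ⟨fun e => h1 (hi (by rw [e, map_one])), by rw [← map_mul, h2, map_one]⟩
  obtain ⟨n, π, ψ, n2, hF, sg⟩ := exists_SG (P := i.range) (K := j.range) (h2.of_surjective _ i.rangeRestrict_surjective)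
    (normalizer_eq_top i.range ▸ le_top) (by
      rintro _ ⟨k, rfl⟩ _ ⟨l, rfl⟩
      letI := IsCyclic.commGroup (α := K)
      rw [← map_mul, mul_comm, map_mul]) (by
      rintro _ ⟨x, rfl⟩ _ ⟨y, rfl⟩ hx hy
      obtain ⟨k, hk, -⟩ := h5 x y (iv x hx).1 (iv x hx).2 (iv y hy).1 (iv y hy).2
      exact ⟨_, ⟨k, rfl⟩, by rw [e, ← hk]; rfl⟩) (by
      rintro _ ⟨k, rfl⟩ _ ⟨x, rfl⟩ hx e1
      obtain ⟨l, -, hu⟩ := h5 x x (iv x hx).1 (iv x hx).2 (iv x hx).1 (iv x hx).2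
      rw [hu k (hi (by rw [← mul_inv_eq_iff_eq_mul, e] at e1; exact e1)), ← hu 1 rfl, map_one])
    ⟨_, ⟨a, rfl⟩, _, ⟨b, rfl⟩, iv' a a1 a2, iv' b b1 b2, fun e => ab (hi e)⟩
  exact ⟨Γ, _, inferInstance, i, _, n, π, ψ, hi, n2, hF, sg, fun e => h3 (hi (by rw [map_mul, map_mul, e _ ⟨x, rfl⟩ _ ⟨y, rfl⟩]))⟩

theorem suz_center {P : Type u} [Group P] {Γ : Type u} [Group Γ] [Finite Γ] [Finite F] [CharP F 2] {i : P →* Γ} {K : Subgroup Γ}
    {π ψ : Γ → F} (hi : Function.Injective i) (h : SG i.range (Q0 i.range) K π ψ) (hn : ¬ ∀ a ∈ i.range, ∀ b ∈ i.range, a * b = b * a) :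
    (∀ x, x ∈ center P ↔ i x ∈ Q0 i.range) ∧ Nat.card (center P) = Nat.card F ∧ Nat.card P = Nat.card i.range := by
  have e : ∀ x, x ∈ center P ↔ i x ∈ Q0 i.range := fun x => ⟨fun hx => h.cent_Z hn ⟨x, rfl⟩ (by
    rintro _ ⟨y, rfl⟩; rw [← map_mul, ← mem_center_iff.1 hx y, map_mul]), fun hx => mem_center_iff.2 fun y => hi (by
      rw [map_mul, map_mul, hx.2.2 _ ⟨y, rfl⟩])⟩
  refine ⟨e, ?_, Nat.card_congr (MonoidHom.ofInjective hi).toEquiv⟩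
  rw [← h.cardZ, ← card_map_of_injective hi]; congr 2
  exact le_antisymm (by rintro _ ⟨x, hx, rfl⟩; exact (e x).1 hx) fun y hy => by obtain ⟨x, rfl⟩ := hy.1; exact ⟨x, (e x).2 hy, rfl⟩

theorem TA.equiv [Finite F] [CharP F 2] [Finite G] {P Z K : Subgroup G} {θ : F ≃+* F} {α y κ : G → F} (h : TA P Z K θ α y κ) :
    Nonempty (P ≃* Cfsg.suzukiTypeA F (θ : F →+* F)) := by
  let M : G → Matrix (Fin 3) (Fin 3) F := fun u => !![1, 0, 0; α u, 1, 0; y u, θ (α u), 1]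
  have mm : ∀ u ∈ P, ∀ v ∈ P, M (u * v) = M u * M v := fun u hu v hv => by
    simp only [M, h.co.add u hu v hv, h.ymul u hu v hv, map_add]
    ext i j; fin_cases i <;> fin_cases j <;> simp [Matrix.mul_apply, Fin.sum_univ_three] <;> ring
  have m1 : M 1 = 1 := by
    simp only [M, h.co.one, h.y1, map_zero]; ext i j; fin_cases i <;> fin_cases j <;> simp
  let f : P →* GL (Fin 3) F := ({ toFun := fun u => M u, map_one' := m1, map_mul' := fun a b => mm a a.2 b b.2 } : P →* _).toHomUnits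
  have hf : Function.Injective f := fun a b e => by
    have e1 : M a = M b := congrArg Units.val e
    exact Subtype.ext (h.ext a.2 b.2 (by simpa [M] using congrFun (congrFun e1 1) 0) (by simpa [M] using congrFun (congrFun e1 2) 0))
  refine ⟨(MonoidHom.ofInjective hf).trans (MulEquiv.subgroupCongr (le_antisymm ?_ ((closure_le _).2 ?_)))⟩
  · rintro _ ⟨u, rfl⟩; exact subset_closure ⟨α u, y u, rfl⟩
  · rintro g ⟨a, b, e⟩
    obtain ⟨u, hu, rfl, rfl⟩ := h.surj a b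
    exact ⟨⟨u, hu⟩, Units.ext e.symm⟩

theorem R1.fus {H Q : Subgroup G} {t : G} (h : R1 H Q t) {X : Set G} (hX : ∀ x ∈ X, x ∈ VV H t) {g : G}
    (hg : ∀ x ∈ X, g * x * g⁻¹ ∈ DD H t) : ∃ d ∈ DD H t, ∀ x ∈ X, d * x * d⁻¹ = g * x * g⁻¹ := by
  have key : ∀ g ∈ H, (∀ x ∈ X, g * x * g⁻¹ ∈ DD H t) → ∃ d ∈ DD H t, ∀ x ∈ X, d * x * d⁻¹ = g * x * g⁻¹ := fun g gH hg => by
    obtain ⟨y, hy, d, hd, rfl⟩ := h.dec g gH
    exact ⟨d, hd, fun x hx => by rw [(h.cent_dec hy hd (VV_le (hX x hx)) (hg x hx) (by group)).2]; group⟩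
  by_cases gH : g ∈ H
  · exact key g gH hg
  obtain ⟨a, ha, y, hy, rfl⟩ := h.bru g gH
  have e : ∀ x ∈ X, a * x * a⁻¹ = a * t * y * x * (a * t * y)⁻¹ := fun x hx => by
    have := (h.cent_bru ha hy (VV_le (hX x hx)) (DD_le (hg x hx)) (by group)).2
    rw [((mem_VV' h.tt).1 (hX x hx)).2] at this
    rw [this]; group
  obtain ⟨d, hd, e1⟩ := key a ha fun x hx => e x hx ▸ hg x hx
  exact ⟨d, hd, fun x hx => (e1 x hx).trans (e x hx)⟩

theorem R1.VK {H Q : Subgroup G} {t : G} (h : R1 H Q t) {x : G} (h1 : x ∈ VV H t) (h2 : x ∈ KK H t) : x = 1 :=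
  eq_one_of_sq (h.K_odd h2) (by
    have := KK.kt h.tt h2
    rw [(mem_VV.1 h1).2, mul_right_inj] at this
    nth_rewrite 2 [this]; exact mul_inv_cancel x)

namespace R2
variable [Finite G] {H Q : Subgroup G} {t : G} (h : R2 H Q t)
include h

theorem fusV {X : Set G} (hX : ∀ x ∈ X, x ∈ VV H t) {g : G} (hg : ∀ x ∈ X, g * x * g⁻¹ ∈ VV H t) :
    ∃ v ∈ VV H t, ∀ x ∈ X, v * x * v⁻¹ = g * x * g⁻¹ := by
  obtain ⟨d, hd, e⟩ := h.fus hX fun x hx => VV_le (hg x hx)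
  obtain ⟨v, hv, k, hk, rfl⟩ := h.D_dec hd
  refine ⟨v, hv, fun x hx => ?_⟩
  have e1 : k * x * k⁻¹ * x⁻¹ = 1 := h.VK (mul_mem (by
      have := (VV H t).mul_mem ((VV H t).mul_mem (inv_mem hv) (hg x hx)) hv
      rwa [← e x hx, show v⁻¹ * (v * k * x * (v * k)⁻¹) * v = k * x * k⁻¹ by group] at this) (inv_mem (hX x hx)))
    (by rw [mul_assoc, mul_assoc, ← mul_assoc x]; exact h.K_mul hk (h.K_conj (VV_le (hX x hx)) (KK.inv h.tt hk)))
  rw [← e x hx, show v * k * x * (v * k)⁻¹ = v * (k * x * k⁻¹ * x⁻¹ * x) * v⁻¹ by group, e1, one_mul]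

theorem sg {P : Subgroup G} (hP : IsPGroup 2 P) (h1 : P ≤ Q) (h2 : Q0 Q ≤ P) (nm : Ks H t ≤ normalizer (P : Set G)) :
    ∃ (n : ℕ) (π ψ : G → GaloisField 2 n), 2 ≤ n ∧ Nat.card (GaloisField 2 n) = 2 ^ n ∧ SG P (Q0 Q) (Ks H t) π ψ := by
  have e : Q0 P = Q0 Q := le_antisymm (fun x hx => h.mem_Q0 (h.le (h1 hx.1)) hx.2.1) fun x hx => ⟨h2 hx, hx.2.1, fun y hy => hx.2.2 y (h1 hy)⟩
  rw [← e]
  refine exists_SG hP nm (fun a ha b hb => h.K_comm (h.mem_Ks.1 ha) (h.mem_Ks.1 hb)) (fun x hx y hy x1 y1 => ?_)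
    (fun k hk x hx x1 e => h.K_fpf (h.mem_Ks.1 hk) (h1 hx) x1.1 e) ?_
  · obtain ⟨k, hk, e⟩ := h.K_tr (h.mem_Q0 (h.le (h1 hx)) x1.2) x1.1 (h.mem_Q0 (h.le (h1 hy)) y1.2) y1.1
    exact ⟨k, h.mem_Ks.2 hk, e⟩
  · obtain ⟨x, hx, y, hy, x1, y1, e⟩ := h.two
    exact ⟨x, h2 (h.mem_Q0 hx x1.2), y, h2 (h.mem_Q0 hy y1.2), x1, y1, e⟩

theorem Q0_two : IsPGroup 2 (Q0 Q) := fun x => ⟨1, Subtype.ext (by simpa [pow_two] using Q0_sq x.2)⟩

/-- the action of `V` on `Q₀` by field automorphisms -/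
theorem exists_aut [Finite F] [CharP F 2] {π ψ : G → F} (c : CoK (Ks H t) (Q0 Q) ⊥ π ψ) {s r : G} (hs : SR H Q t s r) (h1 : π s = 1) :
    ∃ σ : VV H t →* (F ≃+* F), (∀ v : VV H t, ∀ k ∈ Ks H t, ψ (v * k * (v : G)⁻¹) = σ v (ψ k)) ∧
      (∀ v : VV H t, ∀ x ∈ Q0 Q, π (v * x * (v : G)⁻¹) = σ v (π x)) ∧ ∀ v : VV H t, σ v = 1 ↔ (v : G) ∈ WW H Q t := by
  have s0 : s ∈ Q0 Q := h.mem_Q0 hs.1 hs.2.1.2
  choose σ a a0 e1 e2 using fun v : VV H t => c.semilin (v := v) (h.nQ0 (DD_le (VV_le v.2))) (normalizer_eq_top (⊥ : Subgroup G) ▸ mem_top _)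
    (h.nK (VV_le v.2))
  have e3 : ∀ v : VV H t, ∀ x ∈ Q0 Q, π (v * x * (v : G)⁻¹) = σ v (π x) := fun v x hx => by
    have := e2 v s s0
    rw [(h.SR_V hs v.2).1, mul_inv_cancel_right, h1, map_one, mul_one] at this
    rw [e2 v x hx, ← this, one_mul]
  refine ⟨MonoidHom.mk' σ fun v w => RingEquiv.ext fun b => ?_, e1, e3, fun v => ⟨fun e => ?_, fun e => RingEquiv.ext fun b => ?_⟩⟩
  · obtain ⟨x, hx, rfl⟩ := c.surj b
    rw [← e3 _ x hx, RingAut.mul_apply, ← e3 w x hx, ← e3 v _ (h.cQ0 (DD_le (VV_le w.2)) hx)]; congr 1; simp [mul_assoc]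
  · refine mem_WW.2 ⟨VV_le v.2, fun x hx => ?_⟩
    have := e3 v x hx
    rw [show σ v = 1 from e, RingAut.one_apply, c.eq_iff (h.cQ0 (DD_le (VV_le v.2)) hx) hx, mem_bot, mul_inv_eq_one] at this
    exact (mul_inv_eq_iff_eq_mul.1 this).symm
  · obtain ⟨x, hx, rfl⟩ := c.surj b
    change σ v _ = _
    rw [← e3 v x hx, ← (mem_WW.1 e).2 x hx, mul_inv_cancel_right]; rfl

theorem exists_co : ∃ (n : ℕ) (π ψ : G → GaloisField 2 n) (s r : G), 2 ≤ n ∧ Nat.card (GaloisField 2 n) = 2 ^ n ∧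
    CoK (Ks H t) (Q0 Q) ⊥ π ψ ∧ SR H Q t s r ∧ π s = 1 := by
  obtain ⟨n, π, ψ, n2, hF, sg⟩ := h.sg h.Q0_two (Q0_le Q) le_rfl ((h.Ks_le.trans DD_le).trans h.nQ0)
  obtain ⟨s, r, hs⟩ := h.exists_SR
  have s0 : π s ≠ 0 := fun e => hs.2.1.1 ((sg.Z0 (h.mem_Q0 hs.1 hs.2.1.2)).1 e)
  exact ⟨n, _, ψ, s, r, n2, hF, sg.co.smul (inv_ne_zero s0), hs, inv_mul_cancel₀ s0⟩

theorem VW_cyc : ∃ v ∈ VV H t, ∀ u ∈ VV H t, ∃ m : ℤ, u * (v ^ m)⁻¹ ∈ WW H Q t := by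
  obtain ⟨n, π, ψ, s, r, -, -, c, hs, h1⟩ := h.exists_co
  obtain ⟨σ, -, -, e⟩ := h.exists_aut c hs h1
  haveI := isCyclic_aut (F := GaloisField 2 n)
  obtain ⟨⟨_, v, rfl⟩, hv⟩ := IsCyclic.exists_generator (α := σ.range)
  refine ⟨v, v.2, fun u hu => ?_⟩
  obtain ⟨m, hm⟩ := hv ⟨_, ⟨u, hu⟩, rfl⟩
  exact ⟨m, (e (⟨u, hu⟩ * (v ^ m)⁻¹)).1 (by rw [map_mul, map_inv, map_zpow, mul_inv_eq_one]; exact (congrArg Subtype.val hm).symm)⟩
end R2
end SE
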